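import Cfsg.Agent.Fusion.Basic
import Cfsg.Prelude.Def_SylowChains

/-! Strongly `p`-embedded subgroups and the graph on Sylow `p`-subgroups. -/

set_option autoImplicit false

namespace Cfsg.Agent.LocEven

open Cfsg.Agent.Fusion
open scoped Pointwise

variable {G : Type*} [Group G] {p : ℕ}

/-- The hypothesis used for strongly `p`-embedded subgroups in elementary form. -/
def SEmb (p : ℕ) (H : Subgroup G) : Prop :=
  ∀ g : G, g ∉ H → ¬ p ∣ Nat.card ↥(H ⊓ H.map (MulAut.conj g).toMonoidHom)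

theorem exists_orderOf_of_ne_bot [Finite G] [hp : Fact p.Prime] {U : Subgroup G} (hU : IsPGroup p U)
    (hne : U ≠ ⊥) : ∃ x ∈ U, x ≠ 1 ∧ p ∣ orderOf x := by
  obtain ⟨x, hx, hx1⟩ : ∃ x ∈ U, x ≠ (1 : G) := by
    by_contra h; push Not at h; exact hne ((Subgroup.eq_bot_iff_forall U).2 h)
  refine ⟨x, hx, hx1, ?_⟩
  obtain ⟨k, hk⟩ := IsPGroup.iff_orderOf.1 hU ⟨x, hx⟩
  rw [Subgroup.orderOf_mk] at hk
  rw [hk]
  refine dvd_pow_self p ?_
  rintro rfl
  exact hx1 (orderOf_eq_one_iff.1 (by simpa using hk))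

theorem SEmb.mem_of_conj_mem [Finite G] [Fact p.Prime] {H : Subgroup G} (hH : SEmb p H) {x g : G}
    (hx : p ∣ orderOf x) (hxH : x ∈ H) (hgx : g⁻¹ * x * g ∈ H) : g ∈ H := by
  by_contra hg
  apply hH g hg
  have hmem : x ∈ H ⊓ H.map (MulAut.conj g).toMonoidHom := ⟨hxH, mem_cj.2 hgx⟩
  exact dvd_trans hx (by rw [← Subgroup.orderOf_mk (H := H ⊓ H.map (MulAut.conj g).toMonoidHom) x hmem]; exact orderOf_dvd_natCard _)

theorem SEmb.centralizer_le [Finite G] [Fact p.Prime] {H : Subgroup G} (hH : SEmb p H) {x : G}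
    (hx : p ∣ orderOf x) (hxH : x ∈ H) : Subgroup.centralizer ({x} : Set G) ≤ H := fun g hg => by
  refine hH.mem_of_conj_mem hx hxH ?_
  rw [show g⁻¹ * x * g = x from by
    rw [mul_assoc, ← Subgroup.mem_centralizer_singleton_iff.1 hg, ← mul_assoc, inv_mul_cancel, one_mul]]
  exact hxH

theorem SEmb.normalizer_le [Finite G] [Fact p.Prime] {H U : Subgroup G} (hH : SEmb p H)
    (hU : IsPGroup p U) (hne : U ≠ ⊥) (hUH : U ≤ H) : Subgroup.normalizer (U : Set G) ≤ H := by
  intro g hg
  obtain ⟨x, hx, -, hxp⟩ := exists_orderOf_of_ne_bot hU hne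
  refine hH.mem_of_conj_mem hxp (hUH hx) (hUH ?_)
  simpa using (Subgroup.mem_normalizer_iff.1 ((Subgroup.normalizer (U : Set G)).inv_mem hg) x).1 hx

theorem SEmb.pGroup_le [Finite G] [Fact p.Prime] {H T : Subgroup G} (hH : SEmb p H)
    (hT : IsPGroup p T) {x : G} (hxT : x ∈ T) (hx1 : x ≠ 1) (hxH : x ∈ H) : T ≤ H := by
  have : Nontrivial T := (Subgroup.nontrivial_iff_exists_ne_one T).2 ⟨x, hxT, hx1⟩
  have hxp : p ∣ orderOf x := by
    obtain ⟨k, hk⟩ := IsPGroup.iff_orderOf.1 hT ⟨x, hxT⟩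
    rw [Subgroup.orderOf_mk] at hk
    rw [hk]
    refine dvd_pow_self p ?_
    rintro rfl
    exact hx1 (orderOf_eq_one_iff.1 (by simpa using hk))
  have := IsPGroup.center_nontrivial (G := T) hT
  obtain ⟨⟨z, hz⟩, hz1⟩ := exists_ne (1 : Subgroup.center T)
  have hz1' : (z : G) ≠ 1 := by
    intro h
    exact hz1 (Subtype.ext (Subtype.ext h))
  have hzH : (z : G) ∈ H := by
    refine hH.centralizer_le hxp hxH (Subgroup.mem_centralizer_singleton_iff.2 ?_)
    exact (congrArg Subtype.val (Subgroup.mem_center_iff.1 hz ⟨x, hxT⟩)).symm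
  have hzp : p ∣ orderOf (z : G) := by
    obtain ⟨k, hk⟩ := IsPGroup.iff_orderOf.1 hT z
    rw [← Subgroup.orderOf_coe] at hk
    rw [hk]
    refine dvd_pow_self p ?_
    rintro rfl
    exact hz1' (orderOf_eq_one_iff.1 (by simpa using hk))
  intro t ht
  refine hH.centralizer_le hzp hzH (Subgroup.mem_centralizer_singleton_iff.2 ?_)
  exact congrArg Subtype.val (Subgroup.mem_center_iff.1 hz ⟨t, ht⟩)

theorem SEmb.exists_sylow_le [Finite G] [hp : Fact p.Prime] {H : Subgroup G} (hH : SEmb p H)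
    (hpH : p ∣ Nat.card H) : ∃ P : Sylow p G, (P : Subgroup G) ≤ H := by
  obtain ⟨x, hx⟩ := exists_prime_orderOf_dvd_card' p hpH
  have hxG : orderOf (x : G) = p := by rw [Subgroup.orderOf_coe, hx]
  obtain ⟨P, hP⟩ := IsPGroup.exists_le_sylow (p := p) (P := Subgroup.zpowers (x : G))
    (IsPGroup.of_card (n := 1) (by rw [Nat.card_zpowers, hxG, pow_one]))
  refine ⟨P, hH.pGroup_le P.2 (hP (Subgroup.mem_zpowers _)) ?_ x.2⟩
  intro h
  rw [h, orderOf_one] at hxG
  exact hp.1.one_lt.ne hxG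

/-- Adjacency in the graph on Sylow `p`-subgroups. -/
def Adj (S T : Sylow p G) : Prop := S ≠ T ∧ (S : Subgroup G) ⊓ (T : Subgroup G) ≠ ⊥

theorem chainConnected_iff : Cfsg.IsSylowChainConnected p G ↔
    ∀ S T : Sylow p G, Relation.ReflTransGen Adj S T := by
  constructor
  · intro h S T
    obtain ⟨n, c, h0, hl, -, hadj⟩ := h S T
    have key : ∀ i : Fin (n + 1), Relation.ReflTransGen Adj S (c i) := by
      intro i
      induction i using Fin.induction with
      | zero => rw [h0]
      | succ j ih => exact ih.tail (hadj j)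
    exact hl ▸ key (Fin.last n)
  · intro h S T
    by_cases hST : (S : Subgroup G) ⊓ (T : Subgroup G) = ⊥
    · obtain ⟨n, c, h0, hl, hadj⟩ : ∃ (n : ℕ) (c : Fin (n + 1) → Sylow p G),
          c 0 = S ∧ c (Fin.last n) = T ∧ ∀ i : Fin n, Adj (c i.castSucc) (c i.succ) := by
        clear hST
        induction h S T with
        | refl => exact ⟨0, fun _ => S, rfl, rfl, fun i => i.elim0⟩
        | @tail b c' _ hbc ih =>
          obtain ⟨n, c, h0, hl, hadj⟩ := ih
          refine ⟨n + 1, Fin.snoc c c', ?_, Fin.snoc_last _ _, ?_⟩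
          · rw [show (0 : Fin (n + 2)) = Fin.castSucc 0 from rfl, Fin.snoc_castSucc, h0]
          · intro i
            induction i using Fin.lastCases with
            | last => rw [Fin.succ_last, Fin.snoc_last, Fin.snoc_castSucc, hl]; exact hbc
            | cast j =>
              rw [Fin.succ_castSucc, Fin.snoc_castSucc, Fin.snoc_castSucc]; exact hadj j
      exact ⟨n, c, h0, hl, fun i => hST.symm ▸ bot_le, hadj⟩
    · by_cases he : S = T
      · subst he
        exact ⟨0, fun _ => S, rfl, rfl, fun _ => inf_le_left, fun i => i.elim0⟩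
      · refine ⟨1, ![S, T], rfl, rfl, ?_, ?_⟩
        · intro i; fin_cases i
          · exact inf_le_left
          · exact inf_le_right
        · intro i; fin_cases i
          exact ⟨he, hST⟩

theorem not_chainConnected_of_sEmb [Finite G] [Fact p.Prime] {H : Subgroup G} (hne : H ≠ ⊤)
    (hpH : p ∣ Nat.card H) (hH : SEmb p H) : ¬ Cfsg.IsSylowChainConnected p G := by
  rw [chainConnected_iff]
  intro hc
  obtain ⟨P, hP⟩ := hH.exists_sylow_le hpH
  have hall : ∀ T : Sylow p G, (T : Subgroup G) ≤ H := by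
    intro T
    induction hc P T with
    | refl => exact hP
    | @tail b c _ hbc ih =>
      obtain ⟨x, hx, hx1⟩ : ∃ x ∈ (b : Subgroup G) ⊓ (c : Subgroup G), x ≠ 1 := by
        by_contra h; push Not at h; exact hbc.2 ((Subgroup.eq_bot_iff_forall _).2 h)
      exact hH.pGroup_le c.2 hx.2 hx1 (ih hx.1)
  obtain ⟨g, hg⟩ : ∃ g : G, g ∉ H := by
    by_contra h; push Not at h; exact hne ((Subgroup.eq_top_iff' H).2 h)
  apply hH g hg
  have hpG : p ∣ Nat.card G := dvd_trans hpH (Subgroup.card_subgroup_dvd_card H)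
  have hle : ((g • P : Sylow p G) : Subgroup G) ≤ H ⊓ H.map (MulAut.conj g).toMonoidHom :=
    le_inf (hall _) (by rw [coe_smul_sylow]; exact cj_mono g hP)
  exact dvd_trans ((g • P).dvd_card_of_dvd_card hpG) (Subgroup.card_dvd_of_le hle)

theorem exists_sEmb_of_not_chainConnected [Finite G] [hp : Fact p.Prime]
    (hG : ¬ Cfsg.IsSylowChainConnected p G) :
    ∃ H : Subgroup G, H ≠ ⊤ ∧ p ∣ Nat.card H ∧ SEmb p H := by
  rw [chainConnected_iff] at hG
  have hpG : p ∣ Nat.card G := by
    by_contra hn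
    apply hG
    intro S T
    have hbot : ∀ Q : Sylow p G, (Q : Subgroup G) = ⊥ := by
      intro Q
      by_contra hQ
      obtain ⟨x, _, _, hxp⟩ := exists_orderOf_of_ne_bot Q.2 hQ
      exact hn (dvd_trans hxp (orderOf_dvd_natCard x))
    rw [show S = T from Sylow.ext ((hbot S).trans (hbot T).symm)]
  have hsymm : Symmetric (Adj (G := G) (p := p)) := fun a b h => ⟨h.1.symm, inf_comm (a : Subgroup G) b ▸ h.2⟩
  have hadj : ∀ (g : G) {a b : Sylow p G}, Adj a b → Adj (g • a) (g • b) := by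
    intro g a b h
    refine ⟨fun he => h.1 (MulAction.injective g he), fun he => h.2 ?_⟩
    rw [coe_smul_sylow, coe_smul_sylow, ← Subgroup.map_inf _ _ _ (MulAut.conj g).injective] at he
    exact (Subgroup.map_eq_bot_iff_of_injective _ (MulAut.conj g).injective).1 he
  have hsmul : ∀ (g : G) {a b : Sylow p G}, Relation.ReflTransGen Adj a b →
      Relation.ReflTransGen Adj (g • a) (g • b) := by
    intro g a b h
    induction h with
    | refl => exact .refl
    | tail _ h2 ih => exact ih.tail (hadj g h2)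
  have hrsymm : ∀ {a b : Sylow p G}, Relation.ReflTransGen Adj a b → Relation.ReflTransGen Adj b a := by
    intro a b h
    induction h with
    | refl => exact .refl
    | tail _ h2 ih => exact Relation.ReflTransGen.head (hsymm h2) ih
  let P : Sylow p G := Classical.arbitrary _
  let H : Subgroup G :=
    { carrier := {g | Relation.ReflTransGen Adj P (g • P)}
      one_mem' := by simp only [Set.mem_setOf_eq, one_smul]; exact .refl
      mul_mem' := fun {a b} ha hb => by
        simp only [Set.mem_setOf_eq, mul_smul]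
        exact ha.trans (hsmul a hb)
      inv_mem' := fun {a} ha => by
        have := hsmul a⁻¹ ha
        rw [inv_smul_smul] at this
        exact hrsymm this }
  have hPH : (P : Subgroup G) ≤ H := by
    intro g hg
    show Relation.ReflTransGen Adj P (g • P)
    rw [show g • P = P from Sylow.smul_eq_iff_mem_normalizer.2 (Subgroup.le_normalizer hg)]
  refine ⟨H, fun htop => hG fun S T => ?_, dvd_trans (P.dvd_card_of_dvd_card hpG) (Subgroup.card_dvd_of_le hPH), ?_⟩
  · obtain ⟨a, rfl⟩ := MulAction.exists_smul_eq G P S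
    obtain ⟨b, rfl⟩ := MulAction.exists_smul_eq G P T
    exact (hrsymm (show a ∈ H from htop ▸ Subgroup.mem_top a)).trans (show b ∈ H from htop ▸ Subgroup.mem_top b)
  · intro g hg hdvd
    apply hg
    obtain ⟨x, hx⟩ := exists_prime_orderOf_dvd_card' p hdvd
    have hxG : orderOf (x : G) = p := by rw [Subgroup.orderOf_coe, hx]
    have hx1 : (x : G) ≠ 1 := fun h => hp.1.one_lt.ne (by rw [← hxG, h, orderOf_one])
    obtain ⟨y, hy, hyx⟩ := x.2.2
    have key : ∀ z : G, z ∈ H → orderOf z = p → ∃ h ∈ H, z ∈ ((h • P : Sylow p G) : Subgroup G) := by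
      intro z hz hzo
      obtain ⟨Q, hQ⟩ := IsPGroup.exists_le_sylow (p := p) (G := ↥H) (P := Subgroup.zpowers (⟨z, hz⟩ : H))
        (IsPGroup.of_card (n := 1) (by rw [Nat.card_zpowers, Subgroup.orderOf_mk, hzo, pow_one]))
      obtain ⟨k, hk⟩ := MulAction.exists_smul_eq ↥H (P.subtype hPH) Q
      refine ⟨k, k.2, ?_⟩
      have h1 : (⟨z, hz⟩ : H) ∈ ((k • P.subtype hPH : Sylow p H) : Subgroup H) := hk ▸ hQ (Subgroup.mem_zpowers _)
      rw [coe_smul_sylow, mem_cj] at h1
      rw [coe_smul_sylow, mem_cj]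
      simpa [Subgroup.mem_subgroupOf] using h1
    obtain ⟨h, hh, hxh⟩ := key x x.2.1 hxG
    have hyo : orderOf y = p := by
      rw [← hxG, ← hyx]; exact ((MulAut.conj g).orderOf_eq y).symm
    obtain ⟨h', hh', hyh⟩ := key y hy hyo
    have hxgh : (x : G) ∈ (((g * h') • P : Sylow p G) : Subgroup G) := by
      rw [mul_smul, coe_smul_sylow, ← hyx]
      exact ⟨y, hyh, rfl⟩
    have hmem : g * h' ∈ H := by
      show Relation.ReflTransGen Adj P ((g * h') • P)
      by_cases he : h • P = (g * h') • P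
      · exact he ▸ hh
      · refine Relation.ReflTransGen.tail hh ⟨he, fun hb => hx1 ?_⟩
        exact (Subgroup.eq_bot_iff_forall _).1 hb x ⟨hxh, hxgh⟩
    have := H.mul_mem hmem (H.inv_mem hh')
    simpa using this

end Cfsg.Agent.LocEven
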