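import Cfsg.Agent.LocEven.SylowGraph
import Cfsg.Agent.LAE62.SylowBasics

/-! Normal subgroups and strongly `p`-embedded subgroups. -/

set_option autoImplicit false

namespace Cfsg.Agent.LocEven

open Cfsg.Agent.Fusion

variable {G : Type*} [Group G] [Finite G] {p : ℕ} [Fact p.Prime]

theorem sylow_inf_normal_ne_bot (P : Sylow p G) (N : Subgroup G) [N.Normal] (hN : p ∣ Nat.card N) :
    (P : Subgroup G) ⊓ N ≠ ⊥ := by
  intro hbot
  have hrel := LAE62.not_dvd_relIndex_sylow_inf_normal P N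
  rw [hbot, Subgroup.relIndex_bot_left] at hrel
  exact hrel hN

theorem SEmb.normalizer_sylow_inf_le {H : Subgroup G} (hH : SEmb p H) (P : Sylow p G)
    (hP : (P : Subgroup G) ≤ H) (N : Subgroup G) [N.Normal] (hN : p ∣ Nat.card N) :
    Subgroup.normalizer (((P : Subgroup G) ⊓ N : Subgroup G) : Set G) ≤ H :=
  hH.normalizer_le (P.2.to_le inf_le_left) (sylow_inf_normal_ne_bot P N hN) (le_trans inf_le_left hP)

theorem SEmb.sup_normal_eq_top {H : Subgroup G} (hH : SEmb p H) (P : Sylow p G)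
    (hP : (P : Subgroup G) ≤ H) (N : Subgroup G) [N.Normal] (hN : p ∣ Nat.card N) :
    H ⊔ N = ⊤ := by
  have hPp : IsPGroup p ↥((P : Subgroup G) ⊓ N) := P.2.to_le inf_le_left
  have hrel : ¬ p ∣ ((P : Subgroup G) ⊓ N).relIndex N := LAE62.not_dvd_relIndex_sylow_inf_normal P N
  let Q : Sylow p N := ((hPp.comap_subtype (K := N))).toSylow hrel
  have hQ : (Q : Subgroup N) = ((P : Subgroup G) ⊓ N).subgroupOf N := IsPGroup.toSylow_coe _ hrel
  have hQmap : (Q : Subgroup N).map N.subtype = (P : Subgroup G) ⊓ N := by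
    rw [hQ, Subgroup.subgroupOf_map_subtype, inf_of_le_left inf_le_right]
  have hfr := Sylow.normalizer_sup_eq_top Q
  rw [hQmap] at hfr
  rw [eq_top_iff, ← hfr]
  exact sup_le_sup_right (hH.normalizer_sylow_inf_le P hP N hN) N

end Cfsg.Agent.LocEven
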