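import Cfsg.Agent.Fusion.Alperin
import Cfsg.Agent.FusionAlperin.GroupLemmas
import Mathlib.GroupTheory.Transfer
import Mathlib.GroupTheory.Solvable

/-!
Automorphisms centralizing a Sylow 2-subgroup: an involution with trivial local action is
alone in its class inside the Sylow 2-subgroup.
-/

set_option autoImplicit false

namespace Cfsg.Agent.LocEven.AutSylow

open Cfsg.Agent.Fusion Cfsg.Agent.FusionAlperin

variable {X : Type*} [Group X] [Finite X] {p : ℕ} [Fact p.Prime]

theorem sylIn_of_relIndex {R N : Subgroup X} (hR : IsPGroup p R) (hRN : R ≤ N)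
    (h : ¬ p ∣ R.relIndex N) : SylIn p R N :=
  ⟨hRN, (hR.comap_subtype (K := N)).toSylow h, rfl⟩

/-- A centric group `Q = Q₀⟨c⟩` with `Q` tame: `C_W(Q₀)` is Sylow in `C(Q₀)`. -/
theorem sylIn_centralizer_small (N : Subgroup X) [hN : N.Normal] (W : Sylow 2 X) {c : X}
    (hWc : ∀ w ∈ (W : Subgroup X), c * w = w * c)
    (hdec : ∀ x : X, x ∈ N ∨ x * c⁻¹ ∈ N) (Q : Subgroup X) (hcQ : c ∈ Q)
    (hQW : Q ≤ (W : Subgroup X))
    (htame : SylIn 2 ((W : Subgroup X) ⊓ Subgroup.normalizer (Q : Set X))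
      (Subgroup.normalizer (Q : Set X)))
    (hcen : ∀ w ∈ (W : Subgroup X), (∀ q ∈ Q, q * w = w * q) → w ∈ Q) :
    SylIn 2 ((W : Subgroup X) ⊓ (N ⊓ Subgroup.centralizer ((Q ⊓ N : Subgroup X) : Set X)))
      (N ⊓ Subgroup.centralizer ((Q ⊓ N : Subgroup X) : Set X)) := by
  set C1 := Subgroup.centralizer ((Q ⊓ N : Subgroup X) : Set X) with hC1
  set Z1 := (W : Subgroup X) ⊓ C1 with hZ1
  have hgen : ∀ q ∈ Q, q ∈ Q ⊓ N ∨ q * c⁻¹ ∈ Q ⊓ N := fun q hq => by
    rcases hdec q with h | h
    · exact Or.inl ⟨hq, h⟩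
    · exact Or.inr ⟨Q.mul_mem hq (Q.inv_mem hcQ), h⟩
  -- elements of `W` centralizing `Q ⊓ N` centralize `Q`
  have hZ1Q : ∀ w ∈ Z1, ∀ q ∈ Q, q * w = w * q := by
    intro w hw q hq
    have h0 : ∀ y ∈ Q ⊓ N, y * w = w * y := Subgroup.mem_centralizer_iff.mp hw.2
    rcases hgen q hq with h | h
    · exact h0 q h
    · calc q * w = (q * c⁻¹) * (c * w) := by group
        _ = (q * c⁻¹) * w * c := by rw [hWc w hw.1]; group
        _ = w * q := by rw [h0 _ h]; group
  have hZ1le : Z1 ≤ Q := fun w hw => hcen w hw.1 (hZ1Q w hw)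
  have hcC1 : c ∈ C1 := Subgroup.mem_centralizer_iff.mpr fun y hy => (hWc y (hQW hy.1)).symm
  have hcZ1 : c ∈ Z1 := ⟨hQW hcQ, hcC1⟩
  -- the elements of `C1` normalizing `Q`
  set D := Subgroup.normalizer (Q : Set X) ⊓ C1 with hD
  have hQN : ∀ n ∈ Subgroup.normalizer (Q : Set X), ∀ y ∈ Q ⊓ N, n⁻¹ * y * n ∈ Q ⊓ N :=
    fun n hn y hy => ⟨(Subgroup.mem_normalizer_iff''.mp hn y).mp hy.1,
      by simpa using hN.conj_mem y hy.2 n⁻¹⟩
  have hDsyl : SylIn 2 ((W : Subgroup X) ⊓ Subgroup.normalizer (Q : Set X) ⊓ D) D := by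
    refine htame.inf_normal inf_le_left fun n hn d hd => ⟨Subgroup.mul_mem _ (Subgroup.mul_mem _ hn hd.1) (Subgroup.inv_mem _ hn), ?_⟩
    refine Subgroup.mem_centralizer_iff.mpr fun y hy => ?_
    have h1 := Subgroup.mem_centralizer_iff.mp hd.2 _ (hQN n hn y hy)
    calc y * (n * d * n⁻¹) = n * ((n⁻¹ * y * n) * d) * n⁻¹ := by group
      _ = n * (d * (n⁻¹ * y * n)) * n⁻¹ := by rw [h1]
      _ = n * d * n⁻¹ * y := by group
  have hWD : (W : Subgroup X) ⊓ Subgroup.normalizer (Q : Set X) ⊓ D = Z1 :=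
    le_antisymm (fun x hx => ⟨hx.1.1, hx.2.2⟩) (fun x hx =>
      ⟨⟨hx.1, Subgroup.le_normalizer (hZ1le hx)⟩, Subgroup.le_normalizer (hZ1le hx), hx.2⟩)
  rw [hWD] at hDsyl
  have hZ1p : IsPGroup 2 Z1 := W.2.to_le inf_le_left
  obtain ⟨R, hR, hZR⟩ := exists_sylIn_ge (N := C1) (p := 2) (X := Z1) inf_le_right hZ1p
  have hZ1R : Z1 = R := by
    by_contra hne
    have hlt := lt_normalizer_inf hR.isPGroup (lt_of_le_of_ne hZR hne)
    refine not_le_of_gt hlt (hDsyl.le_of_ge ?_ (hR.isPGroup.to_le inf_le_left) hlt.le)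
    intro r hr
    have hrC : r ∈ C1 := hR.le hr.1
    have key : ∀ s ∈ C1, s ∈ Subgroup.normalizer (Z1 : Set X) → ∀ q ∈ Q, s * q * s⁻¹ ∈ Q := by
      intro s hs hs2 q hq
      have h0 : ∀ y ∈ Q ⊓ N, y * s = s * y := Subgroup.mem_centralizer_iff.mp hs
      have hfix : ∀ y ∈ Q ⊓ N, s * y * s⁻¹ = y := fun y hy => by rw [← h0 y hy]; group
      rcases hgen q hq with h | h
      · rw [hfix q h]; exact hq
      · have e : s * q * s⁻¹ = (s * (q * c⁻¹) * s⁻¹) * (s * c * s⁻¹) := by group
        rw [e, hfix _ h]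
        exact mul_mem (mul_mem hq (inv_mem hcQ))
          (hZ1le ((Subgroup.mem_normalizer_iff.mp hs2 c).mp hcZ1))
    refine ⟨Subgroup.mem_normalizer_iff.mpr fun q => ⟨fun hq => key r hrC hr.2 q hq, fun hq => ?_⟩, hrC⟩
    have := key r⁻¹ (inv_mem hrC) (inv_mem hr.2) _ hq
    simpa [mul_assoc] using this
  have hZ1C : SylIn 2 Z1 C1 := hZ1R ▸ hR
  have hfin := hZ1C.inf_normal (C := N ⊓ C1) inf_le_right
    (fun n hn d hd => ⟨hN.conj_mem d hd.1 n, Subgroup.mul_mem _ (Subgroup.mul_mem _ hn hd.2) (Subgroup.inv_mem _ hn)⟩)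
  convert hfin using 1
  exact le_antisymm (fun x hx => ⟨⟨hx.1, hx.2.2⟩, hx.2⟩) (fun x hx => ⟨hx.1.1, hx.2⟩)

/-- If the local commutators with `c` have odd order, `c` is alone in its class in `W`. -/
theorem isolated_of_local (N : Subgroup X) [hN : N.Normal] (W : Sylow 2 X) {c : X}
    (hcW : c ∈ (W : Subgroup X)) (hWc : ∀ w ∈ (W : Subgroup X), c * w = w * c)
    (hdec : ∀ x : X, x ∈ N ∨ x * c⁻¹ ∈ N)
    (hloc : ∀ Q0 : Subgroup X, Q0 ≤ (W : Subgroup X) ⊓ N →
      (∀ s ∈ (W : Subgroup X) ⊓ N, (∀ q ∈ Q0, q * s = s * q) → s ∈ Q0) →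
      SylIn 2 ((W : Subgroup X) ⊓ (N ⊓ Subgroup.centralizer (Q0 : Set X)))
        (N ⊓ Subgroup.centralizer (Q0 : Set X)) →
      ∀ n ∈ N, n ∈ Subgroup.normalizer (Q0 : Set X) → Odd (orderOf (n⁻¹ * c * n * c⁻¹))) :
    ∀ g : X, g * c * g⁻¹ ∈ (W : Subgroup X) → g * c * g⁻¹ = c := by
  suffices key : ∀ (k : ℕ) (D : Subgroup X) (g : X),
      Nat.card (W : Subgroup X) < Nat.card D + k → c ∈ D → D ≤ (W : Subgroup X) →
      cj g⁻¹ D ≤ (W : Subgroup X) → g⁻¹ * c * g = c by
    intro g hg
    have := key (Nat.card (W : Subgroup X) + 1) (Subgroup.zpowers c) g⁻¹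
      (by omega) (Subgroup.mem_zpowers c) (Subgroup.zpowers_le.mpr hcW)
      (by
        rw [inv_inv, cj, MonoidHom.map_zpowers, Subgroup.zpowers_le]
        simpa using hg)
    simpa using this
  intro k
  induction k with
  | zero =>
    intro D g hD _ hDW _
    have := Subgroup.card_le_of_le hDW
    omega
  | succ k ih =>
    intro D g hD hcD hDW hgW
    have hchain := exists_chain W hDW hgW
    clear hDW hgW
    induction hchain with
    | one D => simp
    | @step D R x y htame hx hxp hDQ _ ihc =>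
      set Q := (W : Subgroup X) ⊓ (R : Subgroup X) with hQ
      have hQW : Q ≤ (W : Subgroup X) := inf_le_left
      have hcQ : c ∈ Q := hDQ hcD
      have hsyl : SylIn 2 ((W : Subgroup X) ⊓ Subgroup.normalizer (Q : Set X))
          (Subgroup.normalizer (Q : Set X)) :=
        sylIn_of_relIndex (W.2.to_le inf_le_left) inf_le_right htame.1
      have hxc : x⁻¹ * c * x = c := by
        by_cases hcen : ∀ w ∈ (W : Subgroup X), (∀ q ∈ Q, q * w = w * q) → w ∈ Q
        · -- the centric case
          have hnc : ∀ n ∈ N, n ∈ Subgroup.normalizer (Q : Set X) → n⁻¹ * c * n = c := by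
            intro n hn hnQ
            have h1 : n⁻¹ * c * n * c⁻¹ ∈ Q :=
              mul_mem ((Subgroup.mem_normalizer_iff''.mp hnQ c).mp hcQ) (inv_mem hcQ)
            have hnQ0 : n ∈ Subgroup.normalizer ((Q ⊓ N : Subgroup X) : Set X) := by
              refine Subgroup.mem_normalizer_iff.mpr fun q => ?_
              simp only [Subgroup.mem_inf]
              refine and_congr (Subgroup.mem_normalizer_iff.mp hnQ q) ?_
              exact ⟨fun h => hN.conj_mem q h n, fun h => by simpa [mul_assoc] using hN.conj_mem _ h n⁻¹⟩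
            have hodd := hloc (Q ⊓ N) (inf_le_inf hQW le_rfl)
              (fun s hs hq => ⟨hcen s hs.1 (fun q hq' => by
                  rcases hdec q with h | h
                  · exact hq q ⟨hq', h⟩
                  · calc q * s = (q * c⁻¹) * (c * s) := by group
                      _ = (q * c⁻¹) * s * c := by rw [hWc s hs.1]; group
                      _ = s * q := by rw [hq _ ⟨Q.mul_mem hq' (Q.inv_mem hcQ), h⟩]; group), hs.2⟩)
              (sylIn_centralizer_small N W hWc hdec Q hcQ hQW hsyl hcen) n hn hnQ0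
            obtain ⟨j, hj⟩ := W.2 ⟨_, hQW h1⟩
            have hj' : (n⁻¹ * c * n * c⁻¹) ^ 2 ^ j = 1 := congrArg Subtype.val hj
            obtain ⟨i, -, hi2⟩ := (Nat.dvd_prime_pow Nat.prime_two).mp (orderOf_dvd_of_pow_eq_one hj')
            rcases i with _ | i
            · exact mul_inv_eq_one.mp (orderOf_eq_one_iff.mp (by simpa using hi2))
            · exfalso
              rw [hi2, pow_succ] at hodd
              exact Nat.not_odd_iff_even.mpr (even_two.mul_left _) hodd
          rcases hdec x with h | h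
          · exact hnc x h hx
          · have h2 := hnc (x * c⁻¹) h (mul_mem hx (inv_mem (Subgroup.le_normalizer hcQ)))
            have e : (x * c⁻¹)⁻¹ * c * (x * c⁻¹) = c * (x⁻¹ * c * x) * c⁻¹ := by group
            rw [e, mul_inv_eq_iff_eq_mul] at h2
            exact mul_left_cancel h2
        · -- move into a larger subgroup
          push Not at hcen
          obtain ⟨w, hwW, hwQ, hwnQ⟩ := hcen
          set CQ := Subgroup.centralizer (Q : Set X) with hCQ
          set T := (W : Subgroup X) ⊓ Subgroup.normalizer (Q : Set X) ⊓ CQ with hT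
          have hTsyl : SylIn 2 T CQ :=
            hsyl.inf_normal (Subgroup.centralizer_le_normalizer _) (fun n hn d hd => by
              refine Subgroup.mem_centralizer_iff.mpr fun q hq => ?_
              have h1 := Subgroup.mem_centralizer_iff.mp hd _
                ((Subgroup.mem_normalizer_iff''.mp hn q).mp hq)
              calc q * (n * d * n⁻¹) = n * ((n⁻¹ * q * n) * d) * n⁻¹ := by group
                _ = n * (d * (n⁻¹ * q * n)) * n⁻¹ := by rw [h1]
                _ = n * d * n⁻¹ * q := by group)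
          obtain ⟨z, hz, hzT⟩ := hTsyl.frattini (a := x) (fun d hd => by
            refine Subgroup.mem_centralizer_iff.mpr fun q hq => ?_
            have h1 := Subgroup.mem_centralizer_iff.mp hd _
              ((Subgroup.mem_normalizer_iff''.mp hx q).mp hq)
            calc q * (x * d * x⁻¹) = x * ((x⁻¹ * q * x) * d) * x⁻¹ := by group
              _ = x * (d * (x⁻¹ * q * x)) * x⁻¹ := by rw [h1]
              _ = x * d * x⁻¹ * q := by group)
          have hle : cj (z * x) (Q ⊔ T) ≤ Q ⊔ T := by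
            rw [cj, Subgroup.map_sup]
            refine sup_le_sup (le_of_eq ?_) ?_
            · exact cj_eq_of_mem (mul_mem ((Subgroup.centralizer_le_normalizer _) hz) hx)
            · rintro _ ⟨r, hr, rfl⟩
              exact hzT r hr
          have heq : cj (z * x) (Q ⊔ T) = Q ⊔ T :=
            Subgroup.eq_of_le_of_card_ge hle (card_cj _ _).ge
          have hzx : (z * x)⁻¹ * c * (z * x) = c := by
            refine ih (Q ⊔ T) (z * x) ?_ (Subgroup.mem_sup_left hcQ)
              (sup_le hQW (inf_le_left.trans inf_le_left)) ?_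
            · have h1 : Q < Q ⊔ T := by
                refine lt_of_le_of_ne le_sup_left fun he => hwnQ ?_
                rw [he]
                have hwC : w ∈ CQ := Subgroup.mem_centralizer_iff.mpr hwQ
                exact Subgroup.mem_sup_right ⟨⟨hwW, (Subgroup.centralizer_le_normalizer _) hwC⟩, hwC⟩
              have h2 := Cfsg.Agent.Fusion.card_lt_card h1
              have h3 := Subgroup.card_le_of_le hDQ
              omega
            · exact le_of_eq_of_le (cj_eq_of_mem (inv_mem (cj_eq_iff_mem_normalizer.mp heq)))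
                (sup_le hQW (inf_le_left.trans inf_le_left))
          have hzc : z⁻¹ * c * z = c := by
            rw [mul_assoc, Subgroup.mem_centralizer_iff.mp hz c hcQ, inv_mul_cancel_left]
          calc x⁻¹ * c * x = x⁻¹ * (z⁻¹ * c * z) * x := by rw [hzc]
            _ = (z * x)⁻¹ * c * (z * x) := by group
            _ = c := hzx
      have hcD' : c ∈ cj x⁻¹ D := by
        rw [mem_cj_inv]
        have : x * c * x⁻¹ = c := by
          conv_lhs => rw [← hxc]
          group
        rwa [this]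
      have hy := ihc (by rw [card_cj]; exact hD) hcD'
      calc (x * y)⁻¹ * c * (x * y) = y⁻¹ * (x⁻¹ * c * x) * y := by group
        _ = c := by rw [hxc, hy]

end Cfsg.Agent.LocEven.AutSylow
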