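import Cfsg.Agent.LocEven.AutSylow
import Cfsg.Prelude.Def_KGroupFacts

/-!
Solvability of `Out(G)` from solvability of the action of `N_{Aut G}(S)` on a Sylow 2-subgroup `S`,
relative to the odd order theorem and the Z*-theorem (both enter as hypotheses).
-/

set_option autoImplicit false

namespace Cfsg.Agent.LocEven.AutSylowTwo

open Cfsg.Agent.FusionAlperin

variable {G : Type*} [Group G]

/-- The automorphisms fixing `S` pointwise. -/
def fixing (S : Subgroup G) : Subgroup (MulAut G) where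
  carrier := {a | ∀ s ∈ S, a s = s}
  one_mem' _ _ := rfl
  mul_mem' {a b} ha hb s hs := by rw [MulAut.mul_apply, hb s hs, ha s hs]
  inv_mem' {a} ha s hs := by
    conv_lhs => rw [← ha s hs]
    exact a.symm_apply_apply s

/-- The automorphisms mapping `S` to itself. -/
def stab (S : Subgroup G) : Subgroup (MulAut G) where
  carrier := {a | S.map a.toMonoidHom = S}
  one_mem' := by
    show S.map (MonoidHom.id G) = S
    exact S.map_id
  mul_mem' {a b} ha hb := by
    show S.map (a.toMonoidHom.comp b.toMonoidHom) = S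
    rw [← Subgroup.map_map, hb, ha]
  inv_mem' {a} ha := by
    have ha' : S.map a.toMonoidHom = S := ha
    show S.map (a.symm.toMonoidHom) = S
    conv_lhs => rw [← ha', Subgroup.map_map]
    convert S.map_id
    ext x
    simp

/-- Restriction of `stab S` to `S`. -/
def restr (S : Subgroup G) : stab S →* MulAut S where
  toFun a := (MulEquiv.subgroupMap (a : MulAut G) S).trans (MulEquiv.subgroupCongr a.2)
  map_one' := by ext x; rfl
  map_mul' a b := by ext x; rfl

theorem restr_ker_le {S : Subgroup G} {a : stab S} (ha : restr S a = 1) :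
    (a : MulAut G) ∈ fixing S := by
  intro s hs
  have h := congrArg Subtype.val (DFunLike.congr_fun ha ⟨s, hs⟩)
  exact h

/-- The index condition on the subgroups that test an automorphism. -/
def Admissible (S Q : Subgroup G) : Prop :=
  Q ≤ S ∧ (∀ s ∈ S, (∀ q ∈ Q, q * s = s * q) → s ∈ Q) ∧
    Odd ((S ⊓ Subgroup.centralizer (Q : Set G)).relIndex (Subgroup.centralizer (Q : Set G)))

section local_

variable [Finite G]

theorem twist_mem {S Q : Subgroup G} (hQ : Admissible S Q) {a : MulAut G} (ha : a ∈ fixing S)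
    {n : G} (hn : n ∈ Subgroup.normalizer (Q : Set G)) :
    n⁻¹ * a n ∈ Subgroup.centralizer (Q : Set G) := by
  refine Subgroup.mem_centralizer_iff.mpr fun q hq => ?_
  have h1 : n * q * n⁻¹ ∈ Q := (Subgroup.mem_normalizer_iff.mp hn q).mp hq
  have h2 : a n * q * (a n)⁻¹ = n * q * n⁻¹ := by
    conv_rhs => rw [← ha _ (hQ.1 h1), map_mul, map_mul, map_inv, ha q (hQ.1 hq)]
  calc q * (n⁻¹ * a n) = n⁻¹ * (n * q * n⁻¹) * a n := by group
    _ = n⁻¹ * (a n * q * (a n)⁻¹) * a n := by rw [h2]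
    _ = n⁻¹ * a n * q := by group

/-- The exponent killing everything outside the central Sylow subgroup. -/
theorem centralizer_pow {S Q : Subgroup G} (hQ : Admissible S Q) :
    ∃ m : ℕ, Odd m ∧
      (∀ u ∈ Subgroup.centralizer (Q : Set G),
        u ^ m ∈ S ⊓ Subgroup.centralizer (Q : Set G)) ∧
      (∀ u ∈ Subgroup.centralizer (Q : Set G), ∀ v ∈ Subgroup.centralizer (Q : Set G),
        (u * v) ^ m = u ^ m * v ^ m) ∧
      (∀ u ∈ S ⊓ Subgroup.centralizer (Q : Set G), ∀ v ∈ S ⊓ Subgroup.centralizer (Q : Set G),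
        u * v = v * u) := by
  obtain ⟨-, hcen, hodd⟩ := hQ
  have hZQ : ∀ u ∈ S ⊓ Subgroup.centralizer (Q : Set G), u ∈ Q := fun u hu =>
    hcen u hu.1 (Subgroup.mem_centralizer_iff.mp hu.2)
  generalize hC : Subgroup.centralizer (Q : Set G) = C at *
  have hcomm : ∀ u ∈ S ⊓ C, ∀ v ∈ C, u * v = v * u := fun u hu v hv => by
    rw [← hC] at hv
    exact Subgroup.mem_centralizer_iff.mp hv u (hZQ u hu)
  have hle : (S ⊓ C).subgroupOf C ≤ Subgroup.center C := fun u hu =>
    Subgroup.mem_center_iff.mpr fun v => Subtype.ext (hcomm u hu v v.2).symm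
  haveI : ((S ⊓ C).subgroupOf C).Normal := ⟨fun u hu v => by
    rwa [Subgroup.mem_center_iff.mp (hle hu) v, mul_inv_cancel_right]⟩
  obtain ⟨k, hk⟩ := Subgroup.index_dvd_of_le hle
  refine ⟨((S ⊓ C).subgroupOf C).index, hodd, fun u hu => ?_, fun u hu v hv => ?_,
    fun u hu v hv => hcomm u hu v hv.2⟩
  · exact ((S ⊓ C).subgroupOf C).pow_index_mem (⟨u, hu⟩ : C)
  · have h1 := congrArg (fun z => z ^ k)
      (map_mul (MonoidHom.transferCenterPow C) ⟨u, hu⟩ ⟨v, hv⟩)
    rw [(show Commute (MonoidHom.transferCenterPow C ⟨u, hu⟩)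
      (MonoidHom.transferCenterPow C ⟨v, hv⟩) from
        Subtype.ext (Subgroup.mem_center_iff.mp
          (MonoidHom.transferCenterPow C ⟨v, hv⟩).2 _)).mul_pow] at h1
    have h2 := congrArg (fun z : Subgroup.center C => (((z : C)) : G)) h1
    simp only [Subgroup.coe_mul, SubmonoidClass.coe_pow, MonoidHom.transferCenterPow_apply,
      ← pow_mul] at h2
    rw [← hk] at h2
    exact h2

/-- The automorphisms fixing `S` whose twists have odd order. -/
def oddTwist (S : Subgroup G) : Set (MulAut G) :=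
  {a | a ∈ fixing S ∧ ∀ Q : Subgroup G, Admissible S Q → ∀ n ∈ Subgroup.normalizer (Q : Set G),
    Odd (orderOf (n⁻¹ * a n))}

theorem twist_hom {S Q : Subgroup G} (hQ : Admissible S Q) {m : ℕ}
    (hS : ∀ u ∈ Subgroup.centralizer (Q : Set G), u ^ m ∈ S ⊓ Subgroup.centralizer (Q : Set G))
    (hmul : ∀ u ∈ Subgroup.centralizer (Q : Set G), ∀ v ∈ Subgroup.centralizer (Q : Set G),
      (u * v) ^ m = u ^ m * v ^ m)
    {a b : MulAut G} (ha : a ∈ fixing S) (hb : b ∈ fixing S) {n : G}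
    (hn : n ∈ Subgroup.normalizer (Q : Set G)) :
    (n⁻¹ * (a * b) n) ^ m = (n⁻¹ * a n) ^ m * (n⁻¹ * b n) ^ m := by
  have hu := twist_mem hQ ha hn
  have hv := twist_mem hQ hb hn
  have hav : a (n⁻¹ * b n) ∈ Subgroup.centralizer (Q : Set G) := by
    refine Subgroup.mem_centralizer_iff.mpr fun q hq => ?_
    have h1 := congrArg a (Subgroup.mem_centralizer_iff.mp hv q hq)
    rwa [map_mul, map_mul a (n⁻¹ * b n) q, ha q (hQ.1 hq)] at h1
  have e : n⁻¹ * (a * b) n = (n⁻¹ * a n) * a (n⁻¹ * b n) := by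
    rw [map_mul, map_inv, MulAut.mul_apply]; group
  rw [e, hmul _ hu _ hav, ← map_pow, ha _ (hS _ hv).1]

/-- Commutators of `fixing S` lie in `oddTwist S`. -/
theorem commutator_mem_oddTwist {S : Subgroup G} {a b : MulAut G} (ha : a ∈ fixing S)
    (hb : b ∈ fixing S) : a * b * a⁻¹ * b⁻¹ ∈ oddTwist S := by
  have hab : a * b * a⁻¹ * b⁻¹ ∈ fixing S :=
    (fixing S).mul_mem ((fixing S).mul_mem ((fixing S).mul_mem ha hb) ((fixing S).inv_mem ha))
      ((fixing S).inv_mem hb)
  refine ⟨hab, fun Q hQ n hn => ?_⟩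
  obtain ⟨m, hm, hS, hmul, hcomm⟩ := centralizer_pow hQ
  set l : MulAut G → G := fun c => (n⁻¹ * c n) ^ m with hl
  have hlmul : ∀ c d, c ∈ fixing S → d ∈ fixing S → l (c * d) = l c * l d := fun c d hc hd =>
    twist_hom hQ hS hmul hc hd hn
  have hl1 : l 1 = 1 := by simp [hl]
  have hlinv : ∀ c ∈ fixing S, l c⁻¹ = (l c)⁻¹ := fun c hc => by
    refine eq_inv_of_mul_eq_one_left ?_
    rw [← hlmul _ _ ((fixing S).inv_mem hc) hc, inv_mul_cancel, hl1]
  have hZ : ∀ c ∈ fixing S, l c ∈ S ⊓ Subgroup.centralizer (Q : Set G) :=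
    fun c hc => hS _ (twist_mem hQ hc hn)
  have h1 : l (a * b * a⁻¹ * b⁻¹) = 1 := by
    rw [hlmul _ _ ((fixing S).mul_mem ((fixing S).mul_mem ha hb) ((fixing S).inv_mem ha))
      ((fixing S).inv_mem hb),
      hlmul _ _ ((fixing S).mul_mem ha hb) ((fixing S).inv_mem ha), hlmul _ _ ha hb,
      hlinv a ha, hlinv b hb, hcomm _ (hZ a ha) _ (hZ b hb), mul_inv_cancel_right, mul_inv_cancel]
  exact hm.of_dvd_nat (orderOf_dvd_of_pow_eq_one h1)

/-- The subgroup generated by the commutators of `fixing S`. -/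
theorem odd_card_commutator [IsSimpleGroup G] (S : Sylow 2 G) (hS1 : (S : Subgroup G) ≠ ⊥)
    (hG : ¬ IsMulCommutative G)
    (hZ : ∀ (X : Subgroup (MulAut G)) (P : Sylow 2 X) (u : X), orderOf u = 2 → u ∈ P →
      (∀ g : X, g * u * g⁻¹ ∈ P → g * u * g⁻¹ = u) →
      ∃ N : Subgroup X, N.Normal ∧ Odd (Nat.card N) ∧ ∀ g : X, u * g * u⁻¹ * g⁻¹ ∈ N)
    (c : MulAut G) (hc : c ∈ oddTwist (S : Subgroup G)) (hc2 : orderOf c = 2) : False := by
  obtain ⟨hcfix, hctw⟩ := hc
  have hinj : Function.Injective (MulAut.conj : G →* MulAut G) := by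
    rw [← MonoidHom.ker_eq_bot_iff]
    refine (Subgroup.Normal.eq_bot_or_eq_top (MonoidHom.normal_ker _)).resolve_right fun h => hG ?_
    refine ⟨⟨fun x y => ?_⟩⟩
    have hx : x ∈ (MulAut.conj : G →* MulAut G).ker := h ▸ Subgroup.mem_top x
    have := DFunLike.congr_fun (MonoidHom.mem_ker.mp hx) y
    simp only [MulAut.conj_apply, MulAut.one_apply] at this
    exact mul_inv_eq_iff_eq_mul.mp this
  have hceq : ∀ g : G, c * MulAut.conj g = MulAut.conj (c g) * c := fun g => by
    ext x; simp [MulAut.conj_apply]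
  set X : Subgroup (MulAut G) := Cfsg.Inn G ⊔ Subgroup.zpowers c with hX
  have hcX : c ∈ X := Subgroup.mem_sup_right (Subgroup.mem_zpowers c)
  let j : G →* X := MonoidHom.codRestrict MulAut.conj X
    (fun g => Subgroup.mem_sup_left ⟨g, rfl⟩)
  have hjinj : Function.Injective j := fun a b h => hinj (congrArg Subtype.val h)
  have hjcoe : ∀ g, ((j g : X) : MulAut G) = MulAut.conj g := fun _ => rfl
  set c' : X := ⟨c, hcX⟩ with hc'
  have hjc : ∀ g, c' * j g = j (c g) * c' := fun g => Subtype.ext (hceq g)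
  set N : Subgroup X := (Cfsg.Inn G).subgroupOf X with hN
  haveI : N.Normal := Subgroup.normal_subgroupOf
  have hNrange : N = j.range := by
    ext x
    constructor
    · rintro ⟨g, hg⟩; exact ⟨g, Subtype.ext hg⟩
    · rintro ⟨g, rfl⟩; exact ⟨g, rfl⟩
  have hdec : ∀ x : X, x ∈ N ∨ x * c'⁻¹ ∈ N := by
    intro x
    obtain ⟨i, hi, z, hz, hiz⟩ := Subgroup.mem_sup_of_normal_left.mp x.2
    obtain ⟨k, rfl⟩ := Subgroup.mem_zpowers_iff.mp hz
    rw [zpow_eq_zpow_emod k (show c ^ (2:ℤ) = 1 by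
      rw [show (2:ℤ) = ((2:ℕ):ℤ) from rfl, zpow_natCast, ← hc2, pow_orderOf_eq_one])] at hiz
    rcases Int.emod_two_eq_zero_or_one k with h | h <;> rw [h] at hiz
    · left; show (x : MulAut G) ∈ Cfsg.Inn G; rw [← hiz]; simpa using hi
    · right; show ((x * c'⁻¹ : X) : MulAut G) ∈ Cfsg.Inn G
      simp [← hiz, hc', hi]
  set Sb : Subgroup X := (S : Subgroup G).map j with hSb
  have hcSb : ∀ w ∈ Sb, c' * w = w * c' := by
    rintro _ ⟨s, hs, rfl⟩; rw [hjc, hcfix s hs]
  have hp : IsPGroup 2 (Sb ⊔ Subgroup.zpowers c' : Subgroup X) := by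
    refine IsPGroup.to_sup_of_normal_right' (S.2.map _) (IsPGroup.of_card (n := 1) ?_) ?_
    · rw [Nat.card_zpowers, pow_one, ← hc2]
      exact Subgroup.orderOf_mk _ _
    · intro w hw
      refine Subgroup.centralizer_le_normalizer _ (Subgroup.mem_centralizer_iff.mpr ?_)
      rintro z hz
      obtain ⟨k, rfl⟩ := Subgroup.mem_zpowers_iff.mp hz
      exact (Commute.zpow_left (hcSb w hw) k)
  obtain ⟨W, hW⟩ := hp.exists_le_sylow
  have hcW : c' ∈ (W : Subgroup X) := hW (Subgroup.mem_sup_right (Subgroup.mem_zpowers c'))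
  have hWN : (W : Subgroup X) ⊓ N = Sb := by
    refine le_antisymm ?_ (le_inf (le_sup_left.trans hW) ?_)
    · rintro x ⟨hxW, hxN⟩
      rw [SetLike.mem_coe, hNrange] at hxN
      obtain ⟨g, rfl⟩ := hxN
      have h2 : IsPGroup 2 ((W : Subgroup X).comap j) :=
        W.2.comap_of_injective j hjinj
      have h3 := S.3 h2 (fun s hs => hW (Subgroup.mem_sup_left ⟨s, hs, rfl⟩))
      exact ⟨g, h3 ▸ hxW, rfl⟩
    · rw [hNrange]; rintro _ ⟨s, -, rfl⟩; exact ⟨s, rfl⟩
  have hWc : ∀ w ∈ (W : Subgroup X), c' * w = w * c' := by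
    intro w hw
    rcases hdec w with h | h
    · exact hcSb w (hWN ▸ ⟨hw, h⟩)
    · have h' : w * c'⁻¹ ∈ (W : Subgroup X) ⊓ N :=
        ⟨(W : Subgroup X).mul_mem hw ((W : Subgroup X).inv_mem hcW), h⟩
      rw [hWN] at h'
      have := hcSb _ h'
      calc c' * w = c' * (w * c'⁻¹) * c' := by group
        _ = w * c'⁻¹ * c' * c' := by rw [this]
        _ = w * c' := by group
  have hiso := AutSylow.isolated_of_local N W hcW hWc hdec (fun Q0 hQ0 hcen hsyl n hn hnQ => by
    rw [hWN] at hQ0 hcen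
    rw [hNrange] at hn
    obtain ⟨g, rfl⟩ := hn
    set Q : Subgroup G := Q0.comap j with hQ
    have hmapQ : Q.map j = Q0 := Subgroup.map_comap_eq_self (hQ0.trans (Subgroup.map_le_range _ _))
    have hcent : N ⊓ Subgroup.centralizer (Q0 : Set X)
        = (Subgroup.centralizer (Q : Set G)).map j := by
      ext x
      constructor
      · rintro ⟨hxN, hxC⟩
        rw [SetLike.mem_coe, hNrange] at hxN
        obtain ⟨y, rfl⟩ := hxN
        refine ⟨y, Subgroup.mem_centralizer_iff.mpr fun q hq => hjinj ?_, rfl⟩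
        rw [map_mul, map_mul]
        exact Subgroup.mem_centralizer_iff.mp hxC _ hq
      · rintro ⟨y, hy, rfl⟩
        refine ⟨hNrange ▸ ⟨y, rfl⟩, Subgroup.mem_centralizer_iff.mpr fun q hq => ?_⟩
        rw [SetLike.mem_coe, ← hmapQ] at hq
        obtain ⟨q', hq', rfl⟩ := hq
        rw [← map_mul, ← map_mul, Subgroup.mem_centralizer_iff.mp hy q' hq']
    have hQS : Q ≤ (S : Subgroup G) := fun q hq => by
      obtain ⟨s, hs, hse⟩ := hQ0 hq
      exact hjinj hse ▸ hs
    have hadm : Admissible (S : Subgroup G) Q := by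
      refine ⟨hQS, fun s hs hsq => hcen (j s) ⟨s, hs, rfl⟩ (fun q hq => ?_), ?_⟩
      · rw [← hmapQ] at hq
        obtain ⟨q', hq', rfl⟩ := hq
        rw [← map_mul, ← map_mul, hsq q' hq']
      · have he : (W : Subgroup X) ⊓ (Subgroup.centralizer (Q : Set G)).map j
            = ((S : Subgroup G) ⊓ Subgroup.centralizer (Q : Set G)).map j := by
          rw [Subgroup.map_inf _ _ _ hjinj, ← hSb, ← hWN, inf_assoc, inf_eq_right.mpr
            (show (Subgroup.centralizer (Q : Set G)).map j ≤ N from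
              hNrange ▸ Subgroup.map_le_range _ _)]
        rw [hcent, he] at hsyl
        obtain ⟨-, T, hT⟩ := hsyl
        rw [← Subgroup.relIndex_map_map_of_injective _ _ hjinj, Nat.odd_iff, ← Nat.two_dvd_ne_zero,
          Subgroup.relIndex, ← hT]
        exact Sylow.not_dvd_index T
    have hgQ : g ∈ Subgroup.normalizer (Q : Set G) := Subgroup.mem_normalizer_iff.mpr fun q => by
      show j q ∈ Q0 ↔ j (g * q * g⁻¹) ∈ Q0
      rw [map_mul, map_mul, map_inv]
      exact Subgroup.mem_normalizer_iff.mp hnQ (j q)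
    have e : (j g)⁻¹ * c' * j g * c'⁻¹ = j (g⁻¹ * c g) := by
      rw [mul_assoc _ c', hjc, map_mul, map_inv]; group
    rw [e, orderOf_injective j hjinj]
    exact hctw Q hadm g hgQ)
  obtain ⟨M, hM, hModd, hMc⟩ := hZ X W c' (by rw [← hc2]; exact Subgroup.orderOf_mk _ _) hcW hiso
  have hMbot : M.comap j = ⊥ := by
    refine (Subgroup.Normal.eq_bot_or_eq_top inferInstance).resolve_right fun h => ?_
    obtain ⟨⟨s, hs⟩, hs0⟩ := Subgroup.ne_bot_iff_exists_ne_one.mp hS1
    have hs1 : s ≠ 1 := fun he => hs0 (Subtype.ext he)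
    obtain ⟨k, hk⟩ := S.2 ⟨s, hs⟩
    have hd : orderOf (j s) ∣ Nat.card M := by
      have hjs : j s ∈ M := Subgroup.mem_comap.mp (h ▸ Subgroup.mem_top s)
      rw [← Subgroup.orderOf_mk (j s) hjs]
      exact orderOf_dvd_natCard _
    rw [orderOf_injective j hjinj] at hd
    obtain ⟨i, -, hi⟩ := (Nat.dvd_prime_pow Nat.prime_two).mp
      (orderOf_dvd_of_pow_eq_one (congrArg Subtype.val hk : s ^ 2 ^ k = 1))
    rcases i with _ | i
    · exact hs1 (orderOf_eq_one_iff.mp (by simpa using hi))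
    · rw [hi, pow_succ] at hd
      exact Nat.not_odd_iff_even.mpr (even_two.mul_left _) (hModd.of_dvd_nat hd)
  have hcfix' : ∀ g, c g = g := by
    intro g
    have h1 := hMc (j g)
    have e : c' * j g * c'⁻¹ * (j g)⁻¹ = j (c g * g⁻¹) := by
      rw [hjc, map_mul, map_inv]; group
    rw [e] at h1
    have h2 : c g * g⁻¹ ∈ M.comap j := h1
    rw [hMbot, Subgroup.mem_bot] at h2
    exact mul_inv_eq_one.mp h2
  have : c = 1 := MulEquiv.ext hcfix'
  simp [this] at hc2

/-- `C_{Aut G}(S)` is solvable. -/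
theorem isSolvable_fixing [IsSimpleGroup G] (S : Sylow 2 G) (hS1 : (S : Subgroup G) ≠ ⊥)
    (hG : ¬ IsMulCommutative G)
    (hFT : ∀ H : Subgroup (MulAut G), Odd (Nat.card H) → Group.IsSolvable H)
    (hZ : ∀ (X : Subgroup (MulAut G)) (P : Sylow 2 X) (u : X), orderOf u = 2 → u ∈ P →
      (∀ g : X, g * u * g⁻¹ ∈ P → g * u * g⁻¹ = u) →
      ∃ N : Subgroup X, N.Normal ∧ Odd (Nat.card N) ∧ ∀ g : X, u * g * u⁻¹ * g⁻¹ ∈ N) :
    Group.IsSolvable (fixing (S : Subgroup G)) := by
  set A := fixing (S : Subgroup G) with hA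
  -- an odd subgroup containing the commutators
  let K : Subgroup (MulAut G) :=
    Subgroup.closure {c | ∃ a ∈ A, ∃ b ∈ A, c = a * b * a⁻¹ * b⁻¹}
  have hKA : K ≤ A := (Subgroup.closure_le _).mpr (by
    rintro _ ⟨a, ha, b, hb, rfl⟩; exact (commutator_mem_oddTwist ha hb).1)
  have htw : ∀ c ∈ K, c ∈ oddTwist (S : Subgroup G) := by
    intro c hc
    refine ⟨hKA hc, fun Q hQ n hn => ?_⟩
    obtain ⟨m, hm, hSm, hmul, -⟩ := centralizer_pow hQ
    refine hm.of_dvd_nat (orderOf_dvd_of_pow_eq_one ?_)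
    have hzero : ∀ d ∈ oddTwist (S : Subgroup G), (n⁻¹ * d n) ^ m = 1 := fun d hd => by
      have h1 := hSm _ (twist_mem hQ hd.1 hn)
      obtain ⟨k, hk⟩ := S.2 ⟨_, h1.1⟩
      have h2 : orderOf ((n⁻¹ * d n) ^ m) ∣ 2 ^ k :=
        orderOf_dvd_of_pow_eq_one (congrArg Subtype.val hk)
      have h3 : orderOf ((n⁻¹ * d n) ^ m) ∣ orderOf (n⁻¹ * d n) := orderOf_pow_dvd m
      have h4 : Nat.Coprime (orderOf (n⁻¹ * d n)) (2 ^ k) :=
        (Nat.coprime_two_right.mpr (hd.2 Q hQ n hn)).pow_right k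
      exact orderOf_eq_one_iff.mp (Nat.eq_one_of_dvd_coprimes h4 h3 h2)
    induction hc using Subgroup.closure_induction with
    | mem x hx =>
      obtain ⟨a, ha, b, hb, rfl⟩ := hx
      exact hzero _ (commutator_mem_oddTwist ha hb)
    | one => simp
    | mul x y hx hy ihx ihy => rw [twist_hom hQ hSm hmul (hKA hx) (hKA hy) hn, ihx, ihy, one_mul]
    | inv x hx ih =>
      have h := twist_hom hQ hSm hmul (A.inv_mem (hKA hx)) (hKA hx) hn
      rw [inv_mul_cancel, ih, mul_one] at h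
      rw [← h]; simp
  have hodd : Odd (Nat.card K) := by
    rw [← Nat.not_even_iff_odd, even_iff_two_dvd]
    intro h2
    obtain ⟨c, hc⟩ := exists_prime_orderOf_dvd_card' 2 h2
    exact odd_card_commutator S hS1 hG hZ c (htw c c.2) (by rwa [Subgroup.orderOf_coe])
  haveI := hFT K hodd
  haveI : (K.subgroupOf A).Normal := ⟨fun x hx g => by
    have h1 : (g : MulAut G) * x * (g : MulAut G)⁻¹ * (x : MulAut G)⁻¹ ∈ K :=
      Subgroup.subset_closure ⟨g, g.2, x, x.2, rfl⟩
    show ((g * x * g⁻¹ : A) : MulAut G) ∈ K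
    simpa using K.mul_mem h1 hx⟩
  haveI : Group.IsSolvable (K.subgroupOf A) :=
    Group.isSolvable_of_isSolvable_injective (f := (Subgroup.subgroupOfEquivOfLe hKA).toMonoidHom)
      (Subgroup.subgroupOfEquivOfLe hKA).injective
  haveI : Group.IsSolvable (A ⧸ K.subgroupOf A) := by
    refine Group.isSolvable_of_comm fun x y => ?_
    induction x using QuotientGroup.induction_on with
    | H a =>
      induction y using QuotientGroup.induction_on with
      | H b =>
        rw [← QuotientGroup.mk_mul, ← QuotientGroup.mk_mul, QuotientGroup.eq]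
        exact Subgroup.subset_closure ⟨(b : MulAut G)⁻¹, A.inv_mem b.2, (a : MulAut G)⁻¹,
          A.inv_mem a.2, by simp [mul_assoc]⟩
  exact Group.isSolvable_of_ker_le_range (K.subgroupOf A).subtype (QuotientGroup.mk' (K.subgroupOf A))
    (by simp)

/-- `Out(G)` is solvable when the action of `N_{Aut G}(S)` on `S` is. -/
theorem isSolvable_out [IsSimpleGroup G] (S : Sylow 2 G) (hS1 : (S : Subgroup G) ≠ ⊥)
    (hG : ¬ IsMulCommutative G)
    (hFT : ∀ H : Subgroup (MulAut G), Odd (Nat.card H) → Group.IsSolvable H)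
    (hZ : ∀ (X : Subgroup (MulAut G)) (P : Sylow 2 X) (u : X), orderOf u = 2 → u ∈ P →
      (∀ g : X, g * u * g⁻¹ ∈ P → g * u * g⁻¹ = u) →
      ∃ N : Subgroup X, N.Normal ∧ Odd (Nat.card N) ∧ ∀ g : X, u * g * u⁻¹ * g⁻¹ ∈ N)
    (hR : Group.IsSolvable (restr (S : Subgroup G)).range) :
    Group.IsSolvable (Cfsg.Out G) := by
  haveI := isSolvable_fixing S hS1 hG hFT hZ
  haveI : Group.IsSolvable (fixing (S : Subgroup G) ⊓ stab (S : Subgroup G) :
      Subgroup (MulAut G)) :=
    Group.isSolvable_of_isSolvable_injective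
      (f := Subgroup.inclusion (inf_le_left : fixing (S : Subgroup G) ⊓ stab (S : Subgroup G) ≤ _))
      (Subgroup.inclusion_injective _)
  haveI : Group.IsSolvable (stab (S : Subgroup G)) := by
    refine Group.isSolvable_of_ker_le_range (G' := (fixing (S : Subgroup G) ⊓ stab (S : Subgroup G) :
        Subgroup (MulAut G))) (Subgroup.inclusion inf_le_right)
      (restr (S : Subgroup G)).rangeRestrict ?_
    intro a ha
    rw [MonoidHom.mem_ker] at ha
    exact ⟨⟨a, restr_ker_le (congrArg Subtype.val ha), a.2⟩, rfl⟩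
  refine Group.isSolvable_of_surjective
    (f := (QuotientGroup.mk' (Cfsg.Inn G)).comp (stab (S : Subgroup G)).subtype) ?_
  intro x
  induction x using QuotientGroup.induction_on with
  | H a =>
    have hT : ¬ 2 ∣ ((S : Subgroup G).map a.toMonoidHom).index := by
      rw [Subgroup.index_map_of_bijective a.bijective]
      exact S.not_dvd_index
    obtain ⟨g, hg⟩ := MulAction.exists_smul_eq G ((S.2.map a.toMonoidHom).toSylow hT) S
    refine ⟨⟨MulAut.conj g * a, ?_⟩, ?_⟩
    · show (S : Subgroup G).map ((MulAut.conj g).toMonoidHom.comp a.toMonoidHom) = S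
      rw [← Subgroup.map_map]
      exact congrArg Sylow.toSubgroup hg
    · show QuotientGroup.mk' (Cfsg.Inn G) (MulAut.conj g * a) = QuotientGroup.mk' (Cfsg.Inn G) a
      rw [map_mul, (QuotientGroup.eq_one_iff (N := Cfsg.Inn G) (MulAut.conj g)).mpr ⟨g, rfl⟩ |> fun h =>
        (show QuotientGroup.mk' (Cfsg.Inn G) (MulAut.conj g) = 1 from h), one_mul]

end local_

end Cfsg.Agent.LocEven.AutSylowTwo
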