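import Cfsg.Agent.Supersolv.Basic
import Cfsg.Agent.Transfer.Residual
import Cfsg.Agent.Transfer.Tate
import Cfsg.Agent.Lib.Element

/-! A criterion for a normal `q`-subgroup to have a series of normal subgroups with cyclic factors. -/

set_option autoImplicit false

namespace Cfsg.Agent.LocEven

open Cfsg.Agent.Supersolv
open Polynomial
open scoped commutatorElement

variable {G : Type*} [Group G] [Finite G] {q : ℕ} [hq : Fact q.Prime]

/-- The subgroup generated by the commutators and the `(q-1)`-st powers. -/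
def powerKernel (q : ℕ) (G : Type*) [Group G] : Subgroup G :=
  commutator G ⊔ Subgroup.closure (Set.range fun g : G => g ^ (q - 1))

theorem powerKernel_normal : (powerKernel q G).Normal := by
  refine ⟨fun n hn g => ?_⟩
  have h1 : g * n * g⁻¹ * n⁻¹ ∈ powerKernel q G :=
    Subgroup.mem_sup_left (Subgroup.commutator_mem_commutator (Subgroup.mem_top g) (Subgroup.mem_top n))
  simpa using mul_mem h1 hn

omit [Finite G] in
theorem exists_root_endomorphism {V : Type*} [AddCommGroup V] [Module (ZMod q) V] [Nontrivial V]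
    (T : Module.End (ZMod q) V) (hT : T ^ q = T) : ∃ (a : ZMod q) (v : V), v ≠ 0 ∧ T v = a • v := by
  by_contra hcon
  push Not at hcon
  have hinj : ∀ a : ZMod q, Function.Injective (T - algebraMap (ZMod q) (Module.End (ZMod q) V) a) := by
    intro a
    rw [injective_iff_map_eq_zero]
    intro v hv
    by_contra hne
    exact hcon a v hne (sub_eq_zero.1 (by simpa using hv))
  have hmonic : ((X : (ZMod q)[X]) ^ q - X).Monic :=
    monic_X_pow_sub (by rw [degree_X]; exact_mod_cast hq.1.one_lt)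
  have hroots : ((X : (ZMod q)[X]) ^ q - X).roots = (Finset.univ : Finset (ZMod q)).val := by
    simpa [ZMod.card] using FiniteField.roots_X_pow_card_sub_X (ZMod q)
  have hprod : (((X : (ZMod q)[X]) ^ q - X).roots.map fun a => X - C a).prod = X ^ q - X := by
    refine prod_multiset_X_sub_C_of_monic_of_roots_card_eq hmonic ?_
    rw [hroots, FiniteField.X_pow_card_sub_X_natDegree_eq _ hq.1.one_lt]
    simp
  have hzero : aeval T ((X : (ZMod q)[X]) ^ q - X) = 0 := by simp [hT]
  have key : ∀ s : Multiset (ZMod q), Function.Injective (aeval T ((s.map fun a => X - C a).prod)) := by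
    intro s
    induction s using Multiset.induction_on with
    | empty => intro a b h; simpa using h
    | cons a s ih =>
      rw [Multiset.map_cons, Multiset.prod_cons, map_mul, Module.End.mul_eq_comp, LinearMap.coe_comp]
      refine Function.Injective.comp ?_ ih
      simpa using hinj a
  have h := key ((X : (ZMod q)[X]) ^ q - X).roots
  rw [hprod, hzero] at h
  obtain ⟨v, hv⟩ := exists_ne (0 : V)
  exact hv (h (by simp))

omit [Finite G] in
theorem exists_eigen_add {A : Type*} [AddCommGroup A] [Module (ZMod q) A] [Nontrivial A]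
    (e : A →+ A) (he : ∀ v, (⇑e)^[q] v = e v) : ∃ (a : ℕ) (v : A), v ≠ 0 ∧ e v = a • v := by
  obtain ⟨T, hT⟩ : ∃ T : Module.End (ZMod q) A, ∀ v, T v = e v :=
    ⟨e.toZModLinearMap q, fun v => rfl⟩
  have hTe : (⇑T : A → A) = ⇑e := funext hT
  obtain ⟨a, v, hv, hav⟩ := exists_root_endomorphism T (LinearMap.ext fun v => by
    rw [Module.End.pow_apply, hTe]; exact he v)
  refine ⟨a.val, v, hv, ?_⟩
  rw [← Nat.cast_smul_eq_nsmul (ZMod q), ZMod.natCast_zmod_val, ← hT]
  exact hav

omit [Finite G] in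
theorem exists_eigen_comm {V : Type*} [CommGroup V] [Nontrivial V] (hexp : ∀ v : V, v ^ q = 1)
    (e : V →* V) (he : ∀ v, (⇑e)^[q] v = e v) : ∃ (a : ℕ) (v : V), v ≠ 1 ∧ e v = v ^ a := by
  obtain ⟨a, v, hv, hav⟩ := @exists_eigen_add q _ (Additive V) _
    (AddCommGroup.zmodModule (fun v => hexp v.toMul)) _ (MonoidHom.toAdditive e) (fun v => he v.toMul)
  exact ⟨a, v.toMul, fun h => hv h, hav⟩

/-- Eigenelement for one element `g` acting on an elementary abelian section. -/
theorem exists_eigen {N M : Subgroup G} [N.Normal] [M.Normal] (hNM : N < M)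
    (hcomm : ∀ x ∈ M, ∀ y ∈ M, x * y * x⁻¹ * y⁻¹ ∈ N) (hexp : ∀ x ∈ M, x ^ q ∈ N) (g : G)
    (hg : ∀ x ∈ M, x⁻¹ * (g ^ (q - 1) * x * (g ^ (q - 1))⁻¹) ∈ N) :
    ∃ (a : ℕ), ∃ y ∈ M, y ∉ N ∧ g * y * g⁻¹ * (y ^ a)⁻¹ ∈ N := by
  let f := QuotientGroup.mk' N
  let V : Subgroup (G ⧸ N) := M.map f
  have hVcomm : ∀ x y : V, x * y = y * x := by
    rintro ⟨_, x, hx, rfl⟩ ⟨_, y, hy, rfl⟩
    apply Subtype.ext
    show f x * f y = f y * f x
    rw [← commutatorElement_eq_one_iff_mul_comm, commutatorElement_def, ← map_inv, ← map_inv,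
      ← map_mul, ← map_mul, ← map_mul]
    exact (QuotientGroup.eq_one_iff _).2 (hcomm x hx y hy)
  have hVn : V.Normal := Subgroup.Normal.map inferInstance f (QuotientGroup.mk'_surjective N)
  let e : V →* V :=
    { toFun := fun v => ⟨f g * v * (f g)⁻¹, hVn.conj_mem v v.2 _⟩
      map_one' := by ext; simp
      map_mul' := fun v w => by ext; simp [mul_assoc] }
  have hiter : ∀ (n : ℕ) (v : V), ((⇑e)^[n] v : G ⧸ N) = f g ^ n * v * (f g ^ n)⁻¹ := by
    intro n
    induction n with
    | zero => intro v; simp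
    | succ n ih =>
      intro v
      rw [Function.iterate_succ_apply']
      show f g * (((⇑e)^[n] v : V) : G ⧸ N) * (f g)⁻¹ = _
      rw [ih, pow_succ']
      group
  have he : ∀ v, (⇑e)^[q] v = e v := by
    intro v
    obtain ⟨_, x, hx, rfl⟩ := v
    apply Subtype.ext
    rw [hiter]
    show f g ^ q * f x * (f g ^ q)⁻¹ = f g * f x * (f g)⁻¹
    have h1 : f g ^ (q - 1) * f x * (f g ^ (q - 1))⁻¹ = f x := by
      rw [← map_pow, ← map_inv, ← map_mul, ← map_mul, eq_comm]
      exact QuotientGroup.eq.2 (hg x hx)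
    conv_lhs => rw [show q = 1 + (q - 1) from by have := hq.1.one_lt; omega, pow_add, pow_one]
    calc f g * f g ^ (q - 1) * f x * (f g * f g ^ (q - 1))⁻¹
        = f g * (f g ^ (q - 1) * f x * (f g ^ (q - 1))⁻¹) * (f g)⁻¹ := by group
      _ = _ := by rw [h1]
  obtain ⟨y, hyM, hyN⟩ := SetLike.exists_of_lt hNM
  have : Nontrivial V := by
    refine ⟨⟨f y, y, hyM, rfl⟩, 1, fun h => hyN ?_⟩
    exact (QuotientGroup.eq_one_iff _).1 (congrArg Subtype.val h)
  have hexp' : ∀ v : V, v ^ q = 1 := by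
    intro v
    obtain ⟨_, x, hx, rfl⟩ := v
    apply Subtype.ext
    show (f x) ^ q = 1
    rw [← map_pow]
    exact (QuotientGroup.eq_one_iff _).2 (hexp x hx)
  obtain ⟨a, v, hv, hav⟩ := @exists_eigen_comm q _ V { Subgroup.toGroup V with mul_comm := hVcomm } _ hexp' e he
  obtain ⟨_, x, hx, rfl⟩ := v
  refine ⟨a, x, hx, fun hxN => hv ?_, ?_⟩
  · apply Subtype.ext
    exact (QuotientGroup.eq_one_iff _).2 hxN
  · rw [← QuotientGroup.eq_one_iff]
    show f (g * x * g⁻¹ * (x ^ a)⁻¹) = 1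
    have h4 : f g * f x * (f g)⁻¹ = f x ^ a := congrArg Subtype.val hav
    rw [map_mul, map_inv, map_mul, map_mul, map_inv, map_pow, h4, mul_inv_cancel]

/-- A normal `q`-subgroup centralized by the `q'`-elements of `powerKernel q G` has a normal series
with cyclic factors. -/
theorem reach_of_powerKernel (Q : Subgroup G) [Q.Normal] (hQ : IsPGroup q Q)
    (hK : ∀ g ∈ powerKernel q G, (orderOf g).Coprime q → g ∈ Subgroup.centralizer (Q : Set G)) :
    Reach Q := by
  obtain ⟨N, ⟨hN, hNQ⟩, hmax⟩ := Set.Finite.exists_maximal (Set.toFinite {N : Subgroup G | Reach N ∧ N ≤ Q})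
    ⟨⊥, Reach.bot, bot_le⟩
  rcases eq_or_lt_of_le hNQ with h | hlt
  · exact h ▸ hN
  exfalso
  have : N.Normal := hN.normal
  set K := powerKernel q G with hKdef
  have : K.Normal := powerKernel_normal
  -- a Sylow subgroup `T` of `X = Q K` containing `Q`
  set X := Q ⊔ K with hX
  obtain ⟨T, hT⟩ := (hQ.comap_subtype (K := X)).exists_le_sylow
  set T' := (T : Subgroup X).map X.subtype with hT'
  have hQT : Q ≤ T' := fun x hx => ⟨⟨x, Subgroup.mem_sup_left hx⟩, hT (Subgroup.mem_subgroupOf.2 hx), rfl⟩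
  have hT'p : IsPGroup q T' := T.2.map _
  have hres : (Cfsg.pResidual q X).map X.subtype ≤ Subgroup.centralizer (Q : Set G) := by
    rw [Cfsg.pResidual, MonoidHom.map_closure, Subgroup.closure_le]
    rintro _ ⟨x, hx, rfl⟩
    refine hK _ ?_ (by simpa using hx)
    have hq' : IsPGroup q (Q.map (QuotientGroup.mk' K)) := hQ.map _
    have hmem : QuotientGroup.mk' K (x : G) ∈ Q.map (QuotientGroup.mk' K) := by
      obtain ⟨a, ha, b, hb, hab⟩ := Subgroup.mem_sup_of_normal_right.1 (show (x : G) ∈ Q ⊔ K from x.2)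
      refine ⟨a, ha, ?_⟩
      rw [← hab, map_mul, show QuotientGroup.mk' K b = 1 from (QuotientGroup.eq_one_iff b).2 hb, mul_one]
    obtain ⟨k, hk⟩ := IsPGroup.iff_orderOf.1 hq' ⟨_, hmem⟩
    rw [Subgroup.orderOf_mk] at hk
    have h1 : orderOf (QuotientGroup.mk' K (x : G)) ∣ orderOf x := by
      rw [← Subgroup.orderOf_coe x]; exact orderOf_map_dvd _ _
    have h2 : (orderOf x).Coprime (q ^ k) := Nat.Coprime.pow_right _ hx
    rw [← hk] at h2
    exact (QuotientGroup.eq_one_iff _).1 (orderOf_eq_one_iff.1 (Nat.eq_one_of_dvd_coprimes h2 h1 dvd_rfl))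
  have hKCT : K ≤ Subgroup.centralizer (Q : Set G) ⊔ T' := by
    have h1 := congrArg (Subgroup.map X.subtype) (Transfer.pResidual_sup_eq_top T.not_dvd_index)
    rw [Subgroup.map_sup, ← MonoidHom.range_eq_map, Subgroup.range_subtype] at h1
    exact le_trans (h1.symm ▸ le_sup_right) (sup_le_sup_right hres T')
  -- the layer `B`
  let B : Subgroup G :=
    { carrier := {y | y ∈ Q ∧ y ^ q ∈ N ∧ ∀ k ∈ Q ⊔ K, k * y * k⁻¹ * y⁻¹ ∈ N}
      one_mem' := ⟨Q.one_mem, by simp [N.one_mem], fun k _ => by simp [N.one_mem]⟩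
      mul_mem' := fun {a b} ha hb => by
        refine ⟨Q.mul_mem ha.1 hb.1, ?_, fun k hk => ?_⟩
        · rw [← QuotientGroup.eq_one_iff]
          have hab : Commute (a : G ⧸ N) (b : G ⧸ N) := by
            rw [commute_iff_eq, ← commutatorElement_eq_one_iff_mul_comm, commutatorElement_def]
            exact (QuotientGroup.eq_one_iff _).2 (hb.2.2 a (Subgroup.mem_sup_left ha.1))
          rw [QuotientGroup.mk_pow, QuotientGroup.mk_mul, hab.mul_pow, ← QuotientGroup.mk_pow,
            ← QuotientGroup.mk_pow, (QuotientGroup.eq_one_iff _).2 ha.2.1,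
            (QuotientGroup.eq_one_iff _).2 hb.2.1, mul_one]
        · have e : k * (a * b) * k⁻¹ * (a * b)⁻¹ =
              (k * a * k⁻¹ * a⁻¹) * (a * (k * b * k⁻¹ * b⁻¹) * a⁻¹) := by group
          rw [e]
          exact N.mul_mem (ha.2.2 k hk) ((inferInstance : N.Normal).conj_mem _ (hb.2.2 k hk) a)
      inv_mem' := fun {a} ha => by
        refine ⟨Q.inv_mem ha.1, by rw [inv_pow]; exact N.inv_mem ha.2.1, fun k hk => ?_⟩
        have e : k * a⁻¹ * k⁻¹ * a⁻¹⁻¹ = a⁻¹ * (k * a * k⁻¹ * a⁻¹)⁻¹ * a⁻¹⁻¹ := by group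
        rw [e]
        exact (inferInstance : N.Normal).conj_mem _ (N.inv_mem (ha.2.2 k hk)) a⁻¹ }
  have hBn : B.Normal := ⟨fun y hy g => by
    refine ⟨(inferInstance : Q.Normal).conj_mem y hy.1 g,
      by rw [conj_pow]; exact (inferInstance : N.Normal).conj_mem _ hy.2.1 g, fun k hk => ?_⟩
    have hk' := (inferInstance : (Q ⊔ K).Normal).conj_mem k hk g⁻¹
    have h := (inferInstance : N.Normal).conj_mem _ (hy.2.2 _ hk') g
    convert h using 1
    group⟩
  have hNB : N ≤ B := fun y hy => ⟨hNQ hy, N.pow_mem hy q, fun k _ =>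
    N.mul_mem ((inferInstance : N.Normal).conj_mem y hy k) (N.inv_mem hy)⟩
  -- `B` is strictly larger
  have hBne : N < B := by
    refine lt_of_le_of_ne hNB fun hNBeq => ?_
    let f := QuotientGroup.mk' N
    set T₀ := T'.map f with hT₀
    have hQ₀ : (Q.map f).subgroupOf T₀ ≠ ⊥ := by
      intro h
      obtain ⟨y, hy, hyN⟩ := SetLike.exists_of_lt hlt
      apply hyN
      rw [← QuotientGroup.eq_one_iff]
      have hm : (⟨f y, y, hQT hy, rfl⟩ : T₀) ∈ (Q.map f).subgroupOf T₀ := ⟨y, hy, rfl⟩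
      rw [h, Subgroup.mem_bot] at hm
      exact congrArg Subtype.val hm
    have : (Q.map f).Normal := Subgroup.Normal.map inferInstance f (QuotientGroup.mk'_surjective N)
    obtain ⟨⟨z, hz⟩, hzQ, hzc, hzo⟩ :=
      Transfer.exists_central_orderOf_eq_prime (hT'p.map f) ((Q.map f).subgroupOf T₀) hQ₀
    rw [Subgroup.orderOf_mk] at hzo
    obtain ⟨y, hy, rfl⟩ := (Subgroup.mem_subgroupOf.1 hzQ : z ∈ Q.map f)
    have hyB : y ∈ B := by
      refine ⟨hy, ?_, fun k hk => ?_⟩
      · rw [← QuotientGroup.eq_one_iff, QuotientGroup.mk_pow, ← hzo]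
        exact pow_orderOf_eq_one _
      · have hcT : ∀ t ∈ T', f t * f y = f y * f t := fun t ht =>
          congrArg Subtype.val (Subgroup.mem_center_iff.1 hzc ⟨f t, t, ht, rfl⟩)
        have hle : Q ⊔ K ≤ (Subgroup.centralizer {f y}).comap f := by
          refine sup_le (fun t ht => Subgroup.mem_centralizer_singleton_iff.2 (hcT t (hQT ht))) ?_
          refine le_trans hKCT (sup_le (fun c hc => Subgroup.mem_centralizer_singleton_iff.2 ?_)
            (fun t ht => Subgroup.mem_centralizer_singleton_iff.2 (hcT t ht)))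
          rw [← map_mul, ← map_mul, Subgroup.mem_centralizer_iff.1 hc y hy]
        have := Subgroup.mem_centralizer_singleton_iff.1 (hle hk)
        rw [← QuotientGroup.eq_one_iff]
        show f (k * y * k⁻¹ * y⁻¹) = 1
        rw [map_mul, map_mul, map_mul, map_inv, map_inv, this]; group
    rw [← hNBeq] at hyB
    have : f y = 1 := (QuotientGroup.eq_one_iff y).2 hyB
    rw [this, orderOf_one] at hzo
    exact hq.1.one_lt.ne hzo
  obtain ⟨M, ⟨hMn, hNM, hMB⟩, hMmin⟩ := Set.Finite.exists_minimal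
    (Set.toFinite {M : Subgroup G | M.Normal ∧ N < M ∧ M ≤ B}) ⟨B, hBn, hBne, le_rfl⟩
  -- every element of `G` acts by a power map on `M / N`
  have hact : ∀ g : G, ∃ a : ℕ, ∀ x ∈ M, g * x * g⁻¹ * (x ^ a)⁻¹ ∈ N := by
    intro g
    have : M.Normal := hMn
    obtain ⟨a, y, hy, hyN, hya⟩ := exists_eigen (q := q) hNM
      (fun x hx y hy => (hMB hy).2.2 x (Subgroup.mem_sup_left (hMB hx).1))
      (fun x hx => (hMB hx).2.1) g
      (fun x hx => by
        have hk : g ^ (q - 1) ∈ Q ⊔ K :=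
          Subgroup.mem_sup_right (Subgroup.mem_sup_right (Subgroup.subset_closure ⟨g, rfl⟩))
        have h := (inferInstance : N.Normal).conj_mem _ ((hMB hx).2.2 _ hk) x⁻¹
        convert h using 1
        group)
    let E : Subgroup G :=
      { carrier := {x | x ∈ M ∧ g * x * g⁻¹ * (x ^ a)⁻¹ ∈ N}
        one_mem' := ⟨M.one_mem, by simp [N.one_mem]⟩
        mul_mem' := fun {x z} hx hz => by
          refine ⟨M.mul_mem hx.1 hz.1, ?_⟩
          have hxz : Commute (x : G ⧸ N) (z : G ⧸ N) := by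
            rw [commute_iff_eq, ← commutatorElement_eq_one_iff_mul_comm, commutatorElement_def]
            exact (QuotientGroup.eq_one_iff _).2 ((hMB hz.1).2.2 x (Subgroup.mem_sup_left (hMB hx.1).1))
          have h1 := (QuotientGroup.eq_one_iff _).2 hx.2
          have h2 := (QuotientGroup.eq_one_iff _).2 hz.2
          rw [← QuotientGroup.eq_one_iff]
          simp only [QuotientGroup.mk_mul, QuotientGroup.mk_inv, QuotientGroup.mk_pow] at h1 h2 ⊢
          rw [mul_inv_eq_one] at h1 h2 ⊢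
          rw [hxz.mul_pow, ← h1, ← h2]; group
        inv_mem' := fun {x} hx => by
          refine ⟨M.inv_mem hx.1, ?_⟩
          have h1 := (QuotientGroup.eq_one_iff _).2 hx.2
          rw [← QuotientGroup.eq_one_iff]
          simp only [QuotientGroup.mk_mul, QuotientGroup.mk_inv, QuotientGroup.mk_pow] at h1 ⊢
          rw [mul_inv_eq_one] at h1 ⊢
          rw [inv_pow, ← h1]; group }
    have hEn : E.Normal := ⟨fun x hx h => by
      refine ⟨hMn.conj_mem x hx.1 h, ?_⟩
      have hc : ⁅g, h⁆ ∈ Q ⊔ K := Subgroup.mem_sup_right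
        (Subgroup.mem_sup_left (Subgroup.commutator_mem_commutator (Subgroup.mem_top g) (Subgroup.mem_top h)))
      have h1 := (QuotientGroup.eq_one_iff _).2 hx.2
      have h2 := (QuotientGroup.eq_one_iff _).2 ((hMB (hMn.conj_mem _ (hMn.conj_mem x hx.1 g) h)).2.2 _ hc)
      rw [← QuotientGroup.eq_one_iff]
      simp only [commutatorElement_def, QuotientGroup.mk_mul, QuotientGroup.mk_inv, QuotientGroup.mk_pow] at h1 h2 ⊢
      rw [mul_inv_eq_one] at h1 h2 ⊢
      rw [conj_pow, ← h1]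
      exact (show _ = _ by group).trans h2⟩
    have hNE : N ≤ E := fun x hx => ⟨hNM.le hx,
      N.mul_mem ((inferInstance : N.Normal).conj_mem x hx g) (N.inv_mem (N.pow_mem hx a))⟩
    have hlt' : N < E := lt_of_le_of_ne hNE fun h => hyN (h ▸ (⟨hy, hya⟩ : y ∈ E))
    have := hMmin ⟨hEn, hlt', le_trans (fun x hx => hx.1) hMB⟩ (fun x hx => hx.1)
    exact ⟨a, fun x hx => (this hx).2⟩
  obtain ⟨y, hy, hyN⟩ := SetLike.exists_of_lt hNM
  have hn : (N ⊔ Subgroup.zpowers y).Normal := by
    refine ⟨fun x hx g => ?_⟩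
    obtain ⟨n, hn, z, hz, rfl⟩ := Subgroup.mem_sup_of_normal_left.1 hx
    obtain ⟨j, rfl⟩ := Subgroup.mem_zpowers_iff.1 hz
    rw [show g * (n * y ^ j) * g⁻¹ = (g * n * g⁻¹) * (g * y * g⁻¹) ^ j by rw [conj_zpow]; group]
    refine mul_mem (Subgroup.mem_sup_left ((inferInstance : N.Normal).conj_mem n hn g)) (zpow_mem ?_ j)
    obtain ⟨a, ha⟩ := hact g
    have := mul_mem (Subgroup.mem_sup_left (ha y hy) : _ ∈ N ⊔ Subgroup.zpowers y)
      (Subgroup.mem_sup_right (pow_mem (Subgroup.mem_zpowers y) a))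
    rwa [inv_mul_cancel_right] at this
  have hle := hmax ⟨Reach.step N y hN hn, sup_le hNQ (Subgroup.zpowers_le.2 (hMB hy).1)⟩ le_sup_left
  exact hyN (hle (Subgroup.mem_sup_right (Subgroup.mem_zpowers y)))

end Cfsg.Agent.LocEven
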