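import Cfsg.Prelude.Def_DStar
import Cfsg.Prelude.Def_PLocal
import Cfsg.Agent.Modules.Replacement
import Cfsg.Agent.Modules.Fixed
import Cfsg.Agent.Fusion.Basic
import Cfsg.Agent.PSolv.Cores
import Cfsg.Agent.PSolv.OmegaCenter

/-!
The subgroup `D*(S)` of Glauberman and Solomon, and its theorem.
-/

set_option autoImplicit false
set_option linter.style.haveILetI false

namespace Cfsg.Agent.LocEven.DStar

open Subgroup
open Cfsg.Agent.Modules (comm_iff comm_mono comm_sup comm_map)
open scoped commutatorElement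

variable {S : Type*} [Group S]

/-- An element normalizing an abelian `A` with `[a, x]` commuting with `x` gives class two. -/
theorem classTwo_of_quad {A : Subgroup S} {x : S} (hA : IsMulCommutative A)
    (hx : x ∈ normalizer (A : Set S)) (hq : ∀ a ∈ A, ⁅a, x⁆ * x = x * ⁅a, x⁆) :
    ⁅⁅A ⊔ zpowers x, A ⊔ zpowers x⁆, A ⊔ zpowers x⁆ = ⊥ := by
  set K := A ⊔ zpowers x with hK
  set R := K ⊓ centralizer (K : Set S) with hR
  have hKc : K = closure ((A : Set S) ∪ {x}) := by
    rw [Subgroup.closure_union, closure_eq, ← zpowers_eq_closure]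
  have hKR : K ≤ normalizer (R : Set S) := fun k hk => mem_normalizer_iff.2 fun r => by
    constructor <;> intro hr
    · have : k * r * k⁻¹ = r := by rw [mem_centralizer_iff.1 hr.2 k hk, mul_inv_cancel_right]
      rwa [this]
    · have h1 := mem_centralizer_iff.1 hr.2 k hk
      have h2 : k * r * k⁻¹ = r := by
        calc k * r * k⁻¹ = k⁻¹ * (k * (k * r * k⁻¹)) * 1 := by group
          _ = k⁻¹ * ((k * r * k⁻¹) * k) * 1 := by rw [h1]
          _ = r := by group
      rwa [h2] at hr
  have hin : ∀ r : S, r ∈ A → r * x = x * r → r ∈ R := fun r hr hrx =>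
    ⟨mem_sup_left hr, by
      rw [SetLike.mem_coe, hKc, centralizer_closure]
      refine mem_centralizer_iff.2 ?_
      rintro y (hy | rfl)
      · exact comm_iff.1 hA y hy r hr
      · exact hrx.symm⟩
  have hax : ∀ a ∈ A, ⁅a, x⁆ ∈ R := fun a ha => hin _ (by
    rw [show ⁅a, x⁆ = a * (x * a⁻¹ * x⁻¹) by simp [commutatorElement_def, mul_assoc]]
    exact mul_mem ha ((mem_normalizer_iff.1 hx _).1 (inv_mem ha))) (hq a ha)
  have hgen : ∀ u ∈ (A : Set S) ∪ {x}, ∀ v ∈ (A : Set S) ∪ {x}, ⁅u, v⁆ ∈ R := by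
    rintro u (hu | rfl) v (hv | rfl)
    · rw [commutatorElement_eq_one_iff_mul_comm.2 (comm_iff.1 hA u hu v hv)]; exact one_mem _
    · exact hax u hu
    · rw [← commutatorElement_inv]; exact inv_mem (hax v hv)
    · rw [commutatorElement_self]; exact one_mem _
  have hsub : ((A : Set S) ∪ {x}) ⊆ (K : Set S) := by rw [hKc]; exact subset_closure
  have hS : ((A : Set S) ∪ {x}) ⊆ normalizer (R : Set S) := hsub.trans hKR
  have h1 : ∀ u ∈ (A : Set S) ∪ {x}, ∀ v ∈ K, ⁅v, u⁆ ∈ R := by
    intro u hu v hv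
    rw [hKc] at hv
    induction hv using closure_induction with
    | mem w hw => exact hgen w hw u hu
    | one => rw [commutatorElement_one_left]; exact one_mem _
    | mul a b ha hb iha ihb =>
      rw [← hKc] at ha
      rw [show ⁅a * b, u⁆ = a * ⁅b, u⁆ * a⁻¹ * ⁅a, u⁆ by simp [commutatorElement_def, mul_assoc]]
      exact mul_mem ((mem_normalizer_iff.1 (hKR ha) _).1 ihb) iha
    | inv a ha iha =>
      rw [← hKc] at ha
      rw [show ⁅a⁻¹, u⁆ = a⁻¹ * ⁅a, u⁆⁻¹ * a⁻¹⁻¹ by simp [commutatorElement_def, mul_assoc]]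
      exact (mem_normalizer_iff.1 (hKR (inv_mem ha)) _).1 (inv_mem iha)
  refine commutator_eq_bot_iff_le_centralizer.2 (le_trans ?_ (inf_le_right : R ≤ _))
  exact Modules.commutator_le_of_closure hKc.le hS h1

theorem fam_centralizes {A : Subgroup S} (hA : A ∈ Cfsg.dStarFamily S) {x : S}
    (hx : x ∈ normalizer (A : Set S)) (hq : ∀ a ∈ A, ⁅a, x⁆ * x = x * ⁅a, x⁆) :
    ∀ a ∈ A, a * x = x * a :=
  hA.2 x (classTwo_of_quad hA.1 hx hq)

theorem center_mem_fam (S : Type*) [Group S] : center S ∈ Cfsg.dStarFamily S :=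
  ⟨inferInstance, fun x _ a ha => (mem_center_iff.1 ha x).symm⟩

theorem fam_sup {A B : Subgroup S} (hA : A ∈ Cfsg.dStarFamily S) (hB : B ∈ Cfsg.dStarFamily S)
    (hAB : B ≤ centralizer (A : Set S)) : A ⊔ B ∈ Cfsg.dStarFamily S := by
  refine ⟨comm_sup hA.1 hB.1 hAB, fun x hx a ha => ?_⟩
  have hmono : ∀ C ≤ A ⊔ B, ⁅⁅C ⊔ zpowers x, C ⊔ zpowers x⁆, C ⊔ zpowers x⁆ = ⊥ := fun C hC => by
    refine le_bot_iff.1 (hx ▸ ?_)
    exact commutator_mono (commutator_mono (sup_le_sup_right hC _) (sup_le_sup_right hC _))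
      (sup_le_sup_right hC _)
  have h : A ⊔ B ≤ centralizer ({x} : Set S) := sup_le
    (fun c hc => mem_centralizer_singleton_iff.2 (hA.2 x (hmono A le_sup_left) c hc))
    (fun c hc => mem_centralizer_singleton_iff.2 (hB.2 x (hmono B le_sup_right) c hc))
  exact mem_centralizer_singleton_iff.1 (h ha)

theorem fam_map {S' : Type*} [Group S'] (e : S ≃* S') {A : Subgroup S}
    (hA : A ∈ Cfsg.dStarFamily S) : A.map e.toMonoidHom ∈ Cfsg.dStarFamily S' := by
  refine ⟨comm_map _ hA.1, ?_⟩
  intro x hx a ha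
  obtain ⟨b, hb, rfl⟩ := ha
  obtain ⟨y, rfl⟩ := e.surjective x
  refine (?_ : e b * e y = e y * e b)
  rw [← map_mul, ← map_mul]
  refine congrArg e (hA.2 y ?_ b hb)
  refine (map_eq_bot_iff_of_injective _ (f := e.toMonoidHom) e.injective).1 ?_
  rw [map_commutator, map_commutator, Subgroup.map_sup, MonoidHom.map_zpowers]
  exact hx

theorem map_dStar {S' : Type*} [Group S'] (e : S ≃* S') :
    (Cfsg.dStar S).map e.toMonoidHom ≤ Cfsg.dStar S' :=
  map_le_iff_le_comap.2 (sSup_le fun _ hA => map_le_iff_le_comap.1 (le_sSup (fam_map e hA)))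

theorem maximal_normal [Finite S] [Group.IsNilpotent S] {M : Subgroup S}
    (hM : Maximal (· ∈ Cfsg.dStarFamily S) M) : M.Normal := by
  by_contra hn
  set N := normalizer (M : Set S) with hN
  have hNtop : N ≠ ⊤ := fun h => hn (normalizer_eq_top_iff.1 h)
  obtain ⟨g, hg, hgN⟩ := SetLike.exists_of_lt
    (Group.normalizerCondition_of_isNilpotent N (lt_top_iff_ne_top.2 hNtop))
  set M' := M.map (MulAut.conj g).toMonoidHom with hM'
  have hM'F : M' ∈ Cfsg.dStarFamily S := fam_map (MulAut.conj g) hM.prop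
  have hM'N : M' ≤ N := by
    rintro - ⟨m, hm, rfl⟩
    exact (mem_normalizer_iff.1 hg m).1 (le_normalizer hm)
  have hcm : M' ≤ centralizer (M : Set S) := fun x hx => mem_centralizer_iff.2 fun a ha =>
    fam_centralizes hM.prop (hM'N hx) (fun b hb => by
      refine comm_iff.1 hM'F.1 _ ?_ _ hx
      have hbN : b ∈ normalizer (M' : Set S) := by
        refine mem_normalizer_iff.2 fun y => ?_
        rw [hM', mem_map_equiv, mem_map_equiv]
        have h1 : g⁻¹ * b * g ∈ N := by
          have := (mem_normalizer_iff.1 (inv_mem hg) b).1 (le_normalizer hb)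
          simpa using this
        have h2 := mem_normalizer_iff.1 h1 (g⁻¹ * y * g)
        simpa [mul_assoc] using h2
      rw [show ⁅b, x⁆ = b * x * b⁻¹ * x⁻¹ from rfl]
      exact mul_mem ((mem_normalizer_iff.1 hbN x).1 hx) (inv_mem hx)) a ha
  have hle : M' ≤ M := le_sup_right.trans (hM.2 (fam_sup hM.prop hM'F hcm) le_sup_left)
  refine hgN ?_
  rw [hN, mem_normalizer_iff_map_conj_eq]
  exact eq_of_le_of_card_ge hle (card_map_of_injective (MulAut.conj g).injective).ge

theorem exists_greatest [Finite S] [Group.IsNilpotent S] :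
    ∃ M, M ∈ Cfsg.dStarFamily S ∧ M.Normal ∧ (∀ A ∈ Cfsg.dStarFamily S, A ≤ M) := by
  obtain ⟨M, -, hM⟩ := Finite.exists_le_maximal (p := (· ∈ Cfsg.dStarFamily S)) (center_mem_fam S)
  refine ⟨M, hM.prop, maximal_normal hM, fun A hA => ?_⟩
  obtain ⟨M', hAM', hM'⟩ := Finite.exists_le_maximal (p := (· ∈ Cfsg.dStarFamily S)) hA
  haveI := maximal_normal hM
  haveI := maximal_normal hM'
  have hc : M' ≤ centralizer (M : Set S) := fun x hx => mem_centralizer_iff.2 fun a ha =>
    fam_centralizes hM.prop (by rw [normalizer_eq_top (H := M)]; trivial) (fun b _ => by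
      refine comm_iff.1 hM'.prop.1 _ ?_ _ hx
      rw [show ⁅b, x⁆ = b * x * b⁻¹ * x⁻¹ from rfl]
      exact mul_mem ((inferInstance : M'.Normal).conj_mem x hx b) (inv_mem hx)) a ha
  exact hAM'.trans (le_sup_right.trans (hM.2 (fam_sup hM.prop hM'.prop hc) le_sup_left))

theorem dStar_mem [Finite S] [Group.IsNilpotent S] : Cfsg.dStar S ∈ Cfsg.dStarFamily S := by
  obtain ⟨M, hM, -, hg⟩ := exists_greatest (S := S)
  rwa [show Cfsg.dStar S = M from le_antisymm (sSup_le hg) (le_sSup hM)]

theorem dStar_normal [Finite S] [Group.IsNilpotent S] : (Cfsg.dStar S).Normal := by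
  obtain ⟨M, hM, hn, hg⟩ := exists_greatest (S := S)
  rwa [show Cfsg.dStar S = M from le_antisymm (sSup_le hg) (le_sSup hM)]

theorem dStar_le_normal_abelian [Finite S] [Group.IsNilpotent S] {A : Subgroup S} [A.Normal]
    (hA : IsMulCommutative A)
    (hmax : ∀ B : Subgroup S, B.Normal → IsMulCommutative B → A ≤ B → B = A) :
    Cfsg.dStar S ≤ A := by
  haveI := dStar_normal (S := S)
  set D := Cfsg.dStar S with hD
  have hc : A ≤ centralizer (D : Set S) := fun x hx => mem_centralizer_iff.2 fun a ha =>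
    fam_centralizes dStar_mem (by rw [← hD, normalizer_eq_top (H := D)]; trivial) (fun b _ => by
      refine comm_iff.1 hA _ ?_ _ hx
      rw [show ⁅b, x⁆ = b * x * b⁻¹ * x⁻¹ from rfl]
      exact mul_mem ((inferInstance : A.Normal).conj_mem x hx b) (inv_mem hx)) a ha
  have := hmax (D ⊔ A) inferInstance (comm_sup dStar_mem.1 hA hc) le_sup_right
  exact le_sup_left.trans this.le

theorem eq_bot_of_le_commutator [Group.IsNilpotent S] {M A : Subgroup S} (h : M ≤ ⁅M, A⁆) :
    M = ⊥ := by
  have key : ∀ n, M ≤ (⊤ : Subgroup S).lowerCentralSeries n := by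
    intro n
    induction n with
    | zero => simp
    | succ n ih => exact h.trans (commutator_mono ih le_top)
  obtain ⟨n, hn⟩ := Subgroup.nilpotent_iff_lowerCentralSeries.1 (inferInstance : Group.IsNilpotent S)
  exact le_bot_iff.1 (hn ▸ key n)

theorem dStar_le_maxAbelian [Finite S] [Group.IsNilpotent S] {A : Subgroup S}
    (hA : A ∈ Cfsg.maxAbelianSubgroups S) : Cfsg.dStar S ≤ A := by
  haveI := dStar_normal (S := S)
  set D := Cfsg.dStar S with hD
  have hAN : A ≤ normalizer (D : Set S) := by rw [normalizer_eq_top (H := D)]; exact le_top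
  suffices hc : A ≤ centralizer (D : Set S) by
    have := eq_of_le_of_card_ge (le_sup_right : A ≤ D ⊔ A)
      (hA.2 _ (comm_sup dStar_mem.1 hA.1 hc))
    exact le_sup_left.trans this.ge
  have hA' : A ∈ Modules.maxAbIn (⊤ : Subgroup S) :=
    ⟨le_top, hA.1, fun B _ hB => hA.2 B hB⟩
  obtain ⟨hmax, hquad⟩ := Modules.ab_replacement hA' dStar_mem.1 le_top hAN
  set B := A ⊓ centralizer ((⁅D, A⁆ : Subgroup S) : Set S) with hB
  set A' := ⁅D, A⁆ ⊔ B with hA'def
  have hcA' : A' ≤ centralizer (D : Set S) := fun x hx => mem_centralizer_iff.2 fun d hd =>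
    fam_centralizes dStar_mem (by rw [← hD, normalizer_eq_top (H := D)]; trivial) (fun b hb =>
      commutatorElement_eq_one_iff_mul_comm.1 (mem_bot.1 (hquad.le
        (commutator_mem_commutator (commutator_mem_commutator hb hx) hx)))) d hd
  have hDA' : D ≤ A' := by
    have := eq_of_le_of_card_ge (le_sup_right : A' ≤ D ⊔ A')
      (hmax.2.2 _ le_top (comm_sup dStar_mem.1 hmax.2.1 hcA'))
    exact le_sup_left.trans this.ge
  have hM : ⁅D, A⁆ = ⊥ := by
    refine eq_bot_of_le_commutator (A := A) (commutator_le.2 fun d hd a ha => ?_)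
    have hd' := hDA' hd
    rw [hA'def, ← SetLike.mem_coe, sup_comm, coe_mul_of_left_le_normalizer_right _ _
      (inf_le_left.trans (Modules.normalizes_commutator hAN))] at hd'
    obtain ⟨w, hw, m, hm, rfl⟩ := hd'
    have hdec : ⁅w * m, a⁆ = w * ⁅m, a⁆ * w⁻¹ * ⁅w, a⁆ := by
      simp [commutatorElement_def, mul_assoc]
    rw [hdec, commutatorElement_eq_one_iff_mul_comm.2 (comm_iff.1 hA.1 w hw.1 a ha), mul_one]
    have hwn : w ∈ normalizer ((⁅⁅D, A⁆, A⁆ : Subgroup S) : Set S) :=
      Modules.normalizes_commutator (Modules.normalizes_commutator hAN) hw.1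
    exact (mem_normalizer_iff.1 hwn _).1 (commutator_mem_commutator hm ha)
  exact le_centralizer_iff.1 (commutator_eq_bot_iff_le_centralizer.1 hM)

theorem dStarOf_le {G : Type*} [Group G] (P : Subgroup G) : Cfsg.dStarOf P ≤ P :=
  map_subtype_le _

theorem normalizer_le_dStarOf {G : Type*} [Group G] (T : Subgroup G) :
    normalizer (T : Set G) ≤ normalizer (Cfsg.dStarOf T : Set G) := by
  refine le_normalizer_iff.2 fun g hg x hx => ?_
  obtain ⟨y, hy, rfl⟩ := hx
  let e : ↥T ≃* ↥T := (T.equivMapOfInjective (MulAut.conj g).toMonoidHom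
    (MulAut.conj g).injective).trans (MulEquiv.subgroupCongr (mem_normalizer_iff_map_conj_eq.1 hg))
  exact ⟨e y, map_dStar e ⟨y, hy, rfl⟩, rfl⟩

/-- **The `D*`-theorem** of Glauberman and Solomon. -/
theorem dStar_theorem {G : Type*} [Group G] [Finite G] {p : ℕ} [Fact p.Prime]
    (hc : centralizer (Cfsg.pCore p G : Set G) ≤ Cfsg.pCore p G)
    (hst : ∀ (P : Subgroup G) [P.Normal], IsPGroup p P → Cfsg.IsPStableOn p P) (S : Sylow p G) :
    (Cfsg.dStarOf (S : Subgroup G)).Normal := by
  haveI : Group.IsNilpotent ↥(S : Subgroup G) := S.2.isNilpotent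
  set D := Cfsg.dStarOf (S : Subgroup G) with hD
  set Q := Cfsg.pCore p G with hQdef
  have hQS : Q ≤ (S : Subgroup G) := PSolv.pCore_le_sylow S
  have hQp : IsPGroup p Q := PSolv.isPGroup_pCore p G
  have hSD : (S : Subgroup G) ≤ normalizer (D : Set G) :=
    le_normalizer.trans (normalizer_le_dStarOf _)
  have hDc : IsMulCommutative D := comm_map _ dStar_mem.1
  -- `D ≤ O_p(G)`
  have hDQ : D ≤ Q := by
    intro x hx
    have hquad : ⁅⁅Q, zpowers x⁆, zpowers x⁆ = ⊥ := by
      have h1 : ⁅Q, zpowers x⁆ ≤ D := by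
        refine commutator_le.2 fun q hq y hy => ?_
        have hyD : y ∈ D := zpowers_le.2 hx hy
        rw [show ⁅q, y⁆ = q * y * q⁻¹ * y⁻¹ from rfl]
        exact mul_mem ((mem_normalizer_iff.1 (hSD (hQS hq)) y).1 hyD) (inv_mem hyD)
      exact commutator_eq_bot_iff_le_centralizer.2
        (h1.trans (Modules.comm_le_centralizer hDc |>.trans (centralizer_le (zpowers_le.2 hx))))
    have h2 := hst Q hQp x hquad
    set π := QuotientGroup.mk' (centralizer (Q : Set G))
    have hp' : IsPGroup p ((Cfsg.pCore p (G ⧸ centralizer (Q : Set G))).comap π) :=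
      (PSolv.isPGroup_pCore p _).comap_of_ker_isPGroup π
        (by rw [QuotientGroup.ker_mk']; exact hQp.to_le hc)
    exact PSolv.le_pCore inferInstance hp' h2
  set V := normalClosure (D : Set G) with hV
  have hVQ : V ≤ Q := normalClosure_le_normal hDQ
  set C := centralizer (V : Set G) with hC
  set π := QuotientGroup.mk' C with hπ
  set L := (Cfsg.pCore p (G ⧸ C)).comap π with hL
  set T := (S : Subgroup G) ⊓ L with hT
  have hQL : Q ≤ L := map_le_iff_le_comap.1 (PSolv.le_pCore
    ((inferInstance : Q.Normal).map π (QuotientGroup.mk'_surjective C)) (hQp.map π))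
  have hLT : ∀ l ∈ L, ∃ t ∈ T, t⁻¹ * l ∈ C := by
    intro l hl
    have h1 : π l ∈ (S : Subgroup G).map π := by
      have := PSolv.pCore_le_sylow (S.mapSurjective (QuotientGroup.mk'_surjective C)) hl
      rwa [Sylow.coe_mapSurjective] at this
    obtain ⟨t, ht, htl⟩ := h1
    have htC : t⁻¹ * l ∈ C := QuotientGroup.eq.1 htl
    refine ⟨t, ⟨ht, ?_⟩, htC⟩
    show π t ∈ Cfsg.pCore p (G ⧸ C)
    rw [htl]
    exact hl
  have hfr : ∀ g : G, ∃ n ∈ normalizer (T : Set G), ∃ c ∈ C, g = n * c := by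
    intro g
    have hTL : ¬ p ∣ T.relIndex L := by
      rw [hT, inf_relIndex_right]
      exact fun hd => Sylow.not_dvd_index S
        (hd.trans (PSolv.relIndex_dvd_index_of_normal_right (S : Subgroup G) L))
    have hcjL : Fusion.cj g L = L := Fusion.cj_eq_of_normal g L
    obtain ⟨l, hl, hlT⟩ := Fusion.exists_conj_of_relIndex
      (Fusion.isPGroup_cj (S.2.to_le inf_le_left : IsPGroup p T) g)
      (S.2.to_le inf_le_left : IsPGroup p T) ((Fusion.cj_mono g inf_le_right).trans hcjL.le)
      inf_le_right (by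
        conv => enter [1, 2, 2]; rw [← hcjL]
        rw [relIndex_map_map_of_injective _ _ (MulAut.conj g).injective]
        exact hTL) hTL
    rw [Fusion.cj_cj] at hlT
    have hn : l * g ∈ normalizer (T : Set G) := mem_normalizer_iff_map_conj_eq.2 hlT
    -- move the factor of `L` to the right
    have hl' : g⁻¹ * l⁻¹ * g ∈ L := by
      simpa using (inferInstance : L.Normal).conj_mem _ (inv_mem hl) g⁻¹
    obtain ⟨t, ht, htc⟩ := hLT _ hl'
    refine ⟨l * g * t, mul_mem hn (le_normalizer ht), _, htc, ?_⟩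
    group
  set E := Cfsg.dStarOf T with hE
  have hTS : T ≤ (S : Subgroup G) := inf_le_left
  haveI : Group.IsNilpotent ↥T := (S.2.to_le hTS).isNilpotent
  have hDT : D ≤ T := le_inf (dStarOf_le _) (hDQ.trans hQL)
  have hDE : D ≤ E := by
    have hmem : D.subgroupOf T ∈ Cfsg.dStarFamily ↥T := by
      refine ⟨Modules.comm_comap T.subtype T.subtype_injective hDc, fun x hx a ha => ?_⟩
      obtain ⟨d, hd, hda⟩ := (show (a : G) ∈ D from ha)
      refine Subtype.ext ?_
      show (a : G) * (x : G) = (x : G) * (a : G)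
      rw [← hda]
      refine congrArg (S : Subgroup G).subtype
        ((dStar_mem (S := ↥(S : Subgroup G))).2 ⟨x, hTS x.2⟩ ?_ d hd)
      refine (map_eq_bot_iff_of_injective _ (subtype_injective _)).1 ?_
      have := congrArg (Subgroup.map T.subtype) hx
      rw [Subgroup.map_bot, map_commutator, map_commutator, Subgroup.map_sup, MonoidHom.map_zpowers,
        map_subgroupOf_eq_of_le hDT] at this
      rw [map_commutator, map_commutator, Subgroup.map_sup, MonoidHom.map_zpowers]
      exact this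
    calc D = (D.subgroupOf T).map T.subtype := (map_subgroupOf_eq_of_le hDT).symm
      _ ≤ E := map_mono (le_sSup hmem)
  have hVE : V ≤ E := by
    refine (closure_le _).2 fun y hy => ?_
    obtain ⟨d, hd, hdy⟩ := Group.mem_conjugatesOfSet_iff.1 hy
    obtain ⟨g, rfl⟩ := isConj_iff.1 hdy
    obtain ⟨n, hn, c, hc', rfl⟩ := hfr g
    have hcd : c * d * c⁻¹ = d := by
      rw [← mem_centralizer_iff.1 hc' d (subset_normalClosure hd), mul_inv_cancel_right]
    rw [show n * c * d * (n * c)⁻¹ = n * (c * d * c⁻¹) * n⁻¹ by group, hcd]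
    exact (mem_normalizer_iff.1 (normalizer_le_dStarOf T hn) d).1 (hDE hd)
  have hED : E ≤ D := by
    have hET : E ≤ T := dStarOf_le T
    have hmem : E.subgroupOf (S : Subgroup G) ∈ Cfsg.dStarFamily ↥(S : Subgroup G) := by
      refine ⟨Modules.comm_comap _ (subtype_injective _) (comm_map _ dStar_mem.1),
        fun x hx a ha => ?_⟩
      have hK := congrArg (Subgroup.map (S : Subgroup G).subtype) hx
      rw [Subgroup.map_bot, map_commutator, map_commutator, Subgroup.map_sup, MonoidHom.map_zpowers,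
        map_subgroupOf_eq_of_le (hET.trans hTS)] at hK
      have hquad : ⁅⁅V, zpowers (x : G)⁆, zpowers (x : G)⁆ = ⊥ := le_bot_iff.1
        (hK ▸ commutator_mono (commutator_mono (hVE.trans le_sup_left) le_sup_right) le_sup_right)
      have hxT : (x : G) ∈ T := ⟨x.2, hst V (hQp.to_le hVQ) x hquad⟩
      obtain ⟨b, hb, hba⟩ := (show (a : G) ∈ E from ha)
      refine Subtype.ext ?_
      show (a : G) * (x : G) = (x : G) * (a : G)
      rw [← hba]
      refine congrArg T.subtype ((dStar_mem (S := ↥T)).2 ⟨x, hxT⟩ ?_ b hb)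
      refine (map_eq_bot_iff_of_injective _ T.subtype_injective).1 ?_
      rw [map_commutator, map_commutator, Subgroup.map_sup, MonoidHom.map_zpowers]
      exact hK
    calc E = (E.subgroupOf (S : Subgroup G)).map (S : Subgroup G).subtype :=
          (map_subgroupOf_eq_of_le (hET.trans hTS)).symm
      _ ≤ D := map_mono (le_sSup hmem)
  have : D = V := le_antisymm subset_normalClosure (hVE.trans hED)
  rw [this]
  exact normalClosure_normal

end Cfsg.Agent.LocEven.DStar
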