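import Cfsg.Agent.LocEven.CoprimeOmega
import Cfsg.Agent.Fusion.Alperin
import Cfsg.Agent.Fusion.StrongClosure
import Cfsg.Agent.Transfer.Tate
import Cfsg.Agent.Transfer.Frobenius
import Cfsg.Agent.OddLocal.Basic
import Mathlib.GroupTheory.SpecificGroups.Cyclic

/-! Strongly closed subgroups of one fixed order and `p`-nilpotency. -/

set_option autoImplicit false

namespace Cfsg.Agent.LocEven

open Cfsg.Agent.Fusion
open scoped Pointwise

variable {G : Type*} [Group G] [Finite G] {p : ℕ} [hp : Fact p.Prime]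

omit hp in
/-- All subgroups of `P` of order `p ^ d` (and `4` if `p ^ d = 2`) are normal and strongly closed in `P`. -/
def HCond (p d : ℕ) (P : Subgroup G) : Prop :=
  ∀ E : Subgroup G, E ≤ P → (Nat.card E = p ^ d ∨ (p ^ d = 2 ∧ Nat.card E = 4)) →
    P ≤ Subgroup.normalizer (E : Set G) ∧ Cfsg.IsStronglyClosed E P

theorem normal_stronglyClosed_of_hSubgroup {P E : Subgroup G} (hP : IsPGroup p P) (hEP : E ≤ P)
    (h : ∀ g : G, E.map (MulAut.conj g).toMonoidHom ⊓ Subgroup.normalizer (E : Set G) ≤ E) :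
    P ≤ Subgroup.normalizer (E : Set G) ∧ Cfsg.IsStronglyClosed E P := by
  have hF : P ⊓ Subgroup.normalizer (E : Set G) = P := by
    by_contra hne
    obtain ⟨-, hlt⟩ : True ∧ P ⊓ Subgroup.normalizer (E : Set G) < P :=
      ⟨trivial, lt_of_le_of_ne inf_le_left hne⟩
    set F := P ⊓ Subgroup.normalizer (E : Set G) with hF
    have h1 := lt_normalizer_inf hP hlt
    obtain ⟨y, hy, hyF⟩ := SetLike.exists_of_lt h1
    apply hyF
    refine ⟨hy.1, ?_⟩
    have hle : cj y E ≤ E := by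
      refine le_trans (le_inf le_rfl ?_) (h y)
      rintro _ ⟨e, he, rfl⟩
      have heF : e ∈ F := ⟨hEP he, Subgroup.le_normalizer he⟩
      exact ((Subgroup.mem_normalizer_iff.1 hy.2 e).1 heF).2
    exact cj_eq_iff_mem_normalizer.1
      (Subgroup.eq_of_le_of_card_ge hle (le_of_eq (card_cj y E).symm))
  refine ⟨inf_eq_left.1 hF, hEP, fun x hx g hg => h g ⟨⟨x, hx, rfl⟩, inf_eq_left.1 hF hg⟩⟩

theorem exists_le_card_eq_of_orderOf_le {F : Subgroup G} (hF : IsPGroup p F) {d : ℕ}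
    (hd : p ^ d ≤ Nat.card F) {x : G} (hx : x ∈ F) (hxd : orderOf x ≤ p ^ d) :
    ∃ E : Subgroup G, E ≤ F ∧ x ∈ E ∧ Nat.card E = p ^ d := by
  obtain ⟨n, hn⟩ := IsPGroup.iff_card.1 hF
  obtain ⟨m, hm⟩ := IsPGroup.iff_orderOf.1 hF ⟨x, hx⟩
  have h1 := (Fact.out : p.Prime).one_lt
  have hmd : m ≤ d := by
    rw [Subgroup.orderOf_mk] at hm
    rw [hm] at hxd
    exact (Nat.pow_le_pow_iff_right h1).1 hxd
  have hdn : d ≤ n := by rw [hn] at hd; exact (Nat.pow_le_pow_iff_right h1).1 hd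
  obtain ⟨K, hK, hxK⟩ := Sylow.exists_subgroup_card_pow_prime_le p (hn ▸ pow_dvd_pow p hdn)
    (Subgroup.zpowers (⟨x, hx⟩ : F)) (by rw [Nat.card_zpowers, hm]) hmd
  refine ⟨K.map F.subtype, Subgroup.map_subtype_le _, ⟨_, hxK (Subgroup.mem_zpowers _), rfl⟩, ?_⟩
  rw [← hK]
  exact (Nat.card_congr (K.equivMapOfInjective _ F.subtype_injective).toEquiv).symm

/-- An element normalizing `U` which moves `u` only inside `⟨u⟩ N` acts trivially modulo `N`,
provided its order is prime to the relevant automorphism group. -/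
theorem defect_mem {P N U : Subgroup G} (hP : IsPGroup p P) (hPN : P ≤ Subgroup.normalizer (N : Set G))
    (hUP : U ≤ P) {x : G} (hxU : x ∈ Subgroup.normalizer (U : Set G))
    (hcop : (orderOf x).Coprime (p - 1))
    (hN : ∀ f ∈ U, f ∈ N → x * f * x⁻¹ ∈ N) {u : G} (hu : u ∈ U)
    (hk : x * u * x⁻¹ ∈ Subgroup.zpowers u ⊔ N) (hexp : u ^ p ∈ N ∨ (orderOf x).Coprime p) :
    u⁻¹ * (x * u * x⁻¹) ∈ N := by
  have hNn : (N.subgroupOf P).Normal :=
    ⟨fun a ha g => (Subgroup.mem_normalizer_iff.1 (hPN g.2) a).1 ha⟩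
  let q := QuotientGroup.mk' (N.subgroupOf P)
  have hxU' : ∀ z ∈ U, x * z * x⁻¹ ∈ U := fun z hz => (Subgroup.mem_normalizer_iff.1 hxU z).1 hz
  set a := q ⟨u, hUP hu⟩ with ha
  -- the exponent
  obtain ⟨w, hw, f, hf, hwf⟩ : ∃ w ∈ Subgroup.zpowers u, ∃ f ∈ N, w * f = x * u * x⁻¹ := by
    have h1 : x * u * x⁻¹ ∈ ((Subgroup.zpowers u : Subgroup G) : Set G) * (N : Set G) := by
      rw [← Subgroup.coe_mul_of_left_le_normalizer_right _ _
        (Subgroup.zpowers_le.2 (hPN (hUP hu)))]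
      exact hk
    exact Set.mem_mul.1 h1
  obtain ⟨k, hk'⟩ : ∃ k : ℕ, u ^ k = w :=
    (Submonoid.mem_powers_iff _ _).1 (mem_powers_iff_mem_zpowers.2 hw)
  have hbase : q ⟨x * u * x⁻¹, hUP (hxU' u hu)⟩ = a ^ k := by
    rw [ha, ← map_pow, QuotientGroup.mk'_apply, QuotientGroup.mk'_apply, QuotientGroup.eq,
      Subgroup.mem_subgroupOf]
    have : (x * u * x⁻¹)⁻¹ * u ^ k = f⁻¹ := by rw [← hwf, hk']; group
    push_cast
    rw [this]; exact N.inv_mem hf
  have hstep : ∀ z (hz : z ∈ U) (j : ℕ), q ⟨z, hUP hz⟩ = a ^ j →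
      q ⟨x * z * x⁻¹, hUP (hxU' z hz)⟩ = a ^ (k * j) := by
    intro z hz j hj
    have hfN : (u ^ j)⁻¹ * z ∈ N := by
      rw [ha, ← map_pow, eq_comm, QuotientGroup.mk'_apply, QuotientGroup.mk'_apply, QuotientGroup.eq,
        Subgroup.mem_subgroupOf] at hj
      simpa using hj
    have hfU : (u ^ j)⁻¹ * z ∈ U := U.mul_mem (U.inv_mem (U.pow_mem hu j)) hz
    rw [pow_mul, ← hbase, ← map_pow, QuotientGroup.mk'_apply, QuotientGroup.mk'_apply, eq_comm,
      QuotientGroup.eq, Subgroup.mem_subgroupOf]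
    have h2 := hN _ hfU hfN
    push_cast
    rw [conj_pow]
    convert h2 using 1
    group
  have hiter : ∀ n : ℕ, ∃ hz : x ^ n * u * (x ^ n)⁻¹ ∈ U,
      q ⟨x ^ n * u * (x ^ n)⁻¹, hUP hz⟩ = a ^ k ^ n := by
    intro n
    induction n with
    | zero => exact ⟨by simpa using hu, by simp [ha]⟩
    | succ n ih =>
      obtain ⟨hz, hq⟩ := ih
      have e : x ^ (n + 1) * u * (x ^ (n + 1))⁻¹ = x * (x ^ n * u * (x ^ n)⁻¹) * x⁻¹ := by
        rw [pow_succ']; group
      refine ⟨e ▸ hxU' _ hz, ?_⟩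
      rw [pow_succ' k, ← hstep _ hz _ hq]
      congr 1
      exact Subtype.ext e
  obtain ⟨hz, hq⟩ := hiter (orderOf x)
  have hlast : a ^ k ^ orderOf x = a := by
    rw [← hq, ha]; congr 1; apply Subtype.ext; simp [pow_orderOf_eq_one]
  obtain ⟨m, hm⟩ := IsPGroup.iff_orderOf.1 (hP.to_quotient (N.subgroupOf P)) a
  have hk1 : a ^ k = a := by
    rcases Nat.eq_zero_or_pos m with rfl | hm0
    · rw [pow_zero, orderOf_eq_one_iff] at hm; simp [hm]
    rw [← pow_one a, ← pow_mul, one_mul, pow_eq_pow_iff_modEq, hm, ← ZMod.natCast_eq_natCast_iff]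
    have hpow : ((k : ZMod (p ^ m))) ^ orderOf x = 1 := by
      rw [← Nat.cast_pow, ← Nat.cast_one, ZMod.natCast_eq_natCast_iff, ← hm, ← pow_eq_pow_iff_modEq,
        pow_one]
      exact hlast
    let K : (ZMod (p ^ m))ˣ := Units.ofPowEqOne _ _ hpow (orderOf_pos x).ne'
    have hK1 : orderOf K ∣ orderOf x :=
      orderOf_dvd_of_pow_eq_one (Units.pow_ofPowEqOne hpow (orderOf_pos x).ne')
    have hK2 : orderOf K ∣ p ^ (m - 1) * (p - 1) := by
      have : NeZero (p ^ m) := ⟨pow_ne_zero _ hp.1.ne_zero⟩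
      rw [← Nat.totient_prime_pow hp.1 hm0, ← ZMod.card_units_eq_totient, ← Nat.card_eq_fintype_card]
      exact orderOf_dvd_natCard K
    have hc : (orderOf x).Coprime (p ^ (m - 1) * (p - 1)) := by
      refine Nat.Coprime.mul_right ?_ hcop
      rcases hexp with h | h
      · have hm1 : m ≤ 1 := by
          have h3 : a ^ p = 1 := by
            rw [ha, ← map_pow, QuotientGroup.mk'_apply, QuotientGroup.eq_one_iff,
              Subgroup.mem_subgroupOf]
            simpa using h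
          have h4 := orderOf_dvd_of_pow_eq_one h3
          rw [hm] at h4
          exact (Nat.pow_dvd_pow_iff_le_right hp.1.one_lt).1 (by rwa [pow_one])
        rw [show m - 1 = 0 by omega, pow_zero]; exact Nat.coprime_one_right _
      · exact h.pow_right _
    have hone : K = 1 := orderOf_eq_one_iff.1 (Nat.eq_one_of_dvd_coprimes hc hK1 hK2)
    have := congrArg (fun y : (ZMod (p ^ m))ˣ => (y : ZMod (p ^ m))) hone
    simpa [K] using this
  have hfin := hbase.trans hk1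
  rw [ha, eq_comm, QuotientGroup.mk'_apply, QuotientGroup.mk'_apply, QuotientGroup.eq,
    Subgroup.mem_subgroupOf] at hfin
  simpa using hfin

theorem coprime_orderOf_sub_one (hsmall : ∀ r : ℕ, r.Prime → r ∣ Nat.card G → p ≤ r) (x : G) :
    (orderOf x).Coprime (p - 1) := by
  refine Nat.coprime_of_dvd' fun r hr h1 h2 => ?_
  have h3 := hsmall r hr (dvd_trans h1 (orderOf_dvd_natCard x))
  have h4 : 1 < p := hp.1.one_lt
  have h5 := Nat.le_of_dvd (by omega) h2
  omega

section caseA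

variable {P : Sylow p G} {d : ℕ}

theorem coatom_map_stronglyClosed (hH : HCond p d (P : Subgroup G))
    (hlt : p ^ d < Nat.card (P : Subgroup G)) (hord : ∀ x ∈ P, orderOf x ≤ p ^ d)
    {M : Subgroup (P : Subgroup G)} (hM : IsCoatom M) :
    Cfsg.IsStronglyClosed (M.map (P : Subgroup G).subtype) P := by
  refine ⟨Subgroup.map_subtype_le _, fun x hx g hg => ?_⟩
  have hcard : p ^ d ≤ Nat.card ↥(M.map (P : Subgroup G).subtype) := by
    rw [← Nat.card_congr (M.equivMapOfInjective _ (Subgroup.subtype_injective _)).toEquiv]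
    have h1 := Subgroup.card_mul_index M
    rw [PGroup.index_of_isCoatom P.2 hM] at h1
    obtain ⟨n, hn⟩ := IsPGroup.iff_card.1 (P.2.to_subgroup M)
    have hlt' : p ^ d < p ^ (n + 1) := by rw [pow_succ, ← hn, h1]; exact hlt
    rw [hn]
    exact Nat.pow_le_pow_right hp.1.pos (Nat.lt_succ_iff.1 ((Nat.pow_lt_pow_iff_right hp.1.one_lt).1 hlt'))
  obtain ⟨E, hEM, hxE, hE⟩ := exists_le_card_eq_of_orderOf_le
    (P.2.to_le (Subgroup.map_subtype_le M)) hcard hx (hord x (Subgroup.map_subtype_le M hx))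
  exact hEM ((hH E (le_trans hEM (Subgroup.map_subtype_le M)) (Or.inl hE)).2.2 x hxE g hg)

theorem defect_mem_frattini (hsmall : ∀ r : ℕ, r.Prime → r ∣ Nat.card G → p ≤ r)
    (hH : HCond p d (P : Subgroup G))
    (hlt : p ^ d < Nat.card (P : Subgroup G)) (hord : ∀ x ∈ P, orderOf x ≤ p ^ d)
    {U : Subgroup G} (hUP : U ≤ (P : Subgroup G)) {x : G}
    (hx : x ∈ Subgroup.normalizer (U : Set G)) {u : G} (hu : u ∈ U) :
    u⁻¹ * (x * u * x⁻¹) ∈ (frattini ↥(P : Subgroup G)).map (P : Subgroup G).subtype := by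
  have hPn : (P : Subgroup G) ≤
      Subgroup.normalizer (((frattini ↥(P : Subgroup G)).map (P : Subgroup G).subtype : Subgroup G) : Set G) := by
    intro y hy
    rw [Subgroup.mem_normalizer_iff]
    intro z
    constructor
    · rintro ⟨w, hw, rfl⟩
      exact ⟨⟨y, hy⟩ * w * ⟨y, hy⟩⁻¹, (inferInstance : (frattini ↥(P : Subgroup G)).Normal).conj_mem w hw _, rfl⟩
    · rintro ⟨w, hw, hwz⟩
      refine ⟨⟨y, hy⟩⁻¹ * w * ⟨y, hy⟩, ?_, ?_⟩
      · simpa using (inferInstance : (frattini ↥(P : Subgroup G)).Normal).conj_mem w hw (⟨y, hy⟩⁻¹)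
      · have hwz' : (w : G) = y * z * y⁻¹ := hwz
        simp [hwz', mul_assoc]
  have hxU : ∀ z ∈ U, x * z * x⁻¹ ∈ U := fun z hz => (Subgroup.mem_normalizer_iff.1 hx z).1 hz
  have key : ∀ z (hz : z ∈ U) (N : Subgroup (P : Subgroup G)), frattini ↥(P : Subgroup G) ≤ N →
      (⟨z, hUP hz⟩ : (P : Subgroup G)) ∈ N → (⟨x * z * x⁻¹, hUP (hxU z hz)⟩ : (P : Subgroup G)) ∈ N := by
    intro z hz N hN hzN
    by_contra hne
    obtain ⟨M, hM, hNM, hnM⟩ := PGroup.exists_isCoatom_not_mem hp.1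
      (le_trans (PGroup.commutator_le_frattini P.2) hN) (fun y => hN (PGroup.pow_mem_frattini P.2 y)) hne
    have hsc := (coatom_map_stronglyClosed hH hlt hord hM).2 z ⟨_, hNM hzN, rfl⟩ x (hUP (hxU z hz))
    obtain ⟨w, hw, hwe⟩ := hsc
    exact hnM ((Subtype.ext hwe : w = ⟨x * z * x⁻¹, hUP (hxU z hz)⟩) ▸ hw)
  refine defect_mem (N := (frattini ↥(P : Subgroup G)).map (P : Subgroup G).subtype) P.2 hPn hUP hx
    (coprime_orderOf_sub_one hsmall x) ?_ hu ?_
    (Or.inl ⟨_, PGroup.pow_mem_frattini P.2 ⟨u, hUP hu⟩, rfl⟩)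
  · intro f hfU hf
    obtain ⟨w, hw, rfl⟩ := hf
    exact ⟨_, key _ hfU _ le_rfl hw, rfl⟩
  · have h := key u hu (Subgroup.zpowers ⟨u, hUP hu⟩ ⊔ frattini ↥(P : Subgroup G)) le_sup_right
      (Subgroup.mem_sup_left (Subgroup.mem_zpowers _))
    have h' := Subgroup.mem_map_of_mem (P : Subgroup G).subtype h
    rw [Subgroup.map_sup, MonoidHom.map_zpowers] at h'
    exact h'

theorem hasNormalPComplement_of_exponent (hsmall : ∀ r : ℕ, r.Prime → r ∣ Nat.card G → p ≤ r)
    (hH : HCond p d (P : Subgroup G))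
    (hlt : p ^ d < Nat.card (P : Subgroup G)) (hord : ∀ x ∈ P, orderOf x ≤ p ^ d) :
    Cfsg.HasNormalPComplement p G := by
  set Φ := (frattini ↥(P : Subgroup G)).map (P : Subgroup G).subtype with hΦ
  have hchain : ∀ (D : Subgroup G) (g : G), FusionChain P D g → ∀ w ∈ D, w⁻¹ * (g⁻¹ * w * g) ∈ Φ := by
    intro D g hc
    induction hc with
    | one D => intro w _; simp
    | @step D R x y _ hx _ hDR _ ih =>
      intro w hw
      have h1 := defect_mem_frattini hsmall hH hlt hord (inf_le_left)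
        ((Subgroup.normalizer _).inv_mem hx) (hDR hw)
      have h2 := ih (x⁻¹ * w * x) ⟨w, hw, by simp⟩
      have h3 := Φ.mul_mem h1 h2
      convert h3 using 1
      group
  have hfocal : (P : Subgroup G).focalSubgroup ≤ Φ := by
    rw [Subgroup.focalSubgroup_def, Subgroup.closure_le]
    rintro _ ⟨hz, a, ha, u, rfl⟩
    have hu' : u * a⁻¹ * u⁻¹ ∈ (P : Subgroup G) := by
      have := (P : Subgroup G).mul_mem ((P : Subgroup G).inv_mem ha) hz
      simpa [commutatorElement_def, mul_assoc] using this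
    have hc := exists_chain P (D := Subgroup.zpowers a⁻¹) (g := u⁻¹)
      (Subgroup.zpowers_le.2 ((P : Subgroup G).inv_mem ha))
      (by
        rw [inv_inv, cj, MonoidHom.map_zpowers, Subgroup.zpowers_le]
        simpa using hu')
    have h := hchain _ _ hc _ (Subgroup.mem_zpowers _)
    simpa [commutatorElement_def, mul_assoc] using h
  have hK := Transfer.hasNormalPComplement_of_inf_le_frattini P (Cfsg.pResidual p G)
    (by rw [inf_comm]; exact le_trans (Transfer.sylow_inf_pResidual_le_focal P) hfocal)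
  rw [Transfer.hasNormalPComplement_iff, Transfer.pResidual_pResidual, Subgroup.card_top] at hK
  rw [Transfer.hasNormalPComplement_iff]
  exact hK

end caseA

theorem hcond_conj {P : Subgroup G} {d : ℕ} (h : HCond p d P) (a : G) : HCond p d (cj a P) := by
  intro E hE hc
  obtain ⟨h1, h2⟩ := h (cj a⁻¹ E) (by rw [← le_cj_iff]; exact hE) (by rwa [card_cj])
  have h3 := sc_conj h2 a
  rw [cj_cj_inv] at h3
  refine ⟨?_, h3⟩
  intro z hz
  obtain ⟨w, hw, rfl⟩ := hz
  rw [← cj_eq_iff_mem_normalizer]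
  have h4 : cj w (cj a⁻¹ E) = cj a⁻¹ E := cj_eq_of_mem (h1 hw)
  have h5 := congrArg (cj a) h4
  rw [cj_cj_inv, cj_cj, cj_cj] at h5
  simpa using h5

theorem commute_of_cyclic_stronglyClosed (hsmall : ∀ r : ℕ, r.Prime → r ∣ Nat.card G → p ≤ r)
    {P U E : Subgroup G} (hP : IsPGroup p P) (hUP : U ≤ P) (hE : Cfsg.IsStronglyClosed E P)
    (hEc : IsCyclic E) {g : G} (hgU : g ∈ Subgroup.normalizer (U : Set G))
    (hg : (orderOf g).Coprime p) {f : G} (hfU : f ∈ U) (hfE : f ∈ E) : g * f = f * g := by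
  have hgf : g * f * g⁻¹ ∈ U := (Subgroup.mem_normalizer_iff.1 hgU f).1 hfU
  have hfE' : g * f * g⁻¹ ∈ E := hE.2 f hfE g (hUP hgf)
  have hmem : g * f * g⁻¹ ∈ Subgroup.zpowers f := by
    have : Subgroup.zpowers (g * f * g⁻¹) = Subgroup.zpowers f := by
      refine OddLocal.eq_of_le_cyclic_of_card_eq (W := E) (Subgroup.zpowers_le.2 hfE')
        (Subgroup.zpowers_le.2 hfE) ?_
      rw [Nat.card_zpowers, Nat.card_zpowers]
      exact (MulAut.conj g).orderOf_eq f
    exact this ▸ Subgroup.mem_zpowers _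
  have h := defect_mem (N := (⊥ : Subgroup G)) hP (Subgroup.normalizer_eq_top (⊥ : Subgroup G) ▸ le_top) hUP hgU
    (coprime_orderOf_sub_one hsmall g) (fun w _ hw => by simp_all) hfU (Subgroup.mem_sup_left hmem) (Or.inr hg)
  rw [Subgroup.mem_bot, inv_mul_eq_one] at h
  calc g * f = g * f * g⁻¹ * g := by group
    _ = f * g := by rw [← h]

/-- **Strongly closed subgroups of one order.** -/
theorem hasNormalPComplement_of_hcond (hsmall : ∀ r : ℕ, r.Prime → r ∣ Nat.card G → p ≤ r)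
    (P : Sylow p G) {d : ℕ} (hd : 1 ≤ d) (hH : HCond p d (P : Subgroup G))
    (hlt : p ^ d < Nat.card (P : Subgroup G)) : Cfsg.HasNormalPComplement p G := by
  by_cases hord : ∀ x ∈ P, orderOf x ≤ p ^ d
  · exact hasNormalPComplement_of_exponent hsmall hH hlt hord
  push Not at hord
  obtain ⟨e₀, he₀, hbig⟩ := hord
  obtain ⟨m, hm⟩ := IsPGroup.iff_orderOf.1 P.2 ⟨e₀, he₀⟩
  rw [Subgroup.orderOf_mk] at hm
  have hdm : d ≤ m := ((Nat.pow_lt_pow_iff_right hp.1.one_lt).1 (hm ▸ hbig)).le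
  refine Transfer.hasNormalPComplement_of_coprime_centralize fun Q hQ _ g hgQ hg => ?_
  obtain ⟨R, hR⟩ := hQ.exists_le_sylow
  obtain ⟨a, ha⟩ := exists_cj_sylow P R
  have hHR : HCond p d (R : Subgroup G) := ha ▸ hcond_conj hH a
  set E := Subgroup.zpowers ((a * e₀ * a⁻¹) ^ p ^ (m - d)) with hEdef
  have hER : E ≤ (R : Subgroup G) := by
    rw [hEdef, Subgroup.zpowers_le]
    refine Subgroup.pow_mem _ ?_ _
    rw [← ha]; exact ⟨e₀, he₀, rfl⟩
  have hEcard : Nat.card E = p ^ d := by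
    rw [hEdef, Nat.card_zpowers, orderOf_pow' _ (pow_ne_zero _ hp.1.ne_zero),
      show orderOf (a * e₀ * a⁻¹) = p ^ m from ((MulAut.conj a).orderOf_eq e₀).trans hm,
      Nat.gcd_eq_right (pow_dvd_pow p (Nat.sub_le m d)),
      Nat.pow_div (Nat.sub_le m d) hp.1.pos]
    congr 1; omega
  obtain ⟨hRE, hEsc⟩ := hHR E hER (Or.inl hEcard)
  have hEc : IsCyclic E := by rw [hEdef]; infer_instance
  refine centralizes_of_fix_small hg Q hQ hgQ fun u hu huq => ?_
  have huord := orderOf_dvd_of_pow_eq_one huq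
  have hgu : g * u * g⁻¹ ∈ Q := (Subgroup.mem_normalizer_iff.1 hgQ u).1 hu
  by_cases hud : orderOf u ≤ p ^ d
  · -- generic case
    have hle : E ≤ Subgroup.zpowers u ⊔ E := le_sup_right
    have hXR : Subgroup.zpowers u ⊔ E ≤ (R : Subgroup G) :=
      sup_le (Subgroup.zpowers_le.2 (hR hu)) hER
    obtain ⟨J, hJ, huJ, hJc⟩ := exists_le_card_eq_of_orderOf_le (d := d) (R.2.to_le hXR)
      (hEcard ▸ Subgroup.card_le_of_le hle) (Subgroup.mem_sup_left (Subgroup.mem_zpowers u)) hud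
    have hJsc := (hHR J (le_trans hJ hXR) (Or.inl hJc)).2
    have hk : g * u * g⁻¹ ∈ Subgroup.zpowers u ⊔ E := hJ (hJsc.2 u huJ g (hR hgu))
    have hc := defect_mem R.2 hRE hR hgQ (coprime_orderOf_sub_one hsmall g)
      (fun f hfQ hfE => hEsc.2 f hfE g (hR ((Subgroup.mem_normalizer_iff.1 hgQ f).1 hfQ))) hu hk (Or.inr hg)
    have hcQ : u⁻¹ * (g * u * g⁻¹) ∈ Q := Q.mul_mem (Q.inv_mem hu) hgu
    obtain ⟨k, hk⟩ := hQ ⟨_, hcQ⟩
    exact commute_of_fixed_defect hg
      (commute_of_cyclic_stronglyClosed hsmall R.2 hR hEsc hEc hgQ hg hcQ hc) (m := k)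
      (by simpa using congrArg Subtype.val hk)
  · -- `p = 2`, `d = 1` and `u` of order `4`
    push Not at hud
    have hp2 : p = 2 := by
      by_contra h2
      rw [smallExp, if_neg h2] at huord
      have := Nat.le_of_dvd hp.1.pos huord
      have : p ≤ p ^ d := Nat.le_self_pow (by omega) p
      omega
    subst hp2
    rw [smallExp, if_pos rfl] at huord
    have h4 := Nat.le_of_dvd (by norm_num) huord
    have hd1 : d = 1 := by
      by_contra hne
      have : 2 ^ 2 ≤ 2 ^ d := Nat.pow_le_pow_right two_pos (by omega)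
      omega
    subst hd1
    have hu4 : orderOf u = 4 := by
      simp only [pow_one] at hud
      rcases Nat.lt_or_ge (orderOf u) 4 with h | h
      · exfalso
        interval_cases h5 : orderOf u
        revert huord; decide
      · omega
    obtain ⟨-, hsc⟩ := hHR (Subgroup.zpowers u) (Subgroup.zpowers_le.2 (hR hu))
      (Or.inr ⟨pow_one 2, by rw [Nat.card_zpowers, hu4]⟩)
    exact commute_of_cyclic_stronglyClosed hsmall R.2 hR hsc inferInstance hgQ hg hu (Subgroup.mem_zpowers u)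

end Cfsg.Agent.LocEven
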