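import Cfsg.Agent.LocEven.HSubgroup
import Cfsg.Agent.LocEven.CyclicSeries
import Cfsg.Agent.LAE62.SylowBasics
import Cfsg.Agent.Cores.Residual
import Cfsg.Agent.Cores.Basic

/-! Supersolvability from strongly closed subgroups of a fixed order in the Sylow subgroups of a
normal subgroup. -/

set_option autoImplicit false

namespace Cfsg.Agent.LocEven

open Cfsg.Agent.Fusion

universe u

variable {G : Type u} [Group G] [Finite G]

/-- The hypothesis on the Sylow subgroups of `E`. -/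
def SylCond (E : Subgroup G) : Prop :=
  ∀ (r : ℕ), r.Prime → ∀ R : Subgroup G, R ≤ E → IsPGroup r R → ¬ r ∣ R.relIndex E → ¬ IsCyclic R →
    ∃ d : ℕ, 1 ≤ d ∧ r ^ d < Nat.card R ∧ HCond r d R

theorem mem_centralizer_of_cyclic_action {q : ℕ} [hq : Fact q.Prime] (N : Subgroup G) [N.Normal] (S : Set G)
    (hSinv : ∀ g : G, ∀ x ∈ S, g * x * g⁻¹ ∈ S) (hSq : ∀ x ∈ S, ∃ m : ℕ, orderOf x = q ^ m)
    (hS : ∀ g : G, ∀ x ∈ S, g * x * g⁻¹ ∈ Subgroup.zpowers x ⊔ N)
    {k : G} (hk : k ∈ powerKernel q G) (hkq : (orderOf k).Coprime q) :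
    ∀ x ∈ S, x⁻¹ * (k * x * k⁻¹) ∈ N := by
  let f := QuotientGroup.mk' N
  have hpow : ∀ g : G, ∀ x ∈ S, ∃ a : ℕ, f g * f x * (f g)⁻¹ = f x ^ a := by
    intro g x hx
    have h1 := Subgroup.mem_map_of_mem f (hS g x hx)
    rw [Subgroup.map_sup, MonoidHom.map_zpowers, (Subgroup.map_eq_bot_iff N).2 (QuotientGroup.ker_mk' N).ge,
      sup_bot_eq, ← mem_powers_iff_mem_zpowers, Submonoid.mem_powers_iff] at h1
    obtain ⟨a, ha⟩ := h1
    exact ⟨a, by rw [ha, map_mul, map_mul, map_inv]⟩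
  let H : Subgroup G :=
    { carrier := {g | ∀ x ∈ S, Commute (f g) (f x)}
      one_mem' := fun x _ => by rw [map_one]; exact Commute.one_left _
      mul_mem' := fun {a b} ha hb x hx => by rw [map_mul]; exact (ha x hx).mul_left (hb x hx)
      inv_mem' := fun {a} ha x hx => by rw [map_inv]; exact (ha x hx).inv_left }
  have hHn : H.Normal := ⟨fun h hh g x hx => by
    have h1 := hh (g⁻¹ * x * g) (by simpa using hSinv g⁻¹ x hx)
    have h2 := h1.map (MulAut.conj (f g)).toMonoidHom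
    simpa [mul_assoc] using h2⟩
  have hcomm : commutator G ≤ H := by
    rw [commutator_def, Subgroup.commutator_le]
    intro g _ h _ x hx
    have key : ∀ g h : G, ∀ y ∈ S, ∀ a b : ℕ, f g * f y * (f g)⁻¹ = f y ^ a →
        f h * f y * (f h)⁻¹ = f y ^ b → (f g * f h) * f y * (f g * f h)⁻¹ = f y ^ (a * b) := by
      intro g h y _ a b ha hb
      calc (f g * f h) * f y * (f g * f h)⁻¹ = f g * (f h * f y * (f h)⁻¹) * (f g)⁻¹ := by group
        _ = (f g * f y * (f g)⁻¹) ^ b := by rw [hb, conj_pow]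
        _ = f y ^ (a * b) := by rw [ha, pow_mul]
    set y := (g⁻¹ * h⁻¹) * x * (g⁻¹ * h⁻¹)⁻¹ with hy
    have hyS : y ∈ S := hSinv _ _ hx
    obtain ⟨a, ha⟩ := hpow g y hyS
    obtain ⟨b, hb⟩ := hpow h y hyS
    have h1 := key g h y hyS a b ha hb
    have h2 := key h g y hyS b a hb ha
    rw [mul_comm b a, ← h1] at h2
    rw [commutatorElement_def, commute_iff_eq]
    simp only [hy, map_mul, map_inv] at h2 ⊢
    have h3 : f h * f g * ((f g)⁻¹ * (f h)⁻¹ * f x * ((f g)⁻¹ * (f h)⁻¹)⁻¹) * (f h * f g)⁻¹ = f x := by group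
    rw [h3] at h2
    conv_rhs => rw [h2]
    group
  set N₀ := q ^ Nat.card G
  have hexp : ∀ g : G, (g ^ (q - 1)) ^ N₀ ∈ H := by
    intro g x hx
    obtain ⟨a, ha⟩ := hpow g x hx
    have hiter : ∀ i : ℕ, f g ^ i * f x * (f g ^ i)⁻¹ = f x ^ a ^ i := by
      intro i
      induction i with
      | zero => simp
      | succ i ih =>
        calc f g ^ (i + 1) * f x * (f g ^ (i + 1))⁻¹ = f g * (f g ^ i * f x * (f g ^ i)⁻¹) * (f g)⁻¹ := by
              rw [pow_succ']; group
          _ = (f g * f x * (f g)⁻¹) ^ a ^ i := by rw [ih, conj_pow]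
          _ = f x ^ a ^ (i + 1) := by rw [ha, ← pow_mul, pow_succ']
    obtain ⟨m, hm⟩ := hSq x hx
    obtain ⟨j, hjm, hj⟩ := (Nat.dvd_prime_pow hq.1).1 (hm ▸ orderOf_map_dvd f x)
    rw [← pow_mul, map_pow, commute_iff_eq, ← mul_inv_eq_iff_eq_mul, hiter]
    rcases Nat.eq_zero_or_pos j with rfl | hj0
    · rw [pow_zero, orderOf_eq_one_iff] at hj; simp [hj]
    have hcop : a.Coprime (q ^ j) := by
      have h1 : orderOf (f x ^ a) = orderOf (f x) := by
        rw [← ha]; exact (MulAut.conj (f g)).orderOf_eq (f x)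
      rcases Nat.eq_zero_or_pos a with rfl | ha0
      · rw [pow_zero, orderOf_one, hj, eq_comm] at h1
        rw [h1]; exact Nat.coprime_one_right _
      · rw [orderOf_pow' _ ha0.ne', hj] at h1
        rcases Nat.div_eq_self.1 h1 with h | h
        · exact absurd h (pow_ne_zero _ hq.1.ne_zero)
        · rw [Nat.gcd_comm] at h; exact h
    conv_rhs => rw [← pow_one (f x)]
    rw [pow_eq_pow_iff_modEq, hj]
    have htot : Nat.totient (q ^ j) ∣ (q - 1) * N₀ := by
      rw [Nat.totient_prime_pow hq.1 hj0, mul_comm]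
      refine Nat.mul_dvd_mul_left _ (pow_dvd_pow q ?_)
      have h1 : q ^ j ≤ Nat.card G := by
        calc q ^ j ≤ q ^ m := Nat.pow_le_pow_right hq.1.pos hjm
          _ = orderOf x := hm.symm
          _ ≤ Nat.card G := Nat.le_of_dvd Nat.card_pos (orderOf_dvd_natCard x)
      have h2 : j < q ^ j := Nat.lt_pow_self hq.1.one_lt
      omega
    obtain ⟨c, hc⟩ := htot
    rw [hc, pow_mul]
    simpa using (Nat.ModEq.pow_totient hcop).pow c
  intro x hx
  have hcom : ∀ a b : G ⧸ H, a * b = b * a := by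
    intro a b
    obtain ⟨a, rfl⟩ := QuotientGroup.mk_surjective a
    obtain ⟨b, rfl⟩ := QuotientGroup.mk_surjective b
    rw [← commutatorElement_eq_one_iff_mul_comm, commutatorElement_def, ← QuotientGroup.mk_inv,
      ← QuotientGroup.mk_inv, ← QuotientGroup.mk_mul, ← QuotientGroup.mk_mul, ← QuotientGroup.mk_mul,
      QuotientGroup.eq_one_iff, ← commutatorElement_def]
    exact hcomm (Subgroup.commutator_mem_commutator (Subgroup.mem_top _) (Subgroup.mem_top _))
  let W : Subgroup G :=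
    { carrier := {g | (g : G ⧸ H) ^ N₀ = 1}
      one_mem' := by simp
      mul_mem' := fun {a b} ha hb => by
        show ((a * b : G) : G ⧸ H) ^ N₀ = 1
        rw [QuotientGroup.mk_mul, Commute.mul_pow (hcom _ _), ha, hb, one_mul]
      inv_mem' := fun {a} ha => by
        show ((a⁻¹ : G) : G ⧸ H) ^ N₀ = 1
        rw [QuotientGroup.mk_inv, inv_pow, ha, inv_one] }
  have hKW : powerKernel q G ≤ W := by
    refine sup_le (fun g hg => ?_) ((Subgroup.closure_le _).2 ?_)
    · show (g : G ⧸ H) ^ N₀ = 1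
      rw [(QuotientGroup.eq_one_iff g).2 (hcomm hg), one_pow]
    · rintro _ ⟨g, rfl⟩
      show ((g ^ (q - 1) : G) : G ⧸ H) ^ N₀ = 1
      rw [← QuotientGroup.mk_pow, QuotientGroup.eq_one_iff]
      exact hexp g
  have hkH : k ∈ H := by
    rw [← QuotientGroup.eq_one_iff]
    refine eq_one_of_coprime_pow (Nat.Coprime.pow_right _ hkq) ?_ (hKW hk)
    rw [← QuotientGroup.mk_pow, pow_orderOf_eq_one, QuotientGroup.mk_one]
  rw [← QuotientGroup.eq_one_iff]
  show f (x⁻¹ * (k * x * k⁻¹)) = 1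
  rw [map_mul, map_mul, map_mul, map_inv, map_inv, (hkH x hx).eq, mul_inv_cancel_right, inv_mul_cancel]

theorem normal_of_stronglyClosed_normal {F Q : Subgroup G} [Q.Normal] (h : Cfsg.IsStronglyClosed F Q) :
    F.Normal :=
  ⟨fun x hx g => h.2 x hx g ((inferInstance : Q.Normal).conj_mem x (h.1 hx) g)⟩

/-- A normal `q`-subgroup all of whose subgroups of one intermediate order are normal. -/
theorem reach_of_hcond {q : ℕ} [hq : Fact q.Prime] (Q : Subgroup G) [Q.Normal] (hQ : IsPGroup q Q)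
    {d : ℕ} (hd : 1 ≤ d) (hlt : q ^ d < Nat.card Q) (hH : HCond q d Q) : Supersolv.Reach Q := by
  have hnor : ∀ F : Subgroup G, F ≤ Q → (Nat.card F = q ^ d ∨ (q ^ d = 2 ∧ Nat.card F = 4)) → F.Normal :=
    fun F hF hc => normal_of_stronglyClosed_normal (hH F hF hc).2
  have hSq : ∀ x ∈ Q, ∃ m : ℕ, orderOf x = q ^ m := fun x hx => by
    obtain ⟨m, hm⟩ := IsPGroup.iff_orderOf.1 hQ ⟨x, hx⟩
    exact ⟨m, by rwa [Subgroup.orderOf_mk] at hm⟩
  have hQinv : ∀ g : G, ∀ x ∈ Q, g * x * g⁻¹ ∈ Q := fun g x hx => (inferInstance : Q.Normal).conj_mem x hx g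
  refine reach_of_powerKernel Q hQ fun k hk hkq => ?_
  have hkn : k ∈ Subgroup.normalizer (Q : Set G) := Subgroup.normalizer_eq_top Q ▸ Subgroup.mem_top k
  by_cases hord : ∀ x ∈ Q, orderOf x ≤ q ^ d
  · set N := (frattini ↥Q).map Q.subtype with hN
    have hNn : N.Normal := Cores.normal_map_subtype_of_characteristic (frattini ↥Q)
    have hS : ∀ g : G, ∀ x ∈ (Q : Set G), g * x * g⁻¹ ∈ Subgroup.zpowers x ⊔ N := by
      intro g x hx
      by_contra hne
      set L := Subgroup.zpowers (⟨x, hx⟩ : Q) ⊔ frattini ↥Q with hL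
      have hmap : L.map Q.subtype = Subgroup.zpowers x ⊔ N := by
        rw [hL, Subgroup.map_sup, MonoidHom.map_zpowers]; rfl
      have hnot : (⟨g * x * g⁻¹, hQinv g x hx⟩ : Q) ∉ L := fun h => hne (hmap ▸ Subgroup.mem_map_of_mem Q.subtype h)
      obtain ⟨M, hM, hLM, hnM⟩ := PGroup.exists_isCoatom_not_mem hq.1
        (le_trans (PGroup.commutator_le_frattini hQ) le_sup_right)
        (fun y => Subgroup.mem_sup_right (PGroup.pow_mem_frattini hQ y)) hnot
      set M' := M.map Q.subtype with hM'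
      have hcard : q ^ d ≤ Nat.card M' := by
        rw [hM', ← Nat.card_congr (M.equivMapOfInjective _ (Subgroup.subtype_injective _)).toEquiv]
        have h1 := Subgroup.card_mul_index M
        rw [PGroup.index_of_isCoatom hQ hM] at h1
        obtain ⟨n, hn⟩ := IsPGroup.iff_card.1 (hQ.to_subgroup M)
        have hlt' : q ^ d < q ^ (n + 1) := by rw [pow_succ, ← hn, h1]; exact hlt
        rw [hn]
        exact Nat.pow_le_pow_right hq.1.pos (Nat.lt_succ_iff.1 ((Nat.pow_lt_pow_iff_right hq.1.one_lt).1 hlt'))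
      have hxM : x ∈ M' := ⟨_, hLM (Subgroup.mem_sup_left (Subgroup.mem_zpowers _)), rfl⟩
      obtain ⟨F, hFM, hxF, hF⟩ := exists_le_card_eq_of_orderOf_le (hQ.to_le (Subgroup.map_subtype_le M))
        hcard hxM (hord x hx)
      have hFQ := le_trans hFM (Subgroup.map_subtype_le M)
      obtain ⟨w, hw, hwe⟩ := hFM ((hnor F hFQ (Or.inl hF)).conj_mem x hxF g)
      exact hnM ((Subtype.ext hwe : w = ⟨g * x * g⁻¹, hQinv g x hx⟩) ▸ hw)
    have h := mem_centralizer_of_cyclic_action N (Q : Set G) hQinv hSq hS hk hkq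
    exact Subgroup.mem_centralizer_iff.2 fun x hx =>
      (PGroup.commute_of_coprime_of_frattini hQ hkq hkn h x hx).symm
  push Not at hord
  obtain ⟨e₀, he₀, hbig⟩ := hord
  obtain ⟨m, hm⟩ := hSq e₀ he₀
  have hdm : d ≤ m := ((Nat.pow_lt_pow_iff_right hq.1.one_lt).1 (hm ▸ hbig)).le
  set E := Subgroup.zpowers (e₀ ^ q ^ (m - d)) with hEdef
  have hEQ : E ≤ Q := Subgroup.zpowers_le.2 (Q.pow_mem he₀ _)
  have hEcard : Nat.card E = q ^ d := by
    rw [hEdef, Nat.card_zpowers, orderOf_pow' _ (pow_ne_zero _ hq.1.ne_zero), hm,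
      Nat.gcd_eq_right (pow_dvd_pow q (Nat.sub_le m d)), Nat.pow_div (Nat.sub_le m d) hq.1.pos]
    congr 1; omega
  have hEn : E.Normal := hnor E hEQ (Or.inl hEcard)
  have hEc : IsCyclic E := by rw [hEdef]; infer_instance
  have hcentE : ∀ x ∈ E, k * x = x * k := by
    intro x hx
    have h := mem_centralizer_of_cyclic_action (q := q) (⊥ : Subgroup G) (E : Set G)
      (fun g y hy => hEn.conj_mem y hy g) (fun y hy => hSq y (hEQ hy)) (fun g y hy => ?_) hk hkq x hx
    · rw [Subgroup.mem_bot, inv_mul_eq_one] at h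
      calc k * x = k * x * k⁻¹ * k := by group
        _ = x * k := by rw [← h]
    · refine Subgroup.mem_sup_left ?_
      have : Subgroup.zpowers (g * y * g⁻¹) = Subgroup.zpowers y := by
        refine OddLocal.eq_of_le_cyclic_of_card_eq (W := E) (Subgroup.zpowers_le.2 (hEn.conj_mem y hy g))
          (Subgroup.zpowers_le.2 hy) ?_
        rw [Nat.card_zpowers, Nat.card_zpowers]
        exact (MulAut.conj g).orderOf_eq y
      exact this ▸ Subgroup.mem_zpowers _
  refine centralizes_of_fix_small hkq Q hQ hkn fun u hu huq => ?_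
  have huord := orderOf_dvd_of_pow_eq_one huq
  by_cases hud : orderOf u ≤ q ^ d
  · have hS : ∀ g : G, ∀ x ∈ {x : G | x ∈ Q ∧ orderOf x ≤ q ^ d}, g * x * g⁻¹ ∈ Subgroup.zpowers x ⊔ E := by
      rintro g x ⟨hx, hxd⟩
      have hXQ : Subgroup.zpowers x ⊔ E ≤ Q := sup_le (Subgroup.zpowers_le.2 hx) hEQ
      obtain ⟨J, hJ, hxJ, hJc⟩ := exists_le_card_eq_of_orderOf_le (d := d) (hQ.to_le hXQ)
        (hEcard ▸ Subgroup.card_le_of_le le_sup_right) (Subgroup.mem_sup_left (Subgroup.mem_zpowers x)) hxd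
      exact hJ ((hnor J (le_trans hJ hXQ) (Or.inl hJc)).conj_mem x hxJ g)
    have hc := mem_centralizer_of_cyclic_action (q := q) E {x : G | x ∈ Q ∧ orderOf x ≤ q ^ d}
      (fun g x hx => ⟨hQinv g x hx.1, le_of_eq_of_le ((MulAut.conj g).orderOf_eq x) hx.2⟩)
      (fun x hx => hSq x hx.1) hS hk hkq u ⟨hu, hud⟩
    obtain ⟨j, hj⟩ := hSq _ (hEQ hc)
    exact commute_of_fixed_defect hkq (hcentE _ hc) (m := j) (by rw [← hj, pow_orderOf_eq_one])
  · push Not at hud
    have hq2 : q = 2 := by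
      by_contra h2
      rw [smallExp, if_neg h2] at huord
      have := Nat.le_of_dvd hq.1.pos huord
      have : q ≤ q ^ d := Nat.le_self_pow (by omega) q
      omega
    subst hq2
    rw [smallExp, if_pos rfl] at huord
    have h4 := Nat.le_of_dvd (by norm_num) huord
    have hd1 : d = 1 := by
      by_contra hne
      have : 2 ^ 2 ≤ 2 ^ d := Nat.pow_le_pow_right two_pos (by omega)
      omega
    subst hd1
    have hu4 : orderOf u = 4 := by
      simp only [pow_one] at hud
      rcases Nat.lt_or_ge (orderOf u) 4 with h | h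
      · exfalso
        interval_cases h5 : orderOf u
        revert huord; decide
      · omega
    have hun : (Subgroup.zpowers u).Normal := hnor _ (Subgroup.zpowers_le.2 hu)
      (Or.inr ⟨pow_one 2, by rw [Nat.card_zpowers, hu4]⟩)
    have h := mem_centralizer_of_cyclic_action (q := 2) (⊥ : Subgroup G) {x : G | x ∈ Q ∧ (Subgroup.zpowers x).Normal}
      (fun g x hx => ⟨hQinv g x hx.1, by
        have hc : Subgroup.zpowers (g * x * g⁻¹) = Subgroup.zpowers x := by
          refine Subgroup.eq_of_le_of_card_ge (Subgroup.zpowers_le.2 (hx.2.conj_mem x (Subgroup.mem_zpowers x) g)) ?_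
          rw [Nat.card_zpowers, Nat.card_zpowers]
          exact le_of_eq ((MulAut.conj g).orderOf_eq x).symm
        rw [hc]; exact hx.2⟩)
      (fun x hx => hSq x hx.1)
      (fun g x hx => Subgroup.mem_sup_left (hx.2.conj_mem x (Subgroup.mem_zpowers x) g)) hk hkq u ⟨hu, hun⟩
    rw [Subgroup.mem_bot, inv_mul_eq_one] at h
    calc k * u = k * u * k⁻¹ * k := by group
      _ = u * k := by rw [← h]

theorem exists_normal_sylow : ∀ (n : ℕ) (E : Subgroup G) [E.Normal], Nat.card E = n → E ≠ ⊥ → SylCond E →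
    ∃ (q : ℕ) (Q : Subgroup G), q.Prime ∧ Q.Normal ∧ Q ≤ E ∧ IsPGroup q Q ∧ ¬ q ∣ Q.relIndex E ∧ Q ≠ ⊥ := by
  intro n
  induction n using Nat.strong_induction_on with
  | _ n ih =>
    intro E _ hn hne hE
    have hn1 : Nat.card E ≠ 1 := fun h => hne (Subgroup.eq_bot_of_card_eq E h)
    obtain ⟨r, hr⟩ : ∃ r, r = (Nat.card E).minFac := ⟨_, rfl⟩
    have hrp : r.Prime := hr ▸ Nat.minFac_prime hn1
    have : Fact r.Prime := ⟨hrp⟩
    obtain ⟨T⟩ : Nonempty (Sylow r E) := inferInstance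
    set R := (T : Subgroup E).map E.subtype with hR
    have hRE : R ≤ E := Subgroup.map_subtype_le _
    have hRsub : R.subgroupOf E = (T : Subgroup E) := by
      rw [hR, Subgroup.subgroupOf, Subgroup.comap_map_eq_self_of_injective E.subtype_injective]
    have hRp : IsPGroup r R := T.2.map _
    have hRidx : ¬ r ∣ R.relIndex E := by rw [Subgroup.relIndex, hRsub]; exact T.not_dvd_index
    have hsmall : ∀ s : ℕ, s.Prime → s ∣ Nat.card E → r ≤ s := fun s hs hd =>
      hr ▸ Nat.minFac_le_of_dvd hs.two_le hd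
    have hnil : Cfsg.HasNormalPComplement r E := by
      by_cases hc : IsCyclic T
      · exact ⟨T, _, inferInstance,
          MonoidHom.ker_transferSylow_isComplement' T (hc.normalizer_le_centralizer hr.symm)⟩
      · obtain ⟨d, hd, hlt, hH⟩ := hE r hrp R hRE hRp hRidx (fun h => hc
          ((Subgroup.equivMapOfInjective (T : Subgroup E) _ E.subtype_injective).isCyclic.2 h))
        refine hasNormalPComplement_of_hcond hsmall T hd ?_
          (by rwa [hR, ← Nat.card_congr (Subgroup.equivMapOfInjective (T : Subgroup E) _ E.subtype_injective).toEquiv] at hlt)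
        intro F hF hc
        obtain ⟨h1, h2⟩ := hH (F.map E.subtype) (Subgroup.map_mono hF)
          (by rwa [← Nat.card_congr (Subgroup.equivMapOfInjective F _ E.subtype_injective).toEquiv])
        have hmem : ∀ y : E, (y : G) ∈ F.map E.subtype ↔ y ∈ F := fun y =>
          Subgroup.mem_map_iff_mem E.subtype_injective
        refine ⟨fun t ht => Subgroup.mem_normalizer_iff.2 fun y => ?_, hF, fun x hx g hg => ?_⟩
        · rw [← hmem, ← hmem]
          exact Subgroup.mem_normalizer_iff.1 (h1 ⟨t, ht, rfl⟩) y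
        · rw [← hmem]
          exact h2.2 x ((hmem x).2 hx) g ⟨g * x * g⁻¹, hg, by simp⟩
    set K := (Cfsg.pResidual r E).map E.subtype with hK
    have hKE : K ≤ E := Subgroup.map_subtype_le _
    have hKn : K.Normal := Cores.normal_map_subtype_of_characteristic (Cfsg.pResidual r E)
    have hcompl := Transfer.isComplement'_pResidual hnil T
    have hKR : Nat.card K * Nat.card R = Nat.card E := by
      rw [hK, hR, ← Nat.card_congr (Subgroup.equivMapOfInjective _ _ E.subtype_injective).toEquiv,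
        ← Nat.card_congr (Subgroup.equivMapOfInjective _ _ E.subtype_injective).toEquiv]
      exact hcompl.card_mul_card
    have hrK : ¬ r ∣ Nat.card K := by
      rw [hK, ← Nat.card_congr (Subgroup.equivMapOfInjective _ _ E.subtype_injective).toEquiv]
      exact Transfer.hasNormalPComplement_iff.1 hnil
    obtain ⟨k, hk⟩ := IsPGroup.iff_card.1 hRp
    have hidxK : K.relIndex E = r ^ k := by
      have h1 := Subgroup.relIndex_mul_relIndex ⊥ K E bot_le hKE
      rw [Subgroup.relIndex_bot_left, Subgroup.relIndex_bot_left, ← hKR, hk] at h1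
      exact Nat.eq_of_mul_eq_mul_left Nat.card_pos h1
    by_cases hKb : K = ⊥
    · refine ⟨r, E, hrp, inferInstance, le_rfl, ?_, by rw [Subgroup.relIndex_self]; exact hrp.not_dvd_one, hne⟩
      rw [hKb, Subgroup.card_bot, one_mul, hk] at hKR
      exact IsPGroup.of_card hKR.symm
    have hKlt : Nat.card K < n := by
      rw [← hn, ← hKR]
      have hR1 : 1 < Nat.card R := by
        rw [hk]
        refine Nat.one_lt_pow ?_ hrp.one_lt
        rintro rfl
        rw [hk, pow_zero, mul_one] at hKR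
        exact hrK (hKR ▸ hr ▸ Nat.minFac_dvd _)
      exact lt_mul_of_one_lt_right Nat.card_pos hR1
    have hidx : ∀ (s : ℕ), s.Prime → s ∣ Nat.card K → ∀ X : Subgroup G, X ≤ K →
        ¬ s ∣ X.relIndex K → ¬ s ∣ X.relIndex E := by
      intro s hs hsK X hX h hd
      rw [← Subgroup.relIndex_mul_relIndex X K E hX hKE, hidxK] at hd
      rcases hs.dvd_mul.1 hd with h' | h'
      · exact h h'
      · exact hrK ((Nat.prime_dvd_prime_iff_eq hs hrp).1 (hs.dvd_of_dvd_pow h') ▸ hsK)
    have hKc : SylCond K := by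
      intro s hs X hX hXp hXi hXc
      refine hE s hs X (le_trans hX hKE) hXp (hidx s hs ?_ X hX hXi) hXc
      have : Fact s.Prime := ⟨hs⟩
      obtain ⟨j, hj⟩ := IsPGroup.iff_card.1 hXp
      rcases Nat.eq_zero_or_pos j with rfl | hj0
      · exfalso
        rw [pow_zero] at hj
        exact hXc (by rw [Subgroup.eq_bot_of_card_eq X hj]; infer_instance)
      · exact dvd_trans (hj ▸ dvd_pow_self s hj0.ne') (Subgroup.card_dvd_of_le hX)
    obtain ⟨q, Q, hq, hQn, hQK, hQp, hQi, hQb⟩ := ih _ hKlt K rfl hKb hKc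
    refine ⟨q, Q, hq, hQn, le_trans hQK hKE, hQp, hidx q hq ?_ Q hQK hQi, hQb⟩
    have : Fact q.Prime := ⟨hq⟩
    obtain ⟨j, hj⟩ := IsPGroup.iff_card.1 hQp
    refine dvd_trans (hj ▸ dvd_pow_self q ?_) (Subgroup.card_dvd_of_le hQK)
    rintro rfl
    rw [pow_zero] at hj
    exact hQb (Subgroup.eq_bot_of_card_eq Q hj)

theorem sylCond_quotient (E Q : Subgroup G) [Q.Normal] (hQE : Q ≤ E) {q : ℕ}
    (hq : q.Prime) (hQp : IsPGroup q Q) (hQi : ¬ q ∣ Q.relIndex E) (hE : SylCond E) :
    SylCond (E.map (QuotientGroup.mk' Q)) := by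
  intro s hs R₁ hR₁ hR₁p hR₁i hR₁c
  have : Fact s.Prime := ⟨hs⟩
  set f := QuotientGroup.mk' Q with hf
  set X := R₁.comap f with hX
  have hQX : Q ≤ X := fun x hx => by
    show f x ∈ R₁
    rw [hf, QuotientGroup.mk'_apply, (QuotientGroup.eq_one_iff x).2 hx]; exact R₁.one_mem
  have hXE : X ≤ E := by
    refine le_trans (Subgroup.comap_mono hR₁) ?_
    rw [Subgroup.comap_map_eq, hf, QuotientGroup.ker_mk', sup_of_le_left hQE]
  have hmapX : X.map f = R₁ := Subgroup.map_comap_eq_self_of_surjective (QuotientGroup.mk'_surjective Q) R₁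
  have hcardX : Nat.card X = Nat.card R₁ * Nat.card Q := by
    have h1 := Subgroup.relIndex_mul_relIndex ⊥ Q X bot_le hQX
    rw [Subgroup.relIndex_bot_left, Subgroup.relIndex_bot_left] at h1
    rw [← h1, mul_comm, ← hmapX, ← Subgroup.relIndex_ker, hf, QuotientGroup.ker_mk']
  obtain ⟨T⟩ : Nonempty (Sylow s X) := inferInstance
  set R := (T : Subgroup X).map X.subtype with hR
  have hRX : R ≤ X := Subgroup.map_subtype_le _
  have hRp : IsPGroup s R := T.2.map _
  obtain ⟨j, hj⟩ := IsPGroup.iff_card.1 hR₁p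
  have hj0 : j ≠ 0 := fun h => hR₁c (by
    rw [h, pow_zero] at hj; rw [Subgroup.eq_bot_of_card_eq R₁ hj]; infer_instance)
  have hsq : s ≠ q := by
    rintro rfl
    apply hQi
    have h1 : Nat.card R₁ ∣ Nat.card (E.map f) := Subgroup.card_dvd_of_le hR₁
    refine dvd_trans (hj ▸ dvd_pow_self s hj0) (dvd_trans h1 ?_)
    rw [← Subgroup.relIndex_ker, hf, QuotientGroup.ker_mk']
  have : Fact q.Prime := ⟨hq⟩
  have hRQ : Disjoint R Q := IsPGroup.disjoint_of_ne s q hsq R Q hRp hQp
  have hinj : ∀ x ∈ R, f x = 1 → x = 1 := fun x hx h =>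
    (Subgroup.disjoint_def.1 hRQ) hx ((QuotientGroup.eq_one_iff x).1 h)
  have hcardmap : ∀ F : Subgroup G, F ≤ R → Nat.card (F.map f) = Nat.card F := by
    intro F hF
    refine (Nat.card_congr (Equiv.ofBijective (fun x : F => (⟨f x, x, x.2, rfl⟩ : F.map f)) ⟨?_, ?_⟩)).symm
    · intro a b hab
      have h1 : f ((a : G)⁻¹ * (b : G)) = 1 := by
        rw [map_mul, map_inv, show f a = f b from congrArg Subtype.val hab, inv_mul_cancel]
      exact Subtype.ext (inv_mul_eq_one.1 (hinj _ (R.mul_mem (R.inv_mem (hF a.2)) (hF b.2)) h1))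
    · rintro ⟨_, x, hx, rfl⟩; exact ⟨⟨x, hx⟩, rfl⟩
  have hRidxX : ¬ s ∣ R.relIndex X := by
    rw [Subgroup.relIndex, hR, Subgroup.subgroupOf,
      Subgroup.comap_map_eq_self_of_injective X.subtype_injective]
    exact T.not_dvd_index
  have hfR : R.map f = R₁ := by
    refine Subgroup.eq_of_le_of_card_ge (hmapX ▸ Subgroup.map_mono hRX) ?_
    rw [hcardmap R le_rfl]
    have h1 := Subgroup.relIndex_mul_relIndex ⊥ R X bot_le hRX
    rw [Subgroup.relIndex_bot_left, Subgroup.relIndex_bot_left, hcardX, hj] at h1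
    have hdvd : s ^ j ∣ Nat.card R :=
      ((Nat.Coprime.pow_left j ((Fact.out : s.Prime).coprime_iff_not_dvd.2 hRidxX))).dvd_of_dvd_mul_right
        (h1 ▸ dvd_mul_right _ _)
    rw [hj]
    exact Nat.le_of_dvd Nat.card_pos hdvd
  have hRi : ¬ s ∣ R.relIndex E := by
    rw [← Subgroup.relIndex_mul_relIndex R X E hRX hXE]
    intro h
    rcases hs.dvd_mul.1 h with h' | h'
    · exact hRidxX h'
    · rw [hX, Subgroup.relIndex_comap] at h'; exact hR₁i h'
  obtain ⟨d, hd, hlt, hH⟩ := hE s hs R (le_trans hRX hXE) hRp hRi (fun h => hR₁c (by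
    rw [← hfR]
    exact isCyclic_of_surjective (f.subgroupMap R) (f.subgroupMap_surjective R)))
  refine ⟨d, hd, by rw [← hfR, hcardmap R le_rfl]; exact hlt, ?_⟩
  intro F₁ hF₁ hc
  set F := R ⊓ F₁.comap f with hF
  have hFmap : F.map f = F₁ := by
    refine le_antisymm ?_ ?_
    · rintro _ ⟨x, hx, rfl⟩; exact hx.2
    · intro y hy
      obtain ⟨x, hx, rfl⟩ := hfR.symm.le (hF₁ hy)
      exact ⟨x, ⟨hx, hy⟩, rfl⟩
  obtain ⟨h1, h2⟩ := hH F inf_le_left (by rwa [← hcardmap F inf_le_left, hFmap])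
  have hnorm : R₁ ≤ Subgroup.normalizer (F₁ : Set (G ⧸ Q)) := by
    rw [← hfR, ← hFmap]
    exact le_trans (Subgroup.map_mono h1) (Subgroup.le_normalizer_map f)
  refine ⟨hnorm, hF₁, fun y hy g hg => ?_⟩
  obtain ⟨x, hx, rfl⟩ := hFmap.symm.le hy
  obtain ⟨g, rfl⟩ := QuotientGroup.mk'_surjective Q g
  set z := g * x * g⁻¹ with hz
  have hfz : f z = f g * f x * (f g)⁻¹ := by rw [hz, map_mul, map_mul, map_inv]
  have hzX : z ∈ X := by show f z ∈ R₁; rw [hfz]; exact hg
  have hzp : IsPGroup s (Subgroup.zpowers z) := by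
    obtain ⟨m, hm⟩ := IsPGroup.iff_orderOf.1 hRp ⟨x, hx.1⟩
    refine IsPGroup.of_card (n := m) ?_
    rw [Nat.card_zpowers, hz, show orderOf (g * x * g⁻¹) = orderOf x from (MulAut.conj g).orderOf_eq x,
      ← hm, Subgroup.orderOf_mk]
  obtain ⟨c, hc, hcR⟩ := LAE62.exists_conj_le_of_relIndex hRp hRX hRidxX hzp (Subgroup.zpowers_le.2 hzX)
  have h3 : c * z * c⁻¹ ∈ F := by
    have := h2.2 x hx (c * g)
      (by have := hcR z (Subgroup.mem_zpowers z); simpa [hz, mul_assoc] using this)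
    simpa [hz, mul_assoc] using this
  have h4 : f c * f z * (f c)⁻¹ ∈ F₁ := by
    rw [← hFmap]; exact ⟨_, h3, by rw [map_mul, map_mul, map_inv]⟩
  have hcR₁ : f c ∈ R₁ := hc
  rw [← hfz]
  exact (Subgroup.mem_normalizer_iff.1 (hnorm hcR₁) (f z)).2 h4

theorem supersolvable_of_sylCond : ∀ (n : ℕ) (G : Type u) [Group G] [Finite G] (E : Subgroup G) [E.Normal],
    Nat.card G = n → Cfsg.IsSupersolvable (G ⧸ E) → SylCond E → Cfsg.IsSupersolvable G := by
  intro n
  induction n using Nat.strong_induction_on with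
  | _ n ih =>
    intro G _ _ E _ hn hGE hE
    by_cases hEb : E = ⊥
    · subst hEb
      exact Supersolv.supersolvable_of_equiv hGE QuotientGroup.quotientBot
    obtain ⟨q, Q, hq, hQn, hQE, hQp, hQi, hQb⟩ := exists_normal_sylow _ E rfl hEb hE
    have : Fact q.Prime := ⟨hq⟩
    have hlt : Nat.card (G ⧸ Q) < n := by
      have hQ1 : Nat.card Q ≠ 1 := fun h => hQb (Subgroup.eq_bot_of_card_eq Q h)
      rw [← hn, Subgroup.card_eq_card_quotient_mul_card_subgroup Q]
      exact lt_mul_of_one_lt_right Nat.card_pos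
        (lt_of_le_of_ne Nat.card_pos (Ne.symm hQ1))
    have hquot : Cfsg.IsSupersolvable (G ⧸ Q) := by
      refine ih _ hlt (G ⧸ Q) (E.map (QuotientGroup.mk' Q)) rfl
        (Supersolv.supersolvable_of_equiv hGE (QuotientGroup.quotientQuotientEquivQuotient Q E hQE).symm)
        (sylCond_quotient E Q hQE hq hQp hQi hE)
    refine Supersolv.supersolvable_of_reach ?_ hquot
    by_cases hc : IsCyclic Q
    · exact Supersolv.reach_of_isCyclic Q
    · obtain ⟨d, hd, hlt', hH⟩ := hE q hq Q hQE hQp hQi hc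
      exact reach_of_hcond Q hQp hd hlt' hH

end Cfsg.Agent.LocEven
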