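import Cfsg.Agent.Lib.Element
import Mathlib.LinearAlgebra.Matrix.SpecialLinearGroup

/-! An abelian normal subgroup of odd order inverted by an element central modulo it has a complement. -/

set_option autoImplicit false

namespace Cfsg.Agent.LocEven

variable {N : Type*} [Group N] [Finite N]

/-- If `z` inverts `A`, `A` has odd order, `z` is central modulo `A`, then `C(z)` is a complement. -/
theorem complement_of_inverting (A : Subgroup N) [A.Normal] (hA : Odd (Nat.card A))
    {z : N} (hinv : ∀ a ∈ A, z * a * z⁻¹ = a⁻¹) (hcen : ∀ n : N, n * z * n⁻¹ * z⁻¹ ∈ A) :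
    A ⊓ Subgroup.centralizer {z} = ⊥ ∧ A ⊔ Subgroup.centralizer {z} = ⊤ := by
  obtain ⟨k, hk⟩ := hA
  have hsq : ∀ a ∈ A, a * a = 1 → a = 1 := by
    intro a ha h
    have h1 : a ^ Nat.card A = 1 := congrArg Subtype.val (pow_card_eq_one' (x := (⟨a, ha⟩ : A)))
    rw [hk, pow_succ, pow_mul, pow_two, h, one_pow, one_mul] at h1
    exact h1
  constructor
  · rw [Subgroup.eq_bot_iff_forall]
    rintro a ⟨ha, hc⟩
    refine hsq a ha ?_
    have h1 := hinv a ha
    rw [← Subgroup.mem_centralizer_singleton_iff.1 hc, mul_inv_cancel_right] at h1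
    nth_rw 2 [h1]
    exact mul_inv_cancel a
  · rw [eq_top_iff]
    intro n _
    set a := n * z * n⁻¹ * z⁻¹ with ha
    have haA : a ∈ A := hcen n
    -- a square root of `a`
    set b := a ^ (k + 1) with hb
    have hbA : b ∈ A := A.pow_mem haA _
    have hbb : b * b = a := by
      have h1 : a ^ Nat.card A = 1 := congrArg Subtype.val (pow_card_eq_one' (x := (⟨a, haA⟩ : A)))
      rw [hk] at h1
      rw [hb, ← pow_add, show k + 1 + (k + 1) = (2 * k + 1) + 1 by ring, pow_succ, h1, one_mul]
    have hbz : b⁻¹ * z * b = z * (b * b) := by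
      have h1 := hinv b hbA
      calc b⁻¹ * z * b = (z * b * z⁻¹) * z * b := by rw [h1]
        _ = z * (b * b) := by group
    have hbz' : b * z * b⁻¹ = a * z := by
      rw [← hbb]
      have h1 := hinv b⁻¹ (A.inv_mem hbA)
      rw [inv_inv] at h1
      calc b * z * b⁻¹ = b * (z * b⁻¹ * z⁻¹) * z := by group
        _ = b * b * z := by rw [h1]
    have hcomm : (b⁻¹ * n) * z = z * (b⁻¹ * n) := by
      have hn : n * z * n⁻¹ = b * z * b⁻¹ := by rw [hbz', ha]; group
      calc (b⁻¹ * n) * z = b⁻¹ * (n * z * n⁻¹) * n := by group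
        _ = z * (b⁻¹ * n) := by rw [hn]; group
    have := Subgroup.mul_mem_sup hbA (Subgroup.mem_centralizer_singleton_iff.2 hcomm)
    simpa using this

end Cfsg.Agent.LocEven
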