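import Cfsg.Agent.Fusion.Basic
import Cfsg.Agent.CharInd.Frobenius
import Cfsg.Agent.Lib.FrobeniusGroup

/-!
An isolated `p`-element centralizing every `p'`-subgroup it normalizes is central.
-/

set_option autoImplicit false
set_option linter.style.haveILetI false

namespace Cfsg.Agent.LocEven.IsolatedCentral

open Subgroup
open Cfsg.Agent.Fusion (cj exists_cj_sylow)

universe u

variable {p : ℕ} [Fact p.Prime]

theorem center_of_isolated {G : Type u} [Group G] [Finite G] (x : G)
    (hxp : IsPGroup p (zpowers x))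
    (hU : ∀ (T : Subgroup G), IsPGroup p T → x ∈ T → ∀ g : G, g * x * g⁻¹ ∈ T → g * x * g⁻¹ = x)
    (hb : ∀ H : Subgroup G, (Nat.card H).Coprime p → (∀ h ∈ H, x * h * x⁻¹ ∈ H) →
      ∀ h ∈ H, x * h = h * x) :
    x ∈ center G := by
  induction hn : Nat.card G using Nat.strong_induction_on generalizing G with
  | _ n ih =>
  subst hn
  set H := centralizer ({x} : Set G) with hH
  -- every proper subgroup containing `x` centralizes it
  have hproper : ∀ L : Subgroup G, L ≠ ⊤ → x ∈ L → L ≤ H := by
    intro L hL hxL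
    have h1 := ih (Nat.card L)
      (lt_of_le_of_ne (card_le_card_group L) fun h => hL (eq_top_of_card_eq L h))
      (G := ↥L) ⟨x, hxL⟩ (fun ⟨y, hy⟩ => by
        obtain ⟨k, rfl⟩ := mem_zpowers_iff.1 hy
        obtain ⟨m, hm⟩ := hxp ⟨x ^ k, mem_zpowers_iff.2 ⟨k, rfl⟩⟩
        exact ⟨m, Subtype.ext (Subtype.ext (by simpa using congrArg Subtype.val hm))⟩)
      (fun T hT hxT g hg => Subtype.ext
        (hU (T.map L.subtype) (hT.map _) ⟨_, hxT, rfl⟩ g ⟨_, hg, rfl⟩))
      (fun K hK hnorm k hk => Subtype.ext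
        (hb (K.map L.subtype) (by rwa [card_map_of_injective L.subtype_injective])
          (by
            rintro - ⟨h, hh, rfl⟩
            exact ⟨_, hnorm h hh, rfl⟩) k ⟨k, hk, rfl⟩))
      rfl
    intro l hl
    refine mem_centralizer_singleton_iff.2 ?_
    exact congrArg Subtype.val (mem_center_iff.1 h1 ⟨l, hl⟩)
  by_contra hxc
  have hHne : H ≠ ⊤ := fun h => hxc (mem_center_iff.2 fun g =>
    mem_centralizer_singleton_iff.1 (h.symm ▸ mem_top g : g ∈ H))
  have hxH : x ∈ H := mem_centralizer_singleton_iff.2 rfl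
  set Z := center G with hZ
  have hZH : Z ≤ H := center_le_centralizer _
  -- `H` is a TI subgroup modulo the centre
  have hTI : ∀ g : G, g ∉ H → ∀ y ∈ H, g * y * g⁻¹ ∈ H → g * y * g⁻¹ ∈ Z := by
    intro g hg y hy hgy
    by_contra hnc
    set z := g * y * g⁻¹ with hz
    have hC : centralizer ({z} : Set G) ≠ ⊤ := fun h => hnc (mem_center_iff.2 fun a =>
      mem_centralizer_singleton_iff.1 (h.symm ▸ mem_top a : a ∈ centralizer ({z} : Set G)))
    have hxz : x ∈ centralizer ({z} : Set G) := mem_centralizer_singleton_iff.2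
      (mem_centralizer_singleton_iff.1 hgy).symm
    have hgxz : g * x * g⁻¹ ∈ centralizer ({z} : Set G) := by
      refine mem_centralizer_singleton_iff.2 ?_
      have := mem_centralizer_singleton_iff.1 hy
      calc g * x * g⁻¹ * z = g * (x * y) * g⁻¹ := by rw [hz]; group
        _ = g * (y * x) * g⁻¹ := by rw [this]
        _ = z * (g * x * g⁻¹) := by rw [hz]; group
    have hcom : g * x * g⁻¹ ∈ H := hproper _ hC hxz hgxz
    have hxp' : IsPGroup p (zpowers (g * x * g⁻¹)) := by
      rw [show zpowers (g * x * g⁻¹) = (zpowers x).map (MulAut.conj g).toMonoidHom by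
        rw [MonoidHom.map_zpowers]; rfl]
      exact hxp.map _
    have hsup := hxp.to_sup_of_normal_left' (H := zpowers x) (K := zpowers (g * x * g⁻¹)) hxp'
      (zpowers_le.2 (centralizer_le_normalizer _ (by
        rw [zpowers_eq_closure, centralizer_closure]
        exact hcom)))
    exact hg (by
      have h := hU _ hsup (mem_sup_left (mem_zpowers x)) g (mem_sup_right (mem_zpowers _))
      exact mem_centralizer_singleton_iff.2 (by
        conv_rhs => rw [← h]
        group))
  haveI : Z.Normal := inferInstance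
  set π := QuotientGroup.mk' Z with hπ
  have hker : π.ker ≤ H := by rw [hπ, QuotientGroup.ker_mk']; exact hZH
  have hmem : ∀ g : G, π g ∈ H.map π → g ∈ H := fun g hg => by
    have : g ∈ (H.map π).comap π := hg
    rwa [comap_map_eq_self hker] at this
  have hTIb : ∀ a : G ⧸ Z, a ∉ H.map π → ∀ b ∈ H.map π, a * b * a⁻¹ ∈ H.map π → b = 1 := by
    intro a ha b hb hab
    obtain ⟨g, rfl⟩ := QuotientGroup.mk'_surjective Z a
    obtain ⟨y, hy, rfl⟩ := hb
    have hz := hTI g (fun h => ha (mem_map_of_mem π h)) y hy (hmem _ (by rw [map_mul, map_mul, map_inv]; exact hab))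
    refine (QuotientGroup.eq_one_iff y).2 ?_
    have := (inferInstance : Z.Normal).conj_mem _ hz g⁻¹
    simpa [mul_assoc] using this
  obtain ⟨Kb, hKn, -, hcompl⟩ := CharInd.frobenius_kernel (H.map π) hTIb
  haveI := hKn
  have hcop : (Nat.card Kb).Coprime (Nat.card (H.map π)) := by
    refine Frobenius.coprime_of_fpf (by rw [normalizer_eq_top (H := Kb)]; exact le_top)
      fun h hh h1 => eq_bot_iff.2 fun k hk => mem_bot.2 ?_
    refine (Subgroup.disjoint_def.1 hcompl.disjoint) hk.1 ?_
    by_contra hkH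
    refine h1 (hTIb k hkH h hh ?_)
    rw [mem_centralizer_singleton_iff.1 hk.2, mul_inv_cancel_right]
    exact hh
  have hpH : p ∣ Nat.card (H.map π) := by
    have h1 : π x ≠ 1 := fun h => hxc ((QuotientGroup.eq_one_iff x).1 h)
    obtain ⟨k, hk⟩ := hxp ⟨x, mem_zpowers x⟩
    have h2 : orderOf (π x) ∣ p ^ k := orderOf_dvd_of_pow_eq_one (by
      rw [← map_pow, show x ^ p ^ k = 1 from congrArg Subtype.val hk, map_one])
    obtain ⟨j, hj1, hj⟩ := (Nat.dvd_prime_pow (Fact.out : p.Prime)).1 h2
    have hj0 : j ≠ 0 := by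
      rintro rfl
      exact h1 (orderOf_eq_one_iff.1 (by simpa using hj))
    exact ((dvd_pow_self p hj0).trans hj.symm.dvd).trans
      (orderOf_dvd_natCard (H.map π) (mem_map_of_mem π hxH))
  set K := Kb.comap π with hK
  have hrel : ¬ p ∣ Z.relIndex K := by
    have e : Z.relIndex K = Nat.card Kb := by
      have h1 := relIndex_comap (⊥ : Subgroup (G ⧸ Z)) π K
      rw [MonoidHom.comap_bot, hπ, QuotientGroup.ker_mk', ← hπ, relIndex_bot_left,
        map_comap_eq_self_of_surjective (QuotientGroup.mk'_surjective Z)] at h1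
      exact h1
    rw [e]
    intro hd
    exact (Fact.out : p.Prime).one_lt.ne' (Nat.eq_one_of_dvd_coprimes hcop hd hpH)
  have hKH : ∀ k ∈ K, k ∈ H → k ∈ Z := fun k hk hkH =>
    (QuotientGroup.eq_one_iff k).1 ((Subgroup.disjoint_def.1 hcompl.disjoint) hk (mem_map_of_mem π hkH))
  have hKZ : K ≤ Z := by
    rw [← relIndex_eq_one, Nat.eq_one_iff_not_exists_prime_dvd]
    intro q hq hqd
    rcases eq_or_ne q p with rfl | hqp
    · exact hrel hqd
    haveI := Fact.mk hq
    obtain ⟨Q⟩ : Nonempty (Sylow q ↥K) := inferInstance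
    set Qg := (Q : Subgroup ↥K).map K.subtype with hQg
    have hfr := Sylow.normalizer_sup_eq_top Q
    set N := normalizer (Qg : Set G) with hN
    have hidx : ¬ p ∣ N.index := by
      have h1 : N.index = N.relIndex K := by
        have e1 : K.relIndex N = K.index := by
          rw [← relIndex_sup_right, hfr, relIndex_top_right]
        have e2 := (relIndex_mul_index (inf_le_left : N ⊓ K ≤ N)).trans
          (relIndex_mul_index (inf_le_right : N ⊓ K ≤ K)).symm
        rw [inf_relIndex_right, inf_relIndex_left, e1, mul_comm] at e2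
        exact Nat.eq_of_mul_eq_mul_right (Nat.pos_of_ne_zero FiniteIndex.index_ne_zero) e2
      rw [h1]
      exact fun hd => hrel (hd.trans (relIndex_dvd_of_le_left K (center_le_normalizer (s := (Qg : Set G)))))
    obtain ⟨S⟩ : Nonempty (Sylow p ↥N) := inferInstance
    have hSidx : ¬ p ∣ ((S : Subgroup ↥N).map N.subtype).index := by
      rw [index_map_subtype]
      exact fun hd => ((Fact.out : p.Prime).dvd_mul.1 hd).elim (Sylow.not_dvd_index S) hidx
    set S' := (S.2.map N.subtype).toSylow hSidx with hS'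
    obtain ⟨T, hT⟩ := hxp.exists_le_sylow
    obtain ⟨g, hg⟩ := exists_cj_sylow T S'
    have hgN : g * x * g⁻¹ ∈ N := by
      have : g * x * g⁻¹ ∈ cj g (T : Subgroup G) := ⟨x, hT (mem_zpowers x), rfl⟩
      rw [hg, hS', IsPGroup.toSylow_coe] at this
      exact map_subtype_le _ this
    have hQZ : Qg ≤ Z := by
      intro w hw
      have hcard : (Nat.card (cj g⁻¹ Qg)).Coprime p := by
        rw [Fusion.card_cj, hQg, card_map_of_injective K.subtype_injective]
        obtain ⟨e, he⟩ := Q.2.exists_card_eq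
        rw [he]
        exact Nat.Coprime.pow_left e ((Nat.coprime_primes hq Fact.out).2 hqp)
      have hnorm : ∀ h ∈ cj g⁻¹ Qg, x * h * x⁻¹ ∈ cj g⁻¹ Qg := by
        intro h hh
        rw [Fusion.mem_cj_inv] at hh ⊢
        have := (mem_normalizer_iff.1 hgN _).1 hh
        convert this using 1
        group
      have hwK : g⁻¹ * w * g ∈ K := by
        have := (inferInstance : K.Normal).conj_mem w (map_subtype_le _ hw) g⁻¹
        simpa using this
      have hwH : g⁻¹ * w * g ∈ H := mem_centralizer_singleton_iff.2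
        (hb _ hcard hnorm _ ⟨w, hw, by simp⟩).symm
      have := (inferInstance : Z.Normal).conj_mem _ (hKH _ hwK hwH) g
      simpa [mul_assoc] using this
    refine Sylow.not_dvd_index Q (hqd.trans ?_)
    have h1 : (Q : Subgroup ↥K).index = Qg.relIndex K := by
      rw [hQg, relIndex, subgroupOf, comap_map_eq_self_of_injective K.subtype_injective]
    rw [h1]
    exact relIndex_dvd_of_le_left K hQZ
  have hKb : Kb = ⊥ := by
    rw [eq_bot_iff]
    intro a ha
    obtain ⟨g, rfl⟩ := QuotientGroup.mk'_surjective Z a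
    exact mem_bot.2 ((QuotientGroup.eq_one_iff g).2 (hKZ ha))
  rw [hKb] at hcompl
  have htop : H.map π = ⊤ := isComplement'_bot_left.1 hcompl
  exact hHne (eq_top_iff.2 fun g _ => hmem g (htop.symm ▸ mem_top _))

end Cfsg.Agent.LocEven.IsolatedCentral
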