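import Cfsg.Agent.MaxSub.Dickson.Finite
import Cfsg.Agent.MaxSub.Dickson.Maximal
import Mathlib.Algebra.Field.ZMod
import Mathlib.FieldTheory.IsAlgClosed.AlgebraicClosure

/-!
A `p'`-subgroup of `PGL(2, p)` whose elements of a given large order fix many rational points.
-/

set_option autoImplicit false
set_option linter.style.haveILetI false
set_option maxRecDepth 4000

open scoped OnePoint MatrixGroups

namespace Cfsg.Agent.LocEven.PGLBound

open Cfsg.Agent.MaxSub.Dickson Matrix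

variable {p : ℕ} [Fact p.Prime]

theorem alt4_orders : ∀ g : alternatingGroup (Fin 4), g ^ 2 = 1 ∨ g ^ 3 = 1 := by decide

theorem sym4_orders : ∀ g : Equiv.Perm (Fin 4), g ^ 2 = 1 ∨ g ^ 3 = 1 ∨ g ^ 4 = 1 := by
  decide +kernel

theorem alt5_orders : ∀ g : alternatingGroup (Fin 5), g ^ 2 = 1 ∨ g ^ 3 = 1 ∨ g ^ 5 = 1 := by
  decide +kernel

theorem sym4_count :
    (Finset.univ.filter fun g : Equiv.Perm (Fin 4) => g ^ 4 = 1 ∧ g ^ 2 ≠ 1).card = 6 := by
  decide +kernel

theorem ncard_fixed_le {g : PGL(2, ZMod p)} (hg : g ≠ 1) :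
    {x : OnePoint (ZMod p) | g • x = x}.ncard ≤ 2 := by
  by_contra h
  push Not at h
  obtain ⟨a, b, c, ha, hb, hc, hab, hac, hbc⟩ := (Set.two_lt_ncard_iff (Set.toFinite _)).1 h
  exact hg (eq_one_of_three hab hac hbc ha hb hc)

theorem bound (hp : p ≠ 2) (W : Subgroup PGL(2, ZMod p)) (hW : ¬ p ∣ Nat.card W) (d : ℕ)
    (hd : d = 4 ∨ 6 ≤ d) (X : Set (OnePoint (ZMod p)))
    (h : ∀ x ∈ X, ∃ g ∈ W, orderOf g = d ∧ g • x = x) :
    X.ncard ≤ 2 ∨ (d = 4 ∧ X.ncard ≤ 12) := by
  classical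
  let K := AlgebraicClosure (ZMod p)
  have hp' : p.Prime := Fact.out
  have hd3 : 3 ≤ d := by omega
  -- fixed points of elements of a torus
  have htor : ∀ (a b : OnePoint K), a ≠ b → ∀ g : PGL(2, ZMod p), g ≠ 1 → emb K g • a = a →
      emb K g • b = b → ∀ x : OnePoint (ZMod p), g • x = x → pt₀ K x = a ∨ pt₀ K x = b := by
    intro a b hab g hg ha hb x hx
    by_contra hh
    push Not at hh
    refine hg (emb_injective (K := K) ?_)
    rw [map_one]
    exact eq_one_of_three hab hh.1.symm hh.2.symm ha hb (by rw [emb_pt, hx])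
  have hpair : ∀ (a b : OnePoint K), a ≠ b → W ≤ pairStab a b → X.ncard ≤ 2 := by
    intro a b hab hle
    have hsub : pt₀ K '' X ⊆ {a, b} := by
      rintro - ⟨x, hx, rfl⟩
      obtain ⟨g, hgW, hgd, hgx⟩ := h x hx
      have hg1 : g ≠ 1 := fun e => by rw [e, orderOf_one] at hgd; omega
      have hg2 : g ^ 2 ≠ 1 := fun e => by
        have := Nat.le_of_dvd (by norm_num) (orderOf_dvd_of_pow_eq_one e)
        omega
      rcases hle hgW with ⟨ha, hb⟩ | ⟨ha, hb⟩
      · exact htor a b hab g hg1 ha hb x hgx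
      · have ha2 : emb K (g ^ 2) • a = a := by rw [pow_two, map_mul, mul_smul, ha, hb]
        have hb2 : emb K (g ^ 2) • b = b := by rw [pow_two, map_mul, mul_smul, hb, ha]
        exact htor a b hab (g ^ 2) hg2 ha2 hb2 x (by rw [pow_two, mul_smul, hgx, hgx])
    calc X.ncard = (pt₀ K '' X).ncard := (Set.ncard_image_of_injective _ pt₀_injective).symm
      _ ≤ ({a, b} : Set (OnePoint K)).ncard := Set.ncard_le_ncard hsub (Set.toFinite _)
      _ = 2 := Set.ncard_pair hab
  have hsmall : ∀ (H : Type) [Group H], Nonempty (W ≃* H) →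
      (∀ g : H, g ^ 2 = 1 ∨ g ^ 3 = 1 ∨ g ^ 4 = 1 ∨ g ^ 5 = 1) →
      ∀ x ∈ X, d = 4 ∧ ∃ g : H, g ^ 4 = 1 ∧ g ^ 2 ≠ 1 := by
    rintro H _ ⟨e⟩ hord x hx
    obtain ⟨g, hgW, hgd, -⟩ := h x hx
    have ho : orderOf (e ⟨g, hgW⟩) = d := by
      rw [e.orderOf_eq, ← Subgroup.orderOf_coe, hgd]
    have h4 : d = 4 := by
      rcases hord (e ⟨g, hgW⟩) with e1 | e1 | e1 | e1 <;>
        · have := Nat.le_of_dvd (by norm_num) (orderOf_dvd_of_pow_eq_one e1)
          omega
    refine ⟨h4, _, by rw [← h4, ← ho]; exact pow_orderOf_eq_one _, fun e2 => ?_⟩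
    have := Nat.le_of_dvd (by norm_num) (orderOf_dvd_of_pow_eq_one e2)
    omega
  have htopF : ∀ F₀ : Subfield (ZMod p), Nat.card F₀ = p := by
    intro F₀
    have : F₀ = ⊤ := by
      rw [eq_top_iff]
      intro x _
      rw [← ZMod.natCast_zmod_val x]
      exact natCast_mem F₀ _
    subst this
    rw [Nat.card_congr (Subfield.topEquiv (K := ZMod p)).toEquiv, Nat.card_zmod]
  cases classifyF (F := ZMod p) (K := K) (p := p) W with
  | cyclic a b m hp1 hc hab hle hdvd =>
    exact Or.inl (hpair a b hab.1 (hle.trans tor_le_pairStab))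
  | dihedral a b m n hab hle hn hpn hdvd hcard hiso => exact Or.inl (hpair a b hab.1 hle)
  | borel x hfix hpd => exact absurd hpd hW
  | a4 _ hcard hiso =>
    left
    rcases X.eq_empty_or_nonempty with hX | ⟨x, hx⟩
    · simp [hX]
    obtain ⟨-, g, h4, h2⟩ := hsmall _ hiso (fun g => (alt4_orders g).elim Or.inl
      fun h3 => Or.inr (Or.inl h3)) x hx
    rcases alt4_orders g with e | e
    · exact absurd e h2
    · exact absurd (by
        rw [show g = 1 by rw [show g = g ^ 4 * (g ^ 3)⁻¹ by group, h4, e, inv_one, mul_one]]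
        simp) h2
  | a5 _ hcard hiso =>
    left
    rcases X.eq_empty_or_nonempty with hX | ⟨x, hx⟩
    · simp [hX]
    obtain ⟨-, g, h4, h2⟩ := hsmall _ hiso (fun g => (alt5_orders g).elim Or.inl
      fun h' => h'.elim (fun h3 => Or.inr (Or.inl h3)) fun h5 => Or.inr (Or.inr (Or.inr h5))) x hx
    rcases alt5_orders g with e | e | e
    · exact absurd e h2
    · exact absurd (by
        rw [show g = 1 by rw [show g = g ^ 4 * (g ^ 3)⁻¹ by group, h4, e, inv_one, mul_one]]
        simp) h2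
    · exact absurd (by
        rw [show g = 1 by rw [show g = g ^ 5 * (g ^ 4)⁻¹ by group, h4, e, inv_one, mul_one]]
        simp) h2
  | s4 _ hcard hiso =>
    rcases X.eq_empty_or_nonempty with hX | ⟨x₀, hx₀⟩
    · simp [hX]
    obtain ⟨h4, -⟩ := hsmall _ hiso (fun g => (sym4_orders g).elim Or.inl
      fun h' => h'.elim (fun h3 => Or.inr (Or.inl h3)) fun h5 => Or.inr (Or.inr (Or.inl h5))) x₀ hx₀
    refine Or.inr ⟨h4, ?_⟩
    obtain ⟨e⟩ := hiso
    set S := Finset.univ.filter fun g : Equiv.Perm (Fin 4) => g ^ 4 = 1 ∧ g ^ 2 ≠ 1 with hS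
    let Fx : Equiv.Perm (Fin 4) → Finset (OnePoint (ZMod p)) := fun s =>
      Set.Finite.toFinset (s := {x | ((e.symm s : W) : PGL(2, ZMod p)) • x = x}) (Set.toFinite _)
    have hsub : X ⊆ ↑(S.biUnion Fx) := by
      intro x hx
      obtain ⟨g, hgW, hgd, hgx⟩ := h x hx
      have ho : orderOf (e ⟨g, hgW⟩) = 4 := by
        rw [e.orderOf_eq, ← Subgroup.orderOf_coe, hgd, h4]
      rw [Finset.mem_coe, Finset.mem_biUnion]
      refine ⟨e ⟨g, hgW⟩, Finset.mem_filter.2 ⟨Finset.mem_univ _, ?_, ?_⟩, ?_⟩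
      · have := pow_orderOf_eq_one (e ⟨g, hgW⟩); rwa [ho] at this
      · intro e2
        have := Nat.le_of_dvd (by norm_num) (orderOf_dvd_of_pow_eq_one e2)
        omega
      · simp [Fx, hgx]
    calc X.ncard ≤ (↑(S.biUnion Fx) : Set (OnePoint (ZMod p))).ncard :=
          Set.ncard_le_ncard hsub (Finset.finite_toSet _)
      _ = (S.biUnion Fx).card := Set.ncard_coe_finset _
      _ ≤ S.card * 2 := Finset.card_biUnion_le_card_mul _ _ _ fun s hs => by
          have hs' := (Finset.mem_filter.1 hs).2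
          have hne : ((e.symm s : W) : PGL(2, ZMod p)) ≠ 1 := fun e1 => hs'.2 (by
            have : e.symm s = 1 := Subtype.ext e1
            rw [show s = 1 by simpa using congrArg e this, one_pow])
          have h2c := ncard_fixed_le hne
          rw [Set.ncard_eq_toFinset_card _ (Set.toFinite _)] at h2c
          exact h2c
      _ = 12 := by rw [sym4_count]
  | pgl F₀ t h4 he =>
    refine absurd ?_ hW
    rw [← Subgroup.card_map_of_injective (f := (MulAut.conj t⁻¹).toMonoidHom)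
      (MulAut.conj t⁻¹).injective]
    show p ∣ Nat.card ↥(W.map (MulAut.conj t⁻¹).toMonoidHom)
    rw [he, ← Nat.card_congr (MonoidHom.ofInjective (subPGL_injective F₀)).toEquiv,
      Linear.card_PGL_eq_card_SL]
    haveI : Fintype F₀ := Fintype.ofFinite _
    rw [Linear.card_SL_two, ← Nat.card_eq_fintype_card, htopF]
    exact Dvd.dvd.mul_right (Dvd.dvd.mul_right dvd_rfl _) _
  | psl F₀ t h4 hodd he =>
    refine absurd ?_ hW
    rw [← Subgroup.card_map_of_injective (f := (MulAut.conj t⁻¹).toMonoidHom)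
      (MulAut.conj t⁻¹).injective]
    show p ∣ Nat.card ↥(W.map (MulAut.conj t⁻¹).toMonoidHom)
    rw [he]
    have h2 := card_subPSL_range F₀
    rw [htopF] at h2
    have h3 : p ∣ Nat.gcd 2 (p - 1) * Nat.card (subPSL F₀).range := by
      rw [h2]; exact Dvd.dvd.mul_right (Dvd.dvd.mul_right dvd_rfl _) _
    exact Nat.Coprime.dvd_of_dvd_mul_left
      (((Nat.coprime_primes hp' Nat.prime_two).2 hp).coprime_dvd_right (Nat.gcd_dvd_left _ _)) h3

end Cfsg.Agent.LocEven.PGLBound
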