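import Cfsg.Agent.LocEven.PGLBound
import Cfsg.Agent.Modules.Fixed
import Cfsg.Agent.Modules.ElemAb
import Cfsg.Agent.Fusion.Basic
import Cfsg.Prelude.Def_Transfer
import Mathlib.Algebra.Module.ZMod
import Mathlib.FieldTheory.Finiteness
import Mathlib.RingTheory.IntegralDomain
import Mathlib.LinearAlgebra.Dimension.Constructions

/-!
An extraspecial Sylow subgroup of order `p³` and exponent `p`: the automizer modulo scalars of the
quotient by the centre, and the bound on `p` coming from radical subgroups of order `p²`.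
-/

set_option autoImplicit false
set_option linter.style.haveILetI false

open scoped OnePoint MatrixGroups

namespace Cfsg.Agent.LocEven.RVCount

open Subgroup
open Cfsg.Agent.Fusion (cj exists_conj_of_relIndex exists_sylow_inf_relIndex exists_cj_sylow)
open scoped commutatorElement Cfsg.Agent.MaxSub.Dickson

variable {G : Type*} [Group G] [Finite G] {p : ℕ} [Fact p.Prime] (P : Sylow p G)

/-- The shape of the Sylow subgroup, with a chosen generator `z` of its centre. -/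
structure Shape (z : G) : Prop where
  odd : p ≠ 2
  card : Nat.card (P : Subgroup G) = p ^ 3
  expo : ∀ x ∈ P, x ^ p = 1
  zmem : z ∈ P
  zne : z ≠ 1
  zcen : ∀ x ∈ P, x * z = z * x
  cen : ∀ x ∈ P, (∀ y ∈ P, x * y = y * x) → x ∈ zpowers z
  der : ∀ x ∈ P, ∀ y ∈ P, ⁅x, y⁆ ∈ zpowers z

theorem exists_shape (hp : p ≠ 2) (hE : Cfsg.IsExtraspecial p ↥P) (hcard : Nat.card P = p ^ 3)
    (hexp : Monoid.exponent ↥P = p) : ∃ z, Shape P z := by
  obtain ⟨⟨-, -, hder⟩, hcen⟩ := hE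
  replace hcen : Nat.card (Subgroup.center ↥(P : Subgroup G)) = p := hcen
  replace hder : _root_.commutator ↥(P : Subgroup G) = Subgroup.center ↥(P : Subgroup G) := hder
  haveI := isCyclic_of_prime_card hcen
  obtain ⟨⟨z, hz⟩, hgen⟩ := IsCyclic.exists_generator (α := Subgroup.center ↥(P : Subgroup G))
  have hzp : ∀ w : ↥(P : Subgroup G), w ∈ Subgroup.center ↥(P : Subgroup G) →
      (w : G) ∈ zpowers (z : G) := by
    intro w hw
    obtain ⟨k, hk⟩ := mem_zpowers_iff.1 (hgen ⟨w, hw⟩)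
    exact mem_zpowers_iff.2 ⟨k, by
      have := congrArg (fun u : Subgroup.center ↥(P : Subgroup G) => ((u : ↥(P : Subgroup G)) : G)) hk
      simpa using this⟩
  refine ⟨z, hp, hcard, fun x hx => ?_, z.2, fun h => ?_, fun x hx => ?_, fun x hx h => ?_,
    fun x hx y hy => ?_⟩
  · have := Monoid.pow_exponent_eq_one (⟨x, hx⟩ : ↥P)
    rw [hexp] at this
    exact congrArg Subtype.val this
  · have h1 : (⟨z, hz⟩ : Subgroup.center ↥(P : Subgroup G)) = 1 := Subtype.ext (Subtype.ext h)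
    have h2 := orderOf_eq_card_of_forall_mem_zpowers hgen
    rw [h1, orderOf_one, hcen] at h2
    exact (Fact.out : p.Prime).one_lt.ne h2
  · exact congrArg Subtype.val (mem_center_iff.1 hz ⟨x, hx⟩)
  · exact hzp ⟨x, hx⟩ (mem_center_iff.2 fun w => Subtype.ext (h w w.2).symm)
  · refine hzp ⁅(⟨x, hx⟩ : ↥(P : Subgroup G)), ⟨y, hy⟩⁆ ?_
    rw [← hder]
    exact commutator_mem_commutator (mem_top _) (mem_top _)

variable {P} {z : G}

theorem Shape.zpow_comm (s : Shape P z) {u : G} (hu : u ∈ zpowers z) {x : G} (hx : x ∈ P) :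
    x * u = u * x := by
  obtain ⟨k, rfl⟩ := mem_zpowers_iff.1 hu
  exact (show Commute x z from s.zcen x hx).zpow_right k

theorem Shape.comm_mul (s : Shape P z) {x y y' : G} (hx : x ∈ P) (hy : y ∈ P) (hy' : y' ∈ P) :
    ⁅x, y * y'⁆ = ⁅x, y⁆ * ⁅x, y'⁆ := by
  calc ⁅x, y * y'⁆ = ⁅x, y⁆ * (y * ⁅x, y'⁆ * y⁻¹) := by
        simp [commutatorElement_def, mul_assoc]
    _ = _ := by rw [s.zpow_comm (s.der x hx y' hy') hy, mul_inv_cancel_right]

theorem Shape.comm_pow (s : Shape P z) {x y : G} (hx : x ∈ P) (hy : y ∈ P) (k : ℕ) :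
    ⁅x, y ^ k⁆ = ⁅x, y⁆ ^ k := by
  induction k with
  | zero => simp
  | succ k ih => rw [pow_succ, s.comm_mul hx (pow_mem hy k) hy, ih, pow_succ]

theorem Shape.comm_pow_left (s : Shape P z) {x y : G} (hx : x ∈ P) (hy : y ∈ P) (k : ℕ) :
    ⁅x ^ k, y⁆ = ⁅x, y⁆ ^ k := by
  rw [← commutatorElement_inv, s.comm_pow hy hx, ← inv_pow, commutatorElement_inv]

theorem Shape.orderOf_eq (s : Shape P z) {u : G} (hu : u ∈ P) (h1 : u ≠ 1) : orderOf u = p :=
  orderOf_eq_prime (s.expo u hu) h1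

theorem Shape.pow_eq_pow (s : Shape P z) {u : G} (hu : u ∈ P) {i j : ℕ}
    (h : (i : ZMod p) = j) : u ^ i = u ^ j :=
  pow_eq_pow_iff_modEq.2 (Nat.ModEq.of_dvd (orderOf_dvd_of_pow_eq_one (s.expo u hu))
    ((ZMod.natCast_eq_natCast_iff i j p).1 h))

theorem Shape.natCast_eq (s : Shape P z) {u : G} (hu : u ∈ P) (h1 : u ≠ 1) {i j : ℕ}
    (h : u ^ i = u ^ j) : (i : ZMod p) = j := by
  rw [pow_eq_pow_iff_modEq, s.orderOf_eq hu h1] at h
  exact (ZMod.natCast_eq_natCast_iff' i j p).2 h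

theorem Shape.exists_noncomm (s : Shape P z) {a : G} (ha : a ∈ P) (haZ : a ∉ zpowers z) :
    ∃ b ∈ P, ⁅a, b⁆ ≠ 1 := by
  by_contra h
  push Not at h
  exact haZ (s.cen a ha fun y hy => commutatorElement_eq_one_iff_mul_comm.1 (h y hy))

theorem nonempty_linearEquiv_plane (A : Type*) [AddCommGroup A] [Finite A]
    [Module (ZMod p) A] (hcard : Nat.card A = p ^ 2) :
    Nonempty (A ≃+ (Fin 2 → ZMod p)) := by
  haveI : Module.Finite (ZMod p) A := Module.Finite.of_finite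
  have hrank : Module.finrank (ZMod p) A = 2 := by
    have h : Nat.card A = Nat.card (ZMod p) ^ Module.finrank (ZMod p) A :=
      Module.natCard_eq_pow_finrank
    rw [hcard, Nat.card_zmod] at h
    exact (Nat.pow_right_injective (Fact.out : p.Prime).two_le h).symm
  exact ⟨(LinearEquiv.ofFinrankEq A (Fin 2 → ZMod p)
    (by rw [hrank, Module.finrank_fin_fun])).toAddEquiv⟩

theorem exists_equiv_plane (Q : Type*) [CommGroup Q] [Finite Q] (hexp : ∀ q : Q, q ^ p = 1)
    (hcard : Nat.card Q = p ^ 2) : Nonempty (Q ≃* Multiplicative (Fin 2 → ZMod p)) := by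
  letI : Module (ZMod p) (Additive Q) := AddCommGroup.zmodModule fun q => by
    apply Additive.toMul.injective
    rw [toMul_nsmul, toMul_zero]
    exact hexp _
  obtain ⟨f⟩ := nonempty_linearEquiv_plane (p := p) (Additive Q)
    (by rw [Nat.card_congr (Additive.toMul (α := Q)), hcard])
  exact ⟨AddEquiv.toMultiplicativeRight f⟩

theorem Shape.exists_coords (s : Shape P z) :
    ∃ ψ : ↥(P : Subgroup G) →* Multiplicative (Fin 2 → ZMod p), Function.Surjective ψ ∧
      ∀ x : ↥(P : Subgroup G), ψ x = 1 ↔ (x : G) ∈ zpowers z := by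
  set C := (zpowers z).subgroupOf (P : Subgroup G) with hC
  haveI : C.Normal := ⟨fun w hw g => by
    show (g : G) * w * (g : G)⁻¹ ∈ zpowers z
    rw [s.zpow_comm (u := (w : G)) hw g.2, mul_inv_cancel_right]
    exact hw⟩
  letI : CommGroup (↥(P : Subgroup G) ⧸ C) :=
    { (inferInstance : Group (↥(P : Subgroup G) ⧸ C)) with
      mul_comm := fun a b => by
        obtain ⟨x, rfl⟩ := QuotientGroup.mk'_surjective C a
        obtain ⟨y, rfl⟩ := QuotientGroup.mk'_surjective C b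
        refine (commutatorElement_eq_one_iff_mul_comm.1 ?_)
        rw [← map_commutatorElement]
        exact (QuotientGroup.eq_one_iff _).2 (s.der x x.2 y y.2) }
  have hexp : ∀ q : ↥(P : Subgroup G) ⧸ C, q ^ p = 1 := by
    intro q
    obtain ⟨x, rfl⟩ := QuotientGroup.mk'_surjective C q
    rw [← map_pow]
    exact (QuotientGroup.eq_one_iff (x ^ p)).2 (by
      show ((x ^ p : ↥(P : Subgroup G)) : G) ∈ zpowers z
      rw [Subgroup.coe_pow, s.expo x x.2]; exact one_mem _)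
  have hcard : Nat.card (↥(P : Subgroup G) ⧸ C) = p ^ 2 := by
    have h1 := C.card_eq_card_quotient_mul_card_subgroup
    have h2 : Nat.card C = p := by
      rw [Nat.card_congr (subgroupOfEquivOfLe (zpowers_le.2 s.zmem)).toEquiv, Nat.card_zpowers,
        s.orderOf_eq s.zmem s.zne]
    rw [h2, s.card, pow_succ] at h1
    exact (Nat.eq_of_mul_eq_mul_right (Fact.out : p.Prime).pos h1).symm
  obtain ⟨f⟩ := exists_equiv_plane _ hexp hcard
  refine ⟨f.toMonoidHom.comp (QuotientGroup.mk' C),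
    f.surjective.comp (QuotientGroup.mk'_surjective C), fun x => ?_⟩
  rw [MonoidHom.comp_apply, MulEquiv.coe_toMonoidHom, f.map_eq_one_iff]
  exact QuotientGroup.eq_one_iff x

theorem normalizer_zpowers (s : Shape P z) {n : G}
    (hn : n ∈ normalizer ((P : Subgroup G) : Set G)) : n * z * n⁻¹ ∈ zpowers z := by
  refine s.cen _ ((mem_normalizer_iff.1 hn z).1 s.zmem) fun y hy => ?_
  have h1 : n⁻¹ * y * n ∈ P := by
    have := (mem_normalizer_iff.1 (inv_mem hn) y).1 hy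
    rwa [inv_inv] at this
  calc n * z * n⁻¹ * y = n * (z * (n⁻¹ * y * n)) * n⁻¹ := by group
    _ = n * ((n⁻¹ * y * n) * z) * n⁻¹ := by rw [s.zcen _ h1]
    _ = y * (n * z * n⁻¹) := by group

/-- The action of `N(P)` on the coordinates of `P` modulo its centre. -/
theorem exists_rep (s : Shape P z)
    (ψ : ↥(P : Subgroup G) →* Multiplicative (Fin 2 → ZMod p)) (hψ : Function.Surjective ψ)
    (hker : ∀ x : ↥(P : Subgroup G), ψ x = 1 ↔ (x : G) ∈ zpowers z) :
    ∃ ρ : ↥(normalizer ((P : Subgroup G) : Set G)) →* GL (Fin 2) (ZMod p),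
      (¬ p ∣ Nat.card (Matrix.ProjGenLinGroup.mk.comp ρ).range) ∧
      ∀ (n : ↥(normalizer ((P : Subgroup G) : Set G))) (x y : ↥(P : Subgroup G)),
        (n : G) * x * (n : G)⁻¹ = y →
          (ρ n : Matrix (Fin 2) (Fin 2) (ZMod p)).mulVec (ψ x).toAdd = (ψ y).toAdd := by
  set N := normalizer ((P : Subgroup G) : Set G) with hN
  have hconj : ∀ (n : ↥N) (x : ↥(P : Subgroup G)), (n : G) * x * (n : G)⁻¹ ∈ (P : Subgroup G) :=
    fun n x => (mem_normalizer_iff.1 n.2 x).1 x.2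
  let c : ↥N → ↥(P : Subgroup G) → ↥(P : Subgroup G) := fun n x => ⟨_, hconj n x⟩
  have hc_mul : ∀ n x y, c n (x * y) = c n x * c n y := fun n x y => Subtype.ext (by
    show (n : G) * (x * y) * (n : G)⁻¹ = ((n : G) * x * (n : G)⁻¹) * ((n : G) * y * (n : G)⁻¹)
    group)
  have hwd : ∀ n x y, ψ x = ψ y → ψ (c n x) = ψ (c n y) := by
    intro n x y h
    have h1 : ((x⁻¹ * y : ↥(P : Subgroup G)) : G) ∈ zpowers z :=
      (hker _).1 (by rw [map_mul, map_inv, h, inv_mul_cancel])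
    have h2 : ((c n (x⁻¹ * y) : ↥(P : Subgroup G)) : G) ∈ zpowers z := by
      obtain ⟨k, hk⟩ := mem_zpowers_iff.1 h1
      show (n : G) * ((x⁻¹ * y : ↥(P : Subgroup G)) : G) * (n : G)⁻¹ ∈ zpowers z
      rw [← hk, ← conj_zpow]
      exact zpow_mem (normalizer_zpowers s n.2) k
    calc ψ (c n x) = ψ (c n x) * ψ (c n (x⁻¹ * y)) := by rw [(hker _).2 h2, mul_one]
      _ = ψ (c n y) := by rw [← map_mul, ← hc_mul, mul_inv_cancel_left]
  choose σ hσ using hψ
  let f : ↥N → ((Fin 2 → ZMod p) →ₗ[ZMod p] (Fin 2 → ZMod p)) := fun n =>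
    (AddMonoidHom.mk' (fun v => (ψ (c n (σ (Multiplicative.ofAdd v)))).toAdd) (fun v w => by
      rw [← toAdd_mul, ← map_mul, ← hc_mul]
      refine congrArg Multiplicative.toAdd (hwd n _ _ ?_)
      rw [hσ, map_mul, hσ, hσ, ofAdd_add])).toZModLinearMap p
  have hf : ∀ n (x : ↥(P : Subgroup G)), f n (ψ x).toAdd = (ψ (c n x)).toAdd := by
    intro n x
    show (ψ (c n (σ (Multiplicative.ofAdd (ψ x).toAdd)))).toAdd = _
    exact congrArg Multiplicative.toAdd (hwd n _ _ (by rw [hσ, ofAdd_toAdd]))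
  have hf1 : f 1 = LinearMap.id := LinearMap.ext fun v => by
    rw [← toAdd_ofAdd v, ← hσ (Multiplicative.ofAdd v), hf, LinearMap.id_apply]
    refine congrArg (fun x => (ψ x).toAdd) (Subtype.ext ?_)
    show ((1 : ↥N) : G) * _ * ((1 : ↥N) : G)⁻¹ = _
    simp
  have hfm : ∀ m n, f (m * n) = (f m).comp (f n) := fun m n => LinearMap.ext fun v => by
    rw [← toAdd_ofAdd v, ← hσ (Multiplicative.ofAdd v), LinearMap.comp_apply, hf, hf, hf]
    refine congrArg (fun x => (ψ x).toAdd) (Subtype.ext ?_)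
    show ((m * n : ↥N) : G) * _ * ((m * n : ↥N) : G)⁻¹ = (m : G) * ((n : G) * _ * (n : G)⁻¹) * (m : G)⁻¹
    rw [Subgroup.coe_mul]; group
  let M : ↥N →* Matrix (Fin 2) (Fin 2) (ZMod p) :=
    { toFun := fun n => LinearMap.toMatrix' (f n)
      map_one' := by rw [hf1, LinearMap.toMatrix'_id]
      map_mul' := fun m n => by rw [hfm, LinearMap.toMatrix'_comp] }
  refine ⟨M.toHomUnits, ?_, fun n x y hxy => ?_⟩
  · set ρb := Matrix.ProjGenLinGroup.mk.comp M.toHomUnits with hρb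
    have hle : (P : Subgroup G).subgroupOf N ≤ ρb.ker := by
      intro n hn
      have h1 : M.toHomUnits n = 1 := by
        refine Units.ext ?_
        show LinearMap.toMatrix' (f n) = 1
        rw [show f n = LinearMap.id from LinearMap.ext fun v => ?_, LinearMap.toMatrix'_id]
        rw [← toAdd_ofAdd v, ← hσ (Multiplicative.ofAdd v), hf, LinearMap.id_apply]
        set x := σ (Multiplicative.ofAdd v)
        refine congrArg Multiplicative.toAdd ?_
        have h2 : ((x⁻¹ * c n x : ↥(P : Subgroup G)) : G) ∈ zpowers z := by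
          show (x : G)⁻¹ * ((n : G) * x * (n : G)⁻¹) ∈ zpowers z
          have := s.der (x : G)⁻¹ (inv_mem x.2) n hn
          rw [commutatorElement_def, inv_inv] at this
          simpa [mul_assoc] using this
        have h3 := (hker _).2 h2
        rw [map_mul, map_inv, inv_mul_eq_one] at h3
        exact h3.symm
      rw [MonoidHom.mem_ker, hρb, MonoidHom.comp_apply, h1, map_one]
    rw [← index_ker]
    intro hd
    have h1 := hd.trans (index_dvd_of_le hle)
    have h2 : ((P : Subgroup G).subgroupOf N).index ∣ (P : Subgroup G).index :=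
      relIndex_dvd_index_of_le le_normalizer
    exact Sylow.not_dvd_index P (h1.trans h2)
  · show (LinearMap.toMatrix' (f n)).mulVec _ = _
    rw [LinearMap.toMatrix'_mulVec, hf]
    exact congrArg (fun x => (ψ x).toAdd) (Subtype.ext hxy)

/-- The torus element of a radical subgroup `⟨z, a⟩`. -/
theorem exists_torus (s : Shape P z) {a : G} (ha : a ∈ P) (haZ : a ∉ zpowers z) {w : G}
    (hwa : w * a * w⁻¹ = a) (hwz : w * z * w⁻¹ = z * a) (i j : ℕ) (hij : (i : ZMod p) * j = 1) :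
    ∃ n ∈ normalizer ((P : Subgroup G) : Set G), n * z * n⁻¹ = z ^ i ∧
      (a ^ j)⁻¹ * (n * a * n⁻¹) ∈ zpowers z := by
  obtain ⟨b, hb, hab⟩ := s.exists_noncomm ha haZ
  have hba : ⁅b, a⁆ ≠ 1 := fun h => hab (by rw [← commutatorElement_inv, h, inv_one])
  obtain ⟨e, he⟩ := mem_zpowers_iff.1 (s.der b hb a ha)
  have hzP := s.zmem
  have hcza : Commute z a := (s.zcen a ha).symm
  -- exponents modulo `p`
  have hz' : ∀ u ∈ P, ∀ k l : ℤ, (k : ZMod p) = l → u ^ k = u ^ l := by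
    intro u hu k l h
    rw [zpow_eq_zpow_iff_modEq]
    exact ((ZMod.intCast_eq_intCast_iff k l p).1 h).of_dvd
      (Int.natCast_dvd_natCast.2 (orderOf_dvd_of_pow_eq_one (s.expo u hu)))
  have he0 : (e : ZMod p) ≠ 0 := fun h => hba (by
    rw [← he, hz' z hzP e 0 (by rw [h, Int.cast_zero]), zpow_zero])
  obtain ⟨e', he'⟩ : ∃ e' : ℤ, (e' : ZMod p) * e = 1 :=
    ⟨((e : ZMod p)⁻¹).val, by rw [Int.cast_natCast, ZMod.natCast_zmod_val, inv_mul_cancel₀ he0]⟩
  -- the two one parameter groups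
  set E : ℤ → G := fun t => b ^ (t * e') with hE
  set F : ℤ → G := fun t => w ^ t with hF
  have hEz : ∀ t, E t * z * (E t)⁻¹ = z := fun t => by
    rw [hE, s.zcen _ (zpow_mem hb _), mul_inv_cancel_right]
  have hbk : ∀ k : ℤ, b ^ k * a * (b ^ k)⁻¹ = z ^ (e * k) * a := by
    intro k
    have hb1 : b * a * b⁻¹ = z ^ e * a := by rw [he, commutatorElement_def]; group
    have hbz : ∀ m : ℤ, Commute b (z ^ m) := fun m => (show Commute b z from s.zcen b hb).zpow_right m
    induction k using Int.induction_on with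
    | zero => simp
    | succ k ih =>
      calc b ^ ((k : ℤ) + 1) * a * (b ^ ((k : ℤ) + 1))⁻¹
          = b * (b ^ (k : ℤ) * a * (b ^ (k : ℤ))⁻¹) * b⁻¹ := by
            rw [add_comm (k : ℤ) 1, zpow_add, zpow_one]; group
        _ = z ^ (e * k) * (b * a * b⁻¹) := by rw [ih, ← mul_assoc b, (hbz _).eq]; group
        _ = _ := by rw [hb1, ← mul_assoc, ← zpow_add, mul_add, mul_one]
    | pred k ih =>
      have hb2 : b⁻¹ * a * b = z ^ (-e) * a := by
        calc b⁻¹ * a * b = z ^ (-e) * (z ^ e * (b⁻¹ * a * b)) := by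
              rw [← mul_assoc (z ^ (-e)), ← zpow_add, neg_add_cancel, zpow_zero, one_mul]
          _ = z ^ (-e) * (b⁻¹ * (z ^ e * a) * b) := by
              rw [← mul_assoc b⁻¹, ((hbz e).inv_left).eq]; group
          _ = _ := by rw [← hb1]; group
      calc b ^ (-(k : ℤ) - 1) * a * (b ^ (-(k : ℤ) - 1))⁻¹
          = b⁻¹ * (b ^ (-(k : ℤ)) * a * (b ^ (-(k : ℤ)))⁻¹) * b := by
            rw [show -(k : ℤ) - 1 = -1 + -(k : ℤ) by ring, zpow_add, zpow_neg_one]; group
        _ = z ^ (e * -(k : ℤ)) * (b⁻¹ * a * b) := by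
            rw [ih, ← mul_assoc b⁻¹, ((hbz _).inv_left).eq]; group
        _ = _ := by rw [hb2, ← mul_assoc, ← zpow_add, mul_sub, mul_one, sub_eq_add_neg]
  have hEa : ∀ t, E t * a * (E t)⁻¹ = z ^ t * a := fun t => by
    rw [hE, hbk, hz' z hzP (e * (t * e')) t]
    push_cast
    linear_combination (t : ZMod p) * he'
  have hFa : ∀ t, F t * a * (F t)⁻¹ = a := fun t => by
    have hc : Commute w a := mul_inv_eq_iff_eq_mul.1 hwa
    rw [hF, (hc.zpow_left t).eq, mul_inv_cancel_right]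
  have hFz : ∀ t, F t * z * (F t)⁻¹ = z * a ^ t := by
    intro t
    have hc : Commute w a := mul_inv_eq_iff_eq_mul.1 hwa
    induction t using Int.induction_on with
    | zero => simp [hF]
    | succ k ih =>
      rw [hF] at ih ⊢
      calc w ^ ((k : ℤ) + 1) * z * (w ^ ((k : ℤ) + 1))⁻¹
          = w * (w ^ (k : ℤ) * z * (w ^ (k : ℤ))⁻¹) * w⁻¹ := by
            rw [add_comm (k : ℤ) 1, zpow_add, zpow_one]; group
        _ = w * z * w⁻¹ * (w * a ^ (k : ℤ) * w⁻¹) := by rw [ih]; group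
        _ = _ := by
          rw [hwz, (hc.zpow_right _).eq, mul_inv_cancel_right, mul_assoc, ← zpow_one_add, add_comm]
    | pred k ih =>
      rw [hF] at ih ⊢
      have hw2 : w⁻¹ * z * w = z * a⁻¹ := by
        have h1 : w * (z * a⁻¹) * w⁻¹ = z := by
          calc w * (z * a⁻¹) * w⁻¹ = (w * z * w⁻¹) * (w * a * w⁻¹)⁻¹ := by group
            _ = z := by rw [hwz, hwa, mul_inv_cancel_right]
        calc w⁻¹ * z * w = w⁻¹ * (w * (z * a⁻¹) * w⁻¹) * w := by rw [h1]
          _ = _ := by group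
      calc w ^ (-(k : ℤ) - 1) * z * (w ^ (-(k : ℤ) - 1))⁻¹
          = w⁻¹ * (w ^ (-(k : ℤ)) * z * (w ^ (-(k : ℤ)))⁻¹) * w := by
            rw [show -(k : ℤ) - 1 = -1 + -(k : ℤ) by ring, zpow_add, zpow_neg_one]; group
        _ = w⁻¹ * z * w * (w⁻¹ * a ^ (-(k : ℤ)) * w) := by rw [ih]; group
        _ = _ := by
          rw [hw2, (hc.inv_left.zpow_right _).eq, inv_mul_cancel_right, mul_assoc, ← zpow_neg_one a,
            ← zpow_add, add_comm, sub_eq_add_neg]
  -- the rotations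
  set h0 : ℤ → ℤ → G := fun l m => E l * F m * E l with hh0
  have hrot : ∀ l m : ℤ, (l : ZMod p) * m = -1 →
      h0 l m * z * (h0 l m)⁻¹ = a ^ m ∧ h0 l m * a * (h0 l m)⁻¹ = z ^ l := by
    intro l m hlm
    have hlm' : ((l * m + 1 : ℤ) : ZMod p) = ((0 : ℤ) : ZMod p) := by push_cast; rw [hlm]; ring
    constructor
    · calc h0 l m * z * (h0 l m)⁻¹
          = E l * (F m * (E l * z * (E l)⁻¹) * (F m)⁻¹) * (E l)⁻¹ := by rw [hh0]; group
        _ = E l * (z * a ^ m) * (E l)⁻¹ := by rw [hEz, hFz]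
        _ = (E l * z * (E l)⁻¹) * (E l * a ^ m * (E l)⁻¹) := by group
        _ = z * (z ^ l * a) ^ m := by rw [hEz, ← conj_zpow, hEa]
        _ = z ^ (l * m + 1) * a ^ m := by
          rw [(hcza.zpow_left l).mul_zpow, ← zpow_mul, ← mul_assoc, add_comm, zpow_add, zpow_one]
        _ = a ^ m := by rw [hz' z hzP _ 0 hlm', zpow_zero, one_mul]
    · calc h0 l m * a * (h0 l m)⁻¹
          = E l * (F m * (E l * a * (E l)⁻¹) * (F m)⁻¹) * (E l)⁻¹ := by rw [hh0]; group
        _ = E l * ((F m * z * (F m)⁻¹) ^ l * (F m * a * (F m)⁻¹)) * (E l)⁻¹ := by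
          rw [hEa, conj_zpow]; group
        _ = E l * (z ^ l * a ^ (l * m + 1)) * (E l)⁻¹ := by
          rw [hFz, hFa, (hcza.zpow_right m).mul_zpow, ← zpow_mul, mul_assoc (z ^ l), ← zpow_add_one,
            mul_comm m l]
        _ = (E l * z * (E l)⁻¹) ^ l := by
          rw [hz' a ha _ 0 hlm', zpow_zero, mul_one, conj_zpow]
        _ = _ := by rw [hEz]
  obtain ⟨r1, r2⟩ := hrot (-(i : ℤ)) j (by push_cast; rw [neg_mul, hij])
  obtain ⟨q1, q2⟩ := hrot 1 (-1) (by simp)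
  set h := h0 (-(i : ℤ)) j * h0 1 (-1) with hh
  have hhz : h * z * h⁻¹ = z ^ i := by
    calc h * z * h⁻¹ = h0 (-(i : ℤ)) j * (h0 1 (-1) * z * (h0 1 (-1))⁻¹) * (h0 (-(i : ℤ)) j)⁻¹ := by
          rw [hh]; group
      _ = _ := by rw [q1, ← conj_zpow, r2, ← zpow_mul, neg_mul_neg, mul_one, zpow_natCast]
  have hha : h * a * h⁻¹ = a ^ j := by
    calc h * a * h⁻¹ = h0 (-(i : ℤ)) j * (h0 1 (-1) * a * (h0 1 (-1))⁻¹) * (h0 (-(i : ℤ)) j)⁻¹ := by
          rw [hh]; group
      _ = _ := by rw [q2, zpow_one, r1, zpow_natCast]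
  -- the subgroup normalised by `h`
  let L : Subgroup G :=
    { carrier := {g | g * z * g⁻¹ = z ∧ a⁻¹ * (g * a * g⁻¹) ∈ zpowers z}
      one_mem' := ⟨by simp, by simp⟩
      mul_mem' := by
        rintro g g' ⟨h1, h2⟩ ⟨h1', h2'⟩
        refine ⟨?_, ?_⟩
        · calc g * g' * z * (g * g')⁻¹ = g * (g' * z * g'⁻¹) * g⁻¹ := by group
            _ = z := by rw [h1', h1]
        · obtain ⟨k, hk⟩ := mem_zpowers_iff.1 h2'
          have : g * g' * a * (g * g')⁻¹ = g * a * g⁻¹ * z ^ k := by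
            calc g * g' * a * (g * g')⁻¹ = g * (a * (a⁻¹ * (g' * a * g'⁻¹))) * g⁻¹ := by group
              _ = g * a * g⁻¹ * (g * z * g⁻¹) ^ k := by rw [← hk, conj_zpow]; group
              _ = _ := by rw [h1]
          rw [this, ← mul_assoc]
          exact mul_mem h2 (zpow_mem (mem_zpowers z) k)
      inv_mem' := by
        rintro g ⟨h1, h2⟩
        have h1' : g⁻¹ * z * g⁻¹⁻¹ = z := by
          conv_lhs => rw [← h1]
          group
        refine ⟨h1', ?_⟩
        obtain ⟨k, hk⟩ := mem_zpowers_iff.1 h2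
        have : g⁻¹ * a * g⁻¹⁻¹ = a * z ^ (-k) := by
          calc g⁻¹ * a * g⁻¹⁻¹ = g⁻¹ * ((g * a * g⁻¹) * (a⁻¹ * (g * a * g⁻¹))⁻¹) * g⁻¹⁻¹ := by group
            _ = g⁻¹ * (g * a * g⁻¹ * (g * z * g⁻¹) ^ (-k)) * g⁻¹⁻¹ := by rw [h1, ← hk, zpow_neg]
            _ = _ := by rw [conj_zpow]; group
        rw [this, inv_mul_cancel_left]
        exact zpow_mem (mem_zpowers z) _ }
  have hPL : (P : Subgroup G) ≤ L := fun g hg => ⟨by rw [s.zcen g hg, mul_inv_cancel_right], by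
    have := s.der a⁻¹ (inv_mem ha) g hg
    rw [commutatorElement_def, inv_inv] at this
    simpa [mul_assoc] using this⟩
  have hLh : cj h (P : Subgroup G) ≤ L := by
    rintro - ⟨g, hg, rfl⟩
    obtain ⟨g1, g2⟩ := hPL hg
    obtain ⟨k, hk⟩ := mem_zpowers_iff.1 g2
    have hinvz : h⁻¹ * z * h = z ^ j := by
      have : h * z ^ j * h⁻¹ = z := by
        rw [← conj_pow, hhz, ← pow_mul]
        exact (s.pow_eq_pow hzP (i := i * j) (j := 1) (by push_cast; exact hij)).trans (pow_one z)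
      conv_lhs => rw [← this]
      group
    have hinva : h⁻¹ * a * h = a ^ i := by
      have : h * a ^ i * h⁻¹ = a := by
        rw [← conj_pow, hha, ← pow_mul]
        exact (s.pow_eq_pow ha (i := j * i) (j := 1)
          (by push_cast; rw [mul_comm]; exact hij)).trans (pow_one a)
      conv_lhs => rw [← this]
      group
    show (h * g * h⁻¹) * z * (h * g * h⁻¹)⁻¹ = z ∧ a⁻¹ * ((h * g * h⁻¹) * a * (h * g * h⁻¹)⁻¹) ∈ _
    refine ⟨?_, ?_⟩
    · calc (h * g * h⁻¹) * z * (h * g * h⁻¹)⁻¹ = h * (g * (h⁻¹ * z * h) * g⁻¹) * h⁻¹ := by group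
        _ = h * (h⁻¹ * z * h) * h⁻¹ := by rw [hinvz, ← conj_pow, g1]
        _ = z := by group
    · have hga : g * a * g⁻¹ = a * z ^ k := by rw [hk, mul_inv_cancel_left]
      have h3 : (h * g * h⁻¹) * a * (h * g * h⁻¹)⁻¹ = a * (h * (z ^ k) ^ i * h⁻¹) := by
        calc (h * g * h⁻¹) * a * (h * g * h⁻¹)⁻¹ = h * (g * (h⁻¹ * a * h) * g⁻¹) * h⁻¹ := by group
          _ = h * ((h⁻¹ * a * h) * (z ^ k) ^ i) * h⁻¹ := by
            rw [hinva, ← conj_pow, hga, ((show Commute a z from hcza.symm).zpow_right k).mul_pow]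
          _ = _ := by group
      rw [h3, inv_mul_cancel_left, ← zpow_natCast (z ^ k), ← zpow_mul, ← conj_zpow, hhz]
      exact zpow_mem (pow_mem (mem_zpowers z) _) _
  have hrel : ∀ Q : Subgroup G, Q ≤ L → Nat.card Q = p ^ 3 → ¬ p ∣ Q.relIndex L := by
    intro Q hQ hQc hd
    have h1 : Q.relIndex L ∣ Q.index := relIndex_dvd_index_of_le hQ
    have h2 : Q.index = (P : Subgroup G).index := by
      have e1 := Q.card_mul_index
      have e2 := (P : Subgroup G).card_mul_index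
      rw [hQc] at e1
      rw [s.card, ← e1] at e2
      exact (Nat.eq_of_mul_eq_mul_left (pow_pos (Fact.out : p.Prime).pos _) e2).symm
    exact Sylow.not_dvd_index P (hd.trans (h2 ▸ h1))
  obtain ⟨y, hy, hyP⟩ := exists_conj_of_relIndex (Fusion.isPGroup_cj P.2 h) P.2 hLh hPL
    (hrel _ hLh (by rw [Fusion.card_cj]; exact s.card)) (hrel _ hPL s.card)
  rw [Fusion.cj_cj] at hyP
  refine ⟨y * h, mem_normalizer_iff_map_conj_eq.2 hyP, ?_, ?_⟩
  · calc y * h * z * (y * h)⁻¹ = y * (h * z * h⁻¹) * y⁻¹ := by group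
      _ = _ := by rw [hhz, ← conj_pow, hy.1]
  · obtain ⟨k, hk⟩ := mem_zpowers_iff.1 hy.2
    have : y * h * a * (y * h)⁻¹ = a ^ j * z ^ (k * j) := by
      calc y * h * a * (y * h)⁻¹ = y * (h * a * h⁻¹) * y⁻¹ := by group
        _ = (y * a * y⁻¹) ^ j := by rw [hha, conj_pow]
        _ = (a * z ^ k) ^ j := by rw [hk, mul_inv_cancel_left]
        _ = _ := by
          rw [((show Commute a z from hcza.symm).zpow_right k).mul_pow, zpow_mul, zpow_natCast]
    rw [this, inv_mul_cancel_left]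
    exact zpow_mem (mem_zpowers z) _

/-- A set of radical subgroups gives a set of points fixed by elements of large order. -/
theorem bound (s : Shape P z) (hp7 : 7 < p) (T : Set G)
    (hT : ∀ a ∈ T, a ∈ P ∧ a ∉ zpowers z ∧ ∃ w : G, w * a * w⁻¹ = a ∧ w * z * w⁻¹ = z * a)
    {k : ℕ} (hTdist : ∀ (ψ : ↥(P : Subgroup G) →* Multiplicative (Fin 2 → ZMod p)),
      Function.Surjective ψ → (∀ x : ↥(P : Subgroup G), ψ x = 1 ↔ (x : G) ∈ zpowers z) →
      k ≤ {q : OnePoint (ZMod p) | ∃ a ∈ T, ∃ (ha : a ∈ (P : Subgroup G))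
        (h0 : (ψ ⟨a, ha⟩).toAdd ≠ 0),
          (OnePoint.equivProjectivization (ZMod p)).symm
            (Projectivization.mk (ZMod p) (ψ ⟨a, ha⟩).toAdd h0) = q}.ncard) :
    k ≤ 2 ∨ (p = 13 ∧ k ≤ 12) := by
  have hp : p.Prime := Fact.out
  obtain ⟨ψ, hψ, hker⟩ := s.exists_coords
  obtain ⟨ρ, hW, hρ⟩ := exists_rep s ψ hψ hker
  set d := (p - 1) / Nat.gcd 3 (p - 1) with hd
  have hg3 : Nat.gcd 3 (p - 1) = 1 ∨ Nat.gcd 3 (p - 1) = 3 :=
    (Nat.dvd_prime Nat.prime_three).1 (Nat.gcd_dvd_left _ _)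
  have hd_cases : d = 4 ∧ p = 13 ∨ 6 ≤ d := by
    rcases hg3 with e | e
    · right; rw [hd, e, Nat.div_one]; omega
    · have h3 : 3 ∣ p - 1 := e ▸ Nat.gcd_dvd_right 3 (p - 1)
      rw [hd, e]
      by_cases h17 : 19 ≤ p
      · right; omega
      · interval_cases p <;>
          first
          | exact Or.inl ⟨rfl, rfl⟩
          | omega
          | norm_num at hp
  obtain ⟨u, hu⟩ := IsCyclic.exists_generator (α := (ZMod p)ˣ)
  have huo : orderOf u = p - 1 := by
    rw [orderOf_eq_card_of_forall_mem_zpowers hu, Nat.card_eq_fintype_card, ZMod.card_units]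
  set X := {q : OnePoint (ZMod p) | ∃ a ∈ T, ∃ (ha : a ∈ (P : Subgroup G))
      (h0 : (ψ ⟨a, ha⟩).toAdd ≠ 0),
        (OnePoint.equivProjectivization (ZMod p)).symm
          (Projectivization.mk (ZMod p) (ψ ⟨a, ha⟩).toAdd h0) = q} with hX
  have hk := hTdist ψ hψ hker
  have hb := PGLBound.bound s.odd (Matrix.ProjGenLinGroup.mk.comp ρ).range hW d
    (hd_cases.imp And.left id) X ?_
  · rcases hb with h | ⟨h4, h12⟩
    · exact Or.inl (hk.trans h)
    · refine Or.inr ⟨?_, hk.trans h12⟩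
      rcases hd_cases with ⟨-, h13⟩ | h6
      · exact h13
      · omega
  rintro q ⟨a, haT, ha, h0, rfl⟩
  obtain ⟨-, haZ, w, hwa, hwz⟩ := hT a haT
  set i := (u : ZMod p).val with hi
  set j := ((u⁻¹ : (ZMod p)ˣ) : ZMod p).val with hj
  have hij : (i : ZMod p) * j = 1 := by
    rw [hi, hj, ZMod.natCast_zmod_val, ZMod.natCast_zmod_val, Units.mul_inv]
  obtain ⟨n, hn, hnz, hna⟩ := exists_torus s ha haZ hwa hwz i j hij
  set n' : ↥(normalizer ((P : Subgroup G) : Set G)) := ⟨n, hn⟩ with hn'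
  set g := Matrix.ProjGenLinGroup.mk.comp ρ n' with hg
  have hψpow : ∀ (x : ↥(P : Subgroup G)) (c : ℕ), (ψ (x ^ c)).toAdd = (c : ZMod p) • (ψ x).toAdd := by
    intro x c
    rw [map_pow, toAdd_pow, Nat.cast_smul_eq_nsmul]
  have hsame : ∀ x y : ↥(P : Subgroup G), (x : G)⁻¹ * y ∈ zpowers z → ψ x = ψ y := by
    intro x y h
    have := (hker (x⁻¹ * y)).2 h
    rw [map_mul, map_inv, inv_mul_eq_one] at this
    exact this
  have hgfix : g • (OnePoint.equivProjectivization (ZMod p)).symm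
      (Projectivization.mk (ZMod p) (ψ ⟨a, ha⟩).toAdd h0) =
      (OnePoint.equivProjectivization (ZMod p)).symm
        (Projectivization.mk (ZMod p) (ψ ⟨a, ha⟩).toAdd h0) := by
    apply (OnePoint.equivProjectivization (ZMod p)).injective
    rw [hg, MonoidHom.comp_apply, MaxSub.Dickson.mk_smul, OnePoint.equivProjectivization_smul,
      Equiv.apply_symm_apply, Projectivization.smul_mk]
    refine (Projectivization.mk_eq_mk_iff' _ _ _ _ _).2 ⟨(j : ZMod p), ?_⟩
    have h1 := hρ n' ⟨a, ha⟩ ⟨n * a * n⁻¹, (mem_normalizer_iff.1 hn a).1 ha⟩ rfl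
    have h2 := hsame (⟨a, ha⟩ ^ j) ⟨n * a * n⁻¹, (mem_normalizer_iff.1 hn a).1 ha⟩ hna
    rw [← h2, hψpow] at h1
    exact h1.symm
  -- the order
  have hdvd : d ∣ orderOf g := by
    set m := orderOf g with hm
    have hgm : Matrix.ProjGenLinGroup.mk.comp ρ (n' ^ m) = 1 := by
      rw [map_pow, ← hg, hm, pow_orderOf_eq_one]
    have hscal : ∀ x : ↥(P : Subgroup G), (x : G) ∉ zpowers z → ∃ (y : ↥(P : Subgroup G)) (c : ℕ),
        n ^ m * x * (n ^ m)⁻¹ = y ∧ (y : G)⁻¹ * (x : G) ^ c ∈ zpowers z := by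
      intro x hx
      have hx0 : (ψ x).toAdd ≠ 0 := fun h => hx ((hker x).1 (Multiplicative.toAdd.injective h))
      have hfix := congrArg (fun t : PGL(2, ZMod p) => t • (OnePoint.equivProjectivization (ZMod p)).symm
        (Projectivization.mk (ZMod p) (ψ x).toAdd hx0)) hgm
      simp only [one_smul] at hfix
      have hfix' := congrArg (OnePoint.equivProjectivization (ZMod p)) hfix
      rw [MonoidHom.comp_apply, MaxSub.Dickson.mk_smul, OnePoint.equivProjectivization_smul,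
        Equiv.apply_symm_apply, Projectivization.smul_mk] at hfix'
      obtain ⟨c, hc⟩ := (Projectivization.mk_eq_mk_iff' _ _ _ _ _).1 hfix'
      have hy : n ^ m * x * (n ^ m)⁻¹ ∈ (P : Subgroup G) :=
        (mem_normalizer_iff.1 (pow_mem hn m) x).1 x.2
      have h1 := hρ (n' ^ m) x ⟨_, hy⟩ (by rw [Subgroup.coe_pow])
      refine ⟨⟨_, hy⟩, c.val, rfl, (hker (⟨_, hy⟩⁻¹ * x ^ c.val)).1 ?_⟩
      rw [map_mul, map_inv, inv_mul_eq_one]
      apply Multiplicative.toAdd.injective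
      rw [hψpow, ZMod.natCast_zmod_val, hc, ← h1]
      rfl
    obtain ⟨b, hb, hab⟩ := s.exists_noncomm ha haZ
    have hbZ : b ∉ zpowers z := fun h => hab (commutatorElement_eq_one_iff_mul_comm.2 (s.zpow_comm h ha))
    have habZ : a * b ∉ zpowers z := fun h => hab (by
      have h1 : ⁅a, a * b⁆ = 1 := commutatorElement_eq_one_iff_mul_comm.2 (s.zpow_comm h ha)
      rwa [s.comm_mul ha ha hb, commutatorElement_self, one_mul] at h1)
    obtain ⟨ya, ca, eya, hca⟩ := hscal ⟨a, ha⟩ haZ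
    obtain ⟨yb, cb, eyb, hcb⟩ := hscal ⟨b, hb⟩ hbZ
    obtain ⟨yc, cc, eyc, hcc⟩ := hscal ⟨a * b, mul_mem ha hb⟩ habZ
    -- commutators do not see the centre
    have hcomm : ∀ {x x' : G}, x ∈ P → x⁻¹ * x' ∈ zpowers z → ∀ y ∈ P,
        ⁅x', y⁆ = ⁅x, y⁆ ∧ ⁅y, x'⁆ = ⁅y, x⁆ := by
      intro x x' hx h y hy
      have h2 : ⁅y, x⁻¹ * x'⁆ = 1 := commutatorElement_eq_one_iff_mul_comm.2 (s.zpow_comm h hy)
      have h3 : ⁅y, x'⁆ = ⁅y, x⁆ := by
        conv_lhs => rw [← mul_inv_cancel_left x x']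
        rw [s.comm_mul hy hx (zpowers_le.2 s.zmem h), h2, mul_one]
      exact ⟨by rw [← commutatorElement_inv, h3, commutatorElement_inv], h3⟩
    have hzc : ⁅a, b⁆ ∈ (P : Subgroup G) := zpowers_le.2 s.zmem (s.der a ha b hb)
    have hA : ya.1⁻¹ * a ^ ca ∈ zpowers z := hca
    have hB : yb.1⁻¹ * b ^ cb ∈ zpowers z := hcb
    have hC : yc.1⁻¹ * (a * b) ^ cc ∈ zpowers z := hcc
    have hyc : (yc : G) = ya * yb := by
      have e1 : n ^ m * (a * b) * (n ^ m)⁻¹ = yc := eyc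
      rw [← e1, ← eya, ← eyb]
      group
    have hab1 : ∀ {c c' : ℕ}, ⁅a, b⁆ ^ c = ⁅a, b⁆ ^ c' → (c : ZMod p) = c' :=
      fun h => s.natCast_eq hzc hab h
    have hbe : (cc : ZMod p) = cb := by
      refine hab1 ?_
      calc ⁅a, b⁆ ^ cc = ⁅a, (a * b) ^ cc⁆ := by
            rw [s.comm_pow ha (mul_mem ha hb), s.comm_mul ha ha hb, commutatorElement_self, one_mul]
        _ = ⁅a, (yc : G)⁆ := (hcomm yc.2 hC a ha).2
        _ = ⁅a, (ya : G)⁆ * ⁅a, (yb : G)⁆ := by rw [hyc, s.comm_mul ha ya.2 yb.2]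
        _ = ⁅a, a ^ ca⁆ * ⁅a, b ^ cb⁆ := by
            rw [(hcomm ya.2 hA a ha).2, (hcomm yb.2 hB a ha).2]
        _ = ⁅a, b⁆ ^ cb := by
            rw [s.comm_pow ha ha, commutatorElement_self, one_pow, one_mul, s.comm_pow ha hb]
    have hae : (cc : ZMod p) = ca := by
      refine hab1 ?_
      have key : ⁅b, a⁆ ^ cc = ⁅b, a⁆ ^ ca := by
        calc ⁅b, a⁆ ^ cc = ⁅b, (a * b) ^ cc⁆ := by
              rw [s.comm_pow hb (mul_mem ha hb), s.comm_mul hb ha hb, commutatorElement_self, mul_one]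
          _ = ⁅b, (yc : G)⁆ := (hcomm yc.2 hC b hb).2
          _ = ⁅b, (ya : G)⁆ * ⁅b, (yb : G)⁆ := by rw [hyc, s.comm_mul hb ya.2 yb.2]
          _ = ⁅b, a ^ ca⁆ * ⁅b, b ^ cb⁆ := by
              rw [(hcomm ya.2 hA b hb).2, (hcomm yb.2 hB b hb).2]
          _ = ⁅b, a⁆ ^ ca := by
              rw [s.comm_pow hb hb, commutatorElement_self, one_pow, mul_one, s.comm_pow hb ha]
      rwa [← commutatorElement_inv a b, inv_pow, inv_pow, inv_inj] at key
    have hnmz : ∀ t : ℕ, n ^ t * z * (n ^ t)⁻¹ = z ^ (i ^ t) := by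
      intro t
      induction t with
      | zero => simp
      | succ t ih =>
        calc n ^ (t + 1) * z * (n ^ (t + 1))⁻¹ = n * (n ^ t * z * (n ^ t)⁻¹) * n⁻¹ := by
              rw [pow_succ']; group
          _ = _ := by rw [ih, ← conj_pow, hnz, ← pow_mul, pow_succ, mul_comm]
    have hzeq : ((i : ZMod p)) ^ m = (ca : ZMod p) * cb := by
      have h1 : ⁅(ya : G), (yb : G)⁆ = ⁅a, b⁆ ^ (ca * cb) := by
        rw [← (hcomm ya.2 hA yb yb.2).1, ← (hcomm yb.2 hB (a ^ ca) (pow_mem ha ca)).2,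
          s.comm_pow (pow_mem ha ca) hb, s.comm_pow_left ha hb, ← pow_mul]
      obtain ⟨e, he⟩ := mem_zpowers_iff.1 (s.der a ha b hb)
      have h2 : ⁅(ya : G), (yb : G)⁆ = ⁅a, b⁆ ^ (i ^ m) := by
        rw [← eya, ← eyb]
        calc ⁅n ^ m * a * (n ^ m)⁻¹, n ^ m * b * (n ^ m)⁻¹⁆ = n ^ m * ⁅a, b⁆ * (n ^ m)⁻¹ := by
              simp [commutatorElement_def, mul_assoc]
          _ = _ := by
            rw [← he, ← conj_zpow, hnmz, ← zpow_natCast z, ← zpow_mul, ← zpow_natCast (z ^ e),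
              ← zpow_mul, mul_comm]
      have := hab1 (h2.symm.trans h1)
      push_cast at this
      exact this
    have hja : (j : ZMod p) ^ m = ca := by
      have hpowa : ∀ t : ℕ, (a ^ (j ^ t))⁻¹ * (n ^ t * a * (n ^ t)⁻¹) ∈ zpowers z := by
        intro t
        induction t with
        | zero => simp
        | succ t ih =>
          obtain ⟨e, he⟩ := mem_zpowers_iff.1 ih
          obtain ⟨e', he'⟩ := mem_zpowers_iff.1 hna
          have hcz : Commute z a := (s.zcen a ha).symm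
          have : n ^ (t + 1) * a * (n ^ (t + 1))⁻¹ = a ^ (j ^ (t + 1)) * ((z ^ e') ^ (j ^ t) * (z ^ i) ^ e) := by
            calc n ^ (t + 1) * a * (n ^ (t + 1))⁻¹
                = n * (n ^ t * a * (n ^ t)⁻¹) * n⁻¹ := by rw [pow_succ']; group
              _ = n * (a ^ (j ^ t) * z ^ e) * n⁻¹ := by rw [he, mul_inv_cancel_left]
              _ = (n * a * n⁻¹) ^ (j ^ t) * (n * z * n⁻¹) ^ e := by
                  rw [conj_pow, conj_zpow]; group
              _ = (a ^ j * z ^ e') ^ (j ^ t) * (z ^ i) ^ e := by rw [hnz, he', mul_inv_cancel_left]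
              _ = _ := by
                  rw [((hcz.symm.pow_left j).zpow_right e').mul_pow, ← pow_mul, mul_assoc,
                    ← pow_succ']
          rw [this, inv_mul_cancel_left]
          exact mul_mem (pow_mem (zpow_mem (mem_zpowers z) _) _)
            (zpow_mem (pow_mem (mem_zpowers z) _) _)
      have h1 : ⁅a ^ (j ^ m), b⁆ = ⁅a ^ ca, b⁆ := by
        rw [← (hcomm (pow_mem ha _) (hpowa m) b hb).1,
          show n ^ m * a * (n ^ m)⁻¹ = (ya : G) from eya, (hcomm ya.2 hA b hb).1]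
      rw [s.comm_pow_left ha hb, s.comm_pow_left ha hb] at h1
      simpa using hab1 h1
    have h3m : (u : ZMod p) ^ (3 * m) = 1 := by
      have e1 : (u : ZMod p) ^ m = ((j : ZMod p) ^ m) ^ 2 := by
        rw [hja, sq, ← ZMod.natCast_zmod_val (u : ZMod p), ← hi, hzeq, ← hbe.symm.trans hae]
      have e2 : (u : ZMod p) * (j : ZMod p) = 1 := by
        rw [hj, ZMod.natCast_zmod_val, Units.mul_inv]
      calc (u : ZMod p) ^ (3 * m) = (u : ZMod p) ^ m * ((u : ZMod p) ^ m) ^ 2 := by ring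
        _ = ((u : ZMod p) * (j : ZMod p)) ^ (2 * m) := by nth_rw 1 [e1]; ring
        _ = 1 := by rw [e2, one_pow]
    have h4 : p - 1 ∣ 3 * m := huo ▸ orderOf_dvd_of_pow_eq_one (Units.ext (by push_cast; exact h3m))
    have h5 : p - 1 ∣ Nat.gcd 3 (p - 1) * m := by
      have := Nat.dvd_gcd h4 (dvd_mul_right (p - 1) m)
      rwa [Nat.gcd_mul_right] at this
    rw [hd]
    exact (Nat.div_dvd_iff_dvd_mul (Nat.gcd_dvd_right _ _) (by
      rcases hg3 with e | e <;> omega)).2 h5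
  obtain ⟨r, hr⟩ := hdvd
  have hm0 : orderOf g ≠ 0 := fun e => (orderOf_pos n').ne'
    (Nat.eq_zero_of_zero_dvd (e ▸ orderOf_map_dvd (Matrix.ProjGenLinGroup.mk.comp ρ) n'))
  have hr0 : r ≠ 0 := fun e => hm0 (by rw [hr, e, mul_zero])
  refine ⟨g ^ r, ⟨n' ^ r, by rw [map_pow]⟩, ?_, ?_⟩
  · rw [orderOf_pow_of_dvd hr0 (hr ▸ dvd_mul_left r d), hr, Nat.mul_div_cancel _ (Nat.pos_of_ne_zero hr0)]
  · exact MulAction.mem_stabilizer_iff.1 (pow_mem (MulAction.mem_stabilizer_iff.2 hgfix) r)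

end Cfsg.Agent.LocEven.RVCount
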