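import Cfsg.Agent.Components.Perm
import Cfsg.Agent.Components.FStar
import Cfsg.Agent.Fusion.Basic
import Cfsg.Prelude.Def_Transfer
import Cfsg.Prelude.Def_SubgroupEmbedding

/-!
A minimal counterexample for the Sidki pair condition: no abelian normal subgroups, and the group is
the product of `V` with any centre-free normal subgroup.
-/

set_option autoImplicit false
set_option linter.unusedSectionVars false

universe u

namespace Cfsg.Agent.LocEven.Sidki

open Subgroup
open scoped commutatorElement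

/-- Lift an element of odd order inverted by the image of an involution. -/
theorem exists_lift {H Q : Type*} [Group H] [Finite H] [Group Q] (f : H →* Q)
    (hf : Function.Surjective f) {v : H} (hv : v * v = 1) {q : Q} (hq : Odd (orderOf q))
    (hinv : f v * q * (f v)⁻¹ = q⁻¹) :
    ∃ h : H, Odd (orderOf h) ∧ v * h * v⁻¹ = h⁻¹ ∧ q ∈ zpowers (f h) := by
  obtain ⟨h', rfl⟩ := hf q
  set u := v * h' * v⁻¹ * h'⁻¹ with hu
  have hvi : v⁻¹ = v := inv_eq_of_mul_eq_one_right hv
  have hfu : f u = (f h')⁻¹ * (f h')⁻¹ := by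
    rw [hu, map_mul, map_mul, map_mul, map_inv, map_inv, hinv]
  have hinvu : v * u * v⁻¹ = u⁻¹ := by
    rw [hu, hvi]
    calc v * (v * h' * v * h'⁻¹) * v = (v * v) * h' * v * h'⁻¹ * v := by group
      _ = h' * v⁻¹ * h'⁻¹ * v⁻¹ := by rw [hv, hvi, one_mul]
      _ = (v * h' * v * h'⁻¹)⁻¹ := by group
  obtain ⟨a, m, hm, hom⟩ := Nat.exists_eq_two_pow_mul_odd (orderOf_pos u).ne'
  refine ⟨u ^ 2 ^ a, ?_, ?_, ?_⟩
  · rw [orderOf_pow' u (by positivity), hom, Nat.gcd_mul_right_left,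
      Nat.mul_div_cancel_left _ (by positivity)]
    exact hm
  · rw [← conj_pow, hinvu, inv_pow]
  · rw [map_pow, hfu, ← pow_two, ← pow_mul, ← pow_succ']
    have hcop : (2 ^ (a + 1)).Coprime (orderOf (f h')) :=
      Nat.Coprime.pow_left _ (Nat.coprime_two_left.2 hq)
    obtain ⟨k, hk⟩ := exists_pow_eq_self_of_coprime hcop
    refine mem_zpowers_iff.2 ⟨-(k : ℤ), ?_⟩
    rw [inv_pow, inv_zpow, zpow_neg, inv_inv, zpow_natCast, hk]

/-- An odd-order element whose image lies in a group of exponent two is in the kernel. -/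
theorem map_eq_one_of_odd {H Q : Type*} [Group H] [Finite H] [Group Q] (f : H →* Q) {h : H}
    (hh : Odd (orderOf h)) (h2 : f h * f h = 1) : f h = 1 := by
  have h1 : f h ^ orderOf h = 1 := by rw [← map_pow, pow_orderOf_eq_one, map_one]
  obtain ⟨k, hk⟩ := hh
  rw [hk, pow_succ, pow_mul, pow_two, h2, one_pow, one_mul] at h1
  exact h1

variable {G : Type u} [Group G] [Finite G] (V : Subgroup G)

/-- The hypotheses on a minimal counterexample. -/
structure Data : Prop where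
  sq : ∀ v ∈ V, v * v = 1
  comm : ∀ v ∈ V, ∀ w ∈ V, v * w = w * v
  ne : V ≠ ⊥
  sidki : Cfsg.IsSidkiPair V
  disj : V ⊓ Cfsg.pCore 2 G = ⊥
  minG : ∀ (H : Type u) [Group H] [Finite H] (W : Subgroup H), Nat.card H < Nat.card G →
    Cfsg.IsElementaryAbelian 2 W → W ≠ ⊥ → Cfsg.IsSidkiPair W → W ⊓ Cfsg.pCore 2 H ≠ ⊥
  minV : ∀ W : Subgroup G, Nat.card W < Nat.card V → Cfsg.IsElementaryAbelian 2 W → W ≠ ⊥ →
    Cfsg.IsSidkiPair W → W ⊓ Cfsg.pCore 2 G ≠ ⊥

theorem exists_ne_one {H : Type*} [Group H] {W : Subgroup H} (h : W ≠ ⊥) : ∃ w ∈ W, w ≠ 1 := by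
  by_contra hc
  simp only [not_exists, not_and, not_not] at hc
  exact h ((eq_bot_iff_forall _).2 hc)

/-- Failure of the Sidki condition. -/
theorem exists_bad {H : Type*} [Group H] {W : Subgroup H} (h : ¬ Cfsg.IsSidkiPair W) :
    ∃ q v : H, v ∈ W ∧ Odd (orderOf q) ∧ v * q * v⁻¹ = q⁻¹ ∧
      ∀ w ∈ W, w * q = q * w → w = 1 := by
  simp only [Cfsg.IsSidkiPair, not_forall, not_exists, not_and] at h
  obtain ⟨q, v, hv, ho, hi, hw⟩ := h
  exact ⟨q, v, hv, ho, hi, fun w hwW he => by_contra fun h1 => hw w hwW h1 he⟩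

variable {V} (d : Data V)
include d

theorem elem {H : Type*} [Group H] (f : ↥V →* H) : Cfsg.IsElementaryAbelian 2 f.range := by
  refine ⟨⟨⟨?_⟩⟩, ?_⟩
  · rintro ⟨_, a, rfl⟩ ⟨_, b, rfl⟩
    refine Subtype.ext ?_
    show f a * f b = f b * f a
    rw [← map_mul, ← map_mul]
    exact congrArg f (Subtype.ext (d.comm _ a.2 _ b.2))
  · rintro _ ⟨a, rfl⟩
    rw [← map_pow]
    exact (congrArg f (Subtype.ext (by rw [pow_two]; exact d.sq _ a.2))).trans (map_one f)

theorem elem_sub {U : Subgroup G} (hU : U ≤ V) : Cfsg.IsElementaryAbelian 2 U :=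
  ⟨⟨⟨fun a b => Subtype.ext (d.comm _ (hU a.2) _ (hU b.2))⟩⟩,
    fun a ha => by rw [pow_two]; exact d.sq _ (hU ha)⟩

theorem isPGroup_of_le {U : Subgroup G} (hU : U ≤ V) : IsPGroup 2 ↥U := fun x =>
  ⟨1, Subtype.ext (by rw [pow_one, pow_two]; exact d.sq _ (hU x.2))⟩

theorem pCore_eq_bot : Cfsg.pCore 2 G = ⊥ := by
  by_contra hne
  set π := QuotientGroup.mk' (Cfsg.pCore 2 G) with hπ
  set W := (π.comp V.subtype).range with hW
  have hWne : W ≠ ⊥ := by
    intro h
    obtain ⟨w, hw, hw1⟩ := exists_ne_one d.ne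
    have h2 : π w ∈ W := ⟨⟨w, hw⟩, rfl⟩
    rw [h, mem_bot] at h2
    refine hw1 (mem_bot.1 (d.disj ▸ ⟨hw, ?_⟩ : w ∈ (⊥ : Subgroup G)))
    exact (QuotientGroup.eq_one_iff w).1 h2
  have hcard : Nat.card (G ⧸ Cfsg.pCore 2 G) < Nat.card G := by
    have h2 := one_lt_card_iff_ne_bot _ |>.2 hne
    calc Nat.card (G ⧸ Cfsg.pCore 2 G) = Nat.card (G ⧸ Cfsg.pCore 2 G) * 1 := (mul_one _).symm
      _ < Nat.card (G ⧸ Cfsg.pCore 2 G) * Nat.card ↥(Cfsg.pCore 2 G) :=
        Nat.mul_lt_mul_of_pos_left h2 Nat.card_pos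
      _ = _ := (Subgroup.card_eq_card_quotient_mul_card_subgroup _).symm
  obtain ⟨q, _, ⟨v, rfl⟩, ho, hi, hw⟩ := exists_bad (W := W) fun hS =>
    d.minG _ W hcard (elem d _) hWne hS (by rw [Cores.pCore_quotient_pCore_eq_bot, inf_bot_eq])
  obtain ⟨h, ho', hi', hq⟩ := exists_lift π (QuotientGroup.mk'_surjective _) (d.sq _ v.2) ho hi
  obtain ⟨w, hwV, hw1, hwh⟩ := d.sidki h v v.2 ho' hi'
  refine hw1 (mem_bot.1 (d.disj ▸ ⟨hwV, ?_⟩ : w ∈ (⊥ : Subgroup G)))
  refine (QuotientGroup.eq_one_iff w).1 (hw (π w) ⟨⟨w, hwV⟩, rfl⟩ ?_)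
  obtain ⟨k, rfl⟩ := mem_zpowers_iff.1 hq
  exact (((show Commute w h from hwh).map π).zpow_right k).eq

/-- Subnormal 2-subgroups are trivial. -/
theorem subnormal_eq_bot {X : Subgroup G} (hX : X.IsSubnormal) (hX2 : IsPGroup 2 ↥X) : X = ⊥ := by
  have : Fact (Nat.Prime 2) := ⟨Nat.prime_two⟩
  exact le_bot_iff.1 (pCore_eq_bot d ▸ Components.subnormal_le_pCore hX hX2)

/-- A non-Sidki witness inside a subnormal subgroup `Y` normalized by `U ≤ V` acting faithfully. -/
theorem bad_sub {U Y : Subgroup G} (hUV : U ≤ V) (hU1 : U ≠ ⊥)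
    (hUY : U ≤ normalizer (Y : Set G)) (hY : Y.IsSubnormal)
    (hf : ∀ u ∈ U, (∀ y ∈ Y, u * y = y * u) → u = 1)
    (hor : U ⊔ Y ≠ ⊤ ∨ Nat.card ↥U < Nat.card ↥V) :
    ∃ h ∈ Y, ∃ v ∈ U, Odd (orderOf h) ∧ v * h * v⁻¹ = h⁻¹ ∧
      ∀ w ∈ U, w * h = h * w → w = 1 := by
  have : Fact (Nat.Prime 2) := ⟨Nat.prime_two⟩
  have hmem : ∀ {h : G}, h ∈ U ⊔ Y → Odd (orderOf h) → h ∈ Y := by
    intro h hh ho
    rw [← SetLike.mem_coe, coe_mul_of_left_le_normalizer_right U Y hUY] at hh
    obtain ⟨u, hu, y, hy, rfl⟩ := hh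
    have hN : Y ≤ normalizer (Y : Set G) := le_normalizer
    have hmemN : u * y ∈ normalizer (Y : Set G) := mul_mem (hUY hu) (hN hy)
    have := map_eq_one_of_odd (QuotientGroup.mk' (Y.subgroupOf (normalizer (Y : Set G))))
      (h := ⟨u * y, hmemN⟩) (by rwa [orderOf_mk]) (by
        rw [← map_mul, QuotientGroup.mk'_apply, QuotientGroup.eq_one_iff, mem_subgroupOf]
        show u * y * (u * y) ∈ Y
        rw [show u * y * (u * y) = (u * y * u⁻¹) * (u * u) * y by group, d.sq u (hUV hu), mul_one]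
        exact mul_mem ((mem_normalizer_iff.1 (hUY hu) y).1 hy) hy)
    exact mem_subgroupOf.1 ((QuotientGroup.eq_one_iff (N := Y.subgroupOf (normalizer (Y : Set G)))
      (⟨u * y, hmemN⟩ : ↥(normalizer (Y : Set G)))).1 this)
  by_cases hlt : U ⊔ Y = ⊤
  · have hUc := hor.resolve_left (not_not.2 hlt)
    obtain ⟨h, v, hv, ho, hi, hw⟩ := exists_bad (W := U) fun hS =>
      d.minV U hUc (elem_sub d hUV) hU1 hS (by rw [pCore_eq_bot d, inf_bot_eq])
    exact ⟨h, hmem (hlt ▸ mem_top h) ho, v, hv, ho, hi, hw⟩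
  · set H := U ⊔ Y with hH
    have hcard : Nat.card ↥H < Nat.card G :=
      lt_of_le_of_ne (Subgroup.card_le_card_group H) fun he => hlt (eq_top_of_card_eq H he)
    have hUH : U ≤ H := le_sup_left
    have hYH : Y ≤ H := le_sup_right
    set W := U.subgroupOf H with hW
    have hWe : Cfsg.IsElementaryAbelian 2 W :=
      ⟨⟨⟨fun a b => Subtype.ext (Subtype.ext (d.comm _ (hUV a.2) _ (hUV b.2)))⟩⟩,
        fun a ha => Subtype.ext (by
          rw [SubmonoidClass.coe_pow, pow_two]; exact d.sq _ (hUV ha))⟩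
    have hWne : W ≠ ⊥ := fun h => hU1 (by
      rwa [hW, subgroupOf_eq_bot, disjoint_iff, inf_eq_left.2 hUH] at h)
    have hYn : (Y.subgroupOf H).Normal :=
      normal_subgroupOf_of_le_normalizer (sup_le hUY le_normalizer)
    have hdis : W ⊓ Cfsg.pCore 2 ↥H = ⊥ := by
      rw [eq_bot_iff]
      rintro ⟨u, hu⟩ ⟨huW, huO⟩
      refine mem_bot.2 (Subtype.ext (hf u huW fun y hy => ?_))
      have hint : (Cfsg.pCore 2 ↥H ⊓ Y.subgroupOf H).map H.subtype = ⊥ := by
        refine subnormal_eq_bot d ?_ ((Cores.pCore_isPGroup.to_le inf_le_left).map _)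
        have hle : (Cfsg.pCore 2 ↥H ⊓ Y.subgroupOf H).map H.subtype ≤ Y := by
          rintro _ ⟨x, hx, rfl⟩
          exact hx.2
        have h1 : (((Cfsg.pCore 2 ↥H ⊓ Y.subgroupOf H).map H.subtype).subgroupOf Y).Normal := by
          refine (normal_subgroupOf_iff hle).2 ?_
          rintro x y' ⟨x', hx', rfl⟩ hy'
          exact ⟨_, (inferInstance : (Cfsg.pCore 2 ↥H ⊓ Y.subgroupOf H).Normal).conj_mem x' hx'
            ⟨y', hYH hy'⟩, rfl⟩
        have h2 := Subgroup.IsSubnormal.trans' h1.isSubnormal hY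
        rwa [map_subgroupOf_eq_of_le hle] at h2
      rw [map_eq_bot_iff_of_injective _ H.subtype_injective] at hint
      have h1 : (⟨u, hu⟩ : ↥H) * ⟨y, hYH hy⟩ * (⟨u, hu⟩ : ↥H)⁻¹ * (⟨y, hYH hy⟩ : ↥H)⁻¹ ∈
          Cfsg.pCore 2 ↥H ⊓ Y.subgroupOf H := by
        refine Subgroup.mem_inf.2 ⟨?_, mul_mem (hYn.conj_mem _ hy _) (inv_mem (show (⟨y, hYH hy⟩ : ↥H) ∈ Y.subgroupOf H
          from hy))⟩
        have hn : (Cfsg.pCore 2 ↥H).Normal := inferInstance
        rw [mul_assoc, mul_assoc, ← mul_assoc (⟨y, hYH hy⟩ : ↥H)]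
        exact mul_mem huO (hn.conj_mem _ (inv_mem huO) _)
      rw [hint, mem_bot] at h1
      exact mul_inv_eq_iff_eq_mul.1 (mul_inv_eq_one.1 (congrArg Subtype.val h1))
    obtain ⟨q, v, hv, ho, hi, hw⟩ := exists_bad (W := W) fun hS => d.minG _ W hcard hWe hWne hS hdis
    refine ⟨q, hmem q.2 (by rwa [orderOf_coe]), v, hv, by rwa [orderOf_coe],
      congrArg Subtype.val hi, fun w hwU he => ?_⟩
    exact congrArg Subtype.val (hw ⟨w, hUH hwU⟩ hwU (Subtype.ext he))

omit d

/-- Averaging: in an abelian group of odd order a crossed homomorphism of a finite 2-group splits. -/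
theorem exists_fixed_in_coset {N : Subgroup G} [hN : N.Normal]
    (hNc : ∀ a ∈ N, ∀ b ∈ N, a * b = b * a) (hNo : Odd (Nat.card ↥N)) {W : Subgroup G}
    (hW2 : IsPGroup 2 ↥W) {h v : G} (hWh : ∀ w ∈ W, w * h * w⁻¹ * h⁻¹ ∈ N)
    (hi : v * h * v⁻¹ = h⁻¹) (hvW : ∀ w ∈ W, v * w = w * v) (hNh : ∀ a ∈ N, h * a = a * h) :
    ∃ m ∈ N, (∀ w ∈ W, w * (m * h) * w⁻¹ = m * h) ∧ v * m * v⁻¹ = m⁻¹ := by
  classical
  have : Fintype ↥W := Fintype.ofFinite _
  let _ : CommGroup ↥N :=
    { (inferInstance : Group ↥N) with mul_comm := fun a b => Subtype.ext (hNc _ a.2 _ b.2) }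
  let f : ↥W → ↥N := fun w => ⟨(w : G) * h * (w : G)⁻¹ * h⁻¹, hWh w w.2⟩
  let conjN : G → ↥N →* ↥N := fun g =>
    { toFun := fun a => ⟨g * a * g⁻¹, hN.conj_mem _ a.2 g⟩
      map_one' := Subtype.ext (by simp)
      map_mul' := fun a b => Subtype.ext (by simp [mul_assoc]) }
  have hcoc : ∀ s t : ↥W, f (s * t) = conjN s (f t) * f s := fun s t => Subtype.ext (by
    show ((s : G) * t) * h * ((s : G) * t)⁻¹ * h⁻¹ =
      (s : G) * ((t : G) * h * (t : G)⁻¹ * h⁻¹) * (s : G)⁻¹ * ((s : G) * h * (s : G)⁻¹ * h⁻¹)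
    group)
  set M := ∏ t, f t with hM
  have hsM : ∀ s : ↥W, M = conjN s M * f s ^ Fintype.card ↥W := by
    intro s
    rw [hM, map_prod]
    conv_lhs => rw [← Equiv.prod_comp (Equiv.mulLeft s) f]
    simp only [Equiv.coe_mulLeft, hcoc, Finset.prod_mul_distrib, Finset.prod_const,
      Finset.card_univ]
  have hcop : (Fintype.card ↥W).Coprime (Nat.card ↥N) := by
    have : Fact (Nat.Prime 2) := ⟨Nat.prime_two⟩
    obtain ⟨a, ha⟩ := hW2.exists_card_eq
    rw [← Nat.card_eq_fintype_card, ha]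
    exact Nat.Coprime.pow_left _ (Nat.coprime_two_left.2 hNo)
  obtain ⟨k, hk⟩ : ∃ k : ℕ, ∀ a : ↥N, (a ^ Fintype.card ↥W) ^ k = a := by
    obtain ⟨u, hu⟩ := (Nat.exists_mul_mod_eq_one_of_coprime (n := Fintype.card ↥W)
      (k := Nat.card ↥N * 3) (Nat.Coprime.mul_right hcop (by
        have : Fact (Nat.Prime 2) := ⟨Nat.prime_two⟩
        obtain ⟨a, ha⟩ := hW2.exists_card_eq
        rw [← Nat.card_eq_fintype_card, ha]
        exact Nat.Coprime.pow_left _ (by norm_num))) (by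
        have := Nat.card_pos (α := ↥N); omega))
    refine ⟨u, fun a => ?_⟩
    rw [← pow_mul, ← Nat.mod_add_div (Fintype.card ↥W * u) (Nat.card ↥N * 3), hu.2, pow_add, pow_one,
      mul_assoc, pow_mul, pow_card_eq_one', one_pow, mul_one]
  refine ⟨(M ^ k : ↥N), (M ^ k).2, fun w hw => ?_, ?_⟩
  · have h1 := congrArg (fun a : ↥N => a ^ k) (hsM ⟨w, hw⟩)
    simp only [mul_pow, hk, ← map_pow] at h1
    have h2 : ((M ^ k : ↥N) : G) = w * ((M ^ k : ↥N) : G) * w⁻¹ * (w * h * w⁻¹ * h⁻¹) :=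
      congrArg Subtype.val h1
    conv_rhs => rw [h2]
    group
  · have hfv : ∀ t : ↥W, conjN v (f t) = (f t)⁻¹ := fun t => Subtype.ext (by
      show v * ((t : G) * h * (t : G)⁻¹ * h⁻¹) * v⁻¹ = ((t : G) * h * (t : G)⁻¹ * h⁻¹)⁻¹
      calc v * ((t : G) * h * (t : G)⁻¹ * h⁻¹) * v⁻¹
          = ((t : G) * (v * h * v⁻¹) * (t : G)⁻¹) * (v * h * v⁻¹)⁻¹ := by
            have e := hvW t t.2
            calc v * ((t : G) * h * (t : G)⁻¹ * h⁻¹) * v⁻¹
                = (v * t) * h * (v * t)⁻¹ * (v * h⁻¹ * v⁻¹) := by group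
              _ = ((t : G) * v) * h * ((t : G) * v)⁻¹ * (v * h⁻¹ * v⁻¹) := by rw [e]
              _ = _ := by group
        _ = (t : G) * h⁻¹ * (t : G)⁻¹ * h := by rw [hi, inv_inv]
        _ = h⁻¹ * (((t : G) * h * (t : G)⁻¹ * h⁻¹)⁻¹ * h) := by group
        _ = _ := by rw [← hNh _ (inv_mem (hWh t t.2)), inv_mul_cancel_left])
    have h1 : conjN v (M ^ k) = (M ^ k)⁻¹ := by
      rw [map_pow, hM, map_prod, Finset.prod_congr rfl (fun t _ => hfv t), Finset.prod_inv_distrib,
        inv_pow]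
    exact congrArg Subtype.val h1

include d

/-- An inverted element of an odd abelian normal subgroup with trivial centralizer in `W`. -/
theorem exists_inverted {N W : Subgroup G} [hN : N.Normal]
    (hNc : ∀ a ∈ N, ∀ b ∈ N, a * b = b * a) (hNo : Odd (Nat.card ↥N)) (hW : W ≤ V)
    (hf : ∀ w ∈ W, (∀ a ∈ N, w * a = a * w) → w = 1) {v : G} (hv : v ∈ V) :
    ∃ w' ∈ W, ∃ n ∈ N, (v * w') * n * (v * w')⁻¹ = n⁻¹ ∧ ∀ w ∈ W, w * n = n * w → w = 1 := by
  classical
  obtain ⟨⟨w', n⟩, ⟨hw', hn, hi⟩, hmin⟩ := Set.exists_min_image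
    {x : G × G | x.1 ∈ W ∧ x.2 ∈ N ∧ (v * x.1) * x.2 * (v * x.1)⁻¹ = x.2⁻¹}
    (fun x => Nat.card ↥(W ⊓ centralizer {x.2})) (Set.toFinite _)
    ⟨(1, 1), one_mem _, one_mem _, by group⟩
  refine ⟨w', hw', n, hn, hi, fun w hw hwn => ?_⟩
  by_contra hw1
  obtain ⟨a, ha, hwa⟩ : ∃ a ∈ N, w * a ≠ a * w := by
    by_contra h
    simp only [not_exists, not_and, not_not] at h
    exact hw1 (hf w hw h)
  have hodd : ∀ x ∈ N, x * x = 1 → x = 1 := fun x hx h => by
    obtain ⟨j, hj⟩ := hNo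
    have h1 : x ^ Nat.card ↥N = 1 := congrArg Subtype.val (pow_card_eq_one' (x := (⟨x, hx⟩ : ↥N)))
    rwa [hj, pow_succ, pow_mul, pow_two, h, one_pow, one_mul] at h1
  set z := a * (w * a * w⁻¹)⁻¹ with hz
  have hzN : z ∈ N := mul_mem ha (inv_mem (hN.conj_mem _ ha w))
  have hww := d.sq w (hW hw)
  have hwi : w⁻¹ = w := inv_eq_of_mul_eq_one_right hww
  have hwz : w * z * w⁻¹ = z⁻¹ := by
    rw [hz]
    calc w * (a * (w * a * w⁻¹)⁻¹) * w⁻¹ = (w * a * w⁻¹) * ((w * w) * a⁻¹ * (w * w)⁻¹) := by group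
      _ = (a * (w * a * w⁻¹)⁻¹)⁻¹ := by rw [hww]; group
  have hz1 : z ≠ 1 := fun h => hwa (by
    rw [hz, mul_inv_eq_one] at h
    calc w * a = (w * a * w⁻¹) * w := by group
      _ = a * w := by rw [← h])
  -- arrange that the inverter also inverts a suitable `z'`
  obtain ⟨u, hu, hun, z', hz'N, hz'1, huz, hwz'⟩ : ∃ u ∈ W, (v * u) * n * (v * u)⁻¹ = n⁻¹ ∧
      ∃ z' ∈ N, z' ≠ 1 ∧ (v * u) * z' * (v * u)⁻¹ = z'⁻¹ ∧ w * z' * w⁻¹ = z'⁻¹ := by
    set s := v * w' with hs
    have hss : s * s = 1 := d.sq s (mul_mem hv (hW hw'))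
    have hsw : s * w = w * s := d.comm s (mul_mem hv (hW hw')) w (hW hw)
    by_cases hfix : s * z * s⁻¹ = z
    · refine ⟨w' * w, mul_mem hw' hw, ?_, z, hzN, hz1, ?_, hwz⟩
      · rw [show v * (w' * w) = s * w by rw [hs, mul_assoc]]
        calc s * w * n * (s * w)⁻¹ = s * (w * n * w⁻¹) * s⁻¹ := by group
          _ = s * n * s⁻¹ := by rw [hwn, mul_inv_cancel_right]
          _ = n⁻¹ := hi
      · rw [show v * (w' * w) = s * w by rw [hs, mul_assoc]]
        calc s * w * z * (s * w)⁻¹ = s * (w * z * w⁻¹) * s⁻¹ := by group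
          _ = (s * z * s⁻¹)⁻¹ := by rw [hwz]; group
          _ = z⁻¹ := by rw [hfix]
    · have hsz : s * z * s⁻¹ ∈ N := hN.conj_mem _ hzN s
      refine ⟨w', hw', hi, z * (s * z * s⁻¹)⁻¹, mul_mem hzN (inv_mem hsz),
        fun h => hfix (mul_inv_eq_one.1 h).symm, ?_, ?_⟩
      · calc s * (z * (s * z * s⁻¹)⁻¹) * s⁻¹ = (s * z * s⁻¹) * ((s * s) * z⁻¹ * (s * s)⁻¹) := by group
          _ = (z * (s * z * s⁻¹)⁻¹)⁻¹ := by rw [hss]; group
      · calc w * (z * (s * z * s⁻¹)⁻¹) * w⁻¹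
            = (w * z * w⁻¹) * ((w * s) * z * (w * s)⁻¹)⁻¹ := by group
          _ = (w * z * w⁻¹) * ((s * w) * z * (s * w)⁻¹)⁻¹ := by rw [hsw]
          _ = (w * z * w⁻¹) * (s * (w * z * w⁻¹) * s⁻¹)⁻¹ := by group
          _ = z⁻¹ * (s * z * s⁻¹) := by rw [hwz]; group
          _ = (z * (s * z * s⁻¹)⁻¹)⁻¹ := by rw [hNc _ (inv_mem hzN) _ hsz]; group
  have hnew : (v * u) * (n * z') * (v * u)⁻¹ = (n * z')⁻¹ := by
    calc (v * u) * (n * z') * (v * u)⁻¹
        = ((v * u) * n * (v * u)⁻¹) * ((v * u) * z' * (v * u)⁻¹) := by group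
      _ = (n * z')⁻¹ := by rw [hun, huz, hNc _ hn _ hz'N, mul_inv_rev]
  have hle := hmin (u, n * z') ⟨hu, mul_mem hn hz'N, hnew⟩
  have hsub : W ⊓ centralizer {n * z'} < W ⊓ centralizer {n} := by
    refine lt_of_le_not_ge ?_ fun hge => ?_
    · intro x hx
      have hxW := hx.1
      have hxc := mem_centralizer_singleton_iff.1 hx.2
      refine ⟨hxW, mem_centralizer_singleton_iff.2 ?_⟩
      set e := (x * n * x⁻¹)⁻¹ * n with he
      have he' : e = (x * z' * x⁻¹) * z'⁻¹ := by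
        rw [he]
        have h1 : (x * n * x⁻¹) * (x * z' * x⁻¹) = n * z' := by
          calc (x * n * x⁻¹) * (x * z' * x⁻¹) = x * (n * z') * x⁻¹ := by group
            _ = n * z' := by rw [hxc, mul_inv_cancel_right]
        rw [eq_mul_inv_iff_mul_eq, mul_assoc, ← h1, inv_mul_cancel_left]
      have hxw : x * w = w * x := d.comm x (hW hxW) w (hW hw)
      have hfixe : w * e * w⁻¹ = e := by
        rw [he]
        calc w * ((x * n * x⁻¹)⁻¹ * n) * w⁻¹
            = ((w * x) * n * (w * x)⁻¹)⁻¹ * (w * n * w⁻¹) := by group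
          _ = (x * (w * n * w⁻¹) * x⁻¹)⁻¹ * (w * n * w⁻¹) := by rw [← hxw]; group
          _ = _ := by rw [hwn, mul_inv_cancel_right]
      have hinve : w * e * w⁻¹ = e⁻¹ := by
        rw [he']
        calc w * ((x * z' * x⁻¹) * z'⁻¹) * w⁻¹
            = ((w * x) * z' * (w * x)⁻¹) * (w * z' * w⁻¹)⁻¹ := by group
          _ = (x * (w * z' * w⁻¹) * x⁻¹) * (w * z' * w⁻¹)⁻¹ := by rw [← hxw]; group
          _ = (x * z' * x⁻¹)⁻¹ * z' := by rw [hwz']; group
          _ = z' * (x * z' * x⁻¹)⁻¹ := hNc _ (inv_mem (hN.conj_mem _ hz'N x)) _ hz'N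
          _ = _ := by group
      have he1 : e = 1 := hodd e (mul_mem (inv_mem (hN.conj_mem _ hn x)) hn) (by
        nth_rw 1 [← hfixe]
        rw [hinve, inv_mul_cancel])
      rw [he, inv_mul_eq_one] at he1
      calc x * n = (x * n * x⁻¹) * x := by group
        _ = n * x := by rw [he1]
    · have h1 := mem_centralizer_singleton_iff.1 (hge ⟨hw, mem_centralizer_singleton_iff.2 hwn⟩).2
      refine hz'1 (hodd z' hz'N ?_)
      have h2 : w * z' * w⁻¹ = z' := by
        calc w * z' * w⁻¹ = (w * n * w⁻¹)⁻¹ * (w * (n * z') * w⁻¹) := by group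
          _ = z' := by rw [h1, hwn, mul_inv_cancel_right, mul_inv_cancel_right, inv_mul_cancel_left]
      nth_rw 1 [← h2]
      rw [hwz', inv_mul_cancel]
  exact absurd hle (not_le.2 (Fusion.card_lt_card hsub))

/-- There is no nontrivial abelian normal subgroup. -/
theorem abelian_eq_bot (N : Subgroup G) [hN : N.Normal]
    (hNc : ∀ a ∈ N, ∀ b ∈ N, a * b = b * a) : N = ⊥ := by
  classical
  by_contra hne
  have : Fact (Nat.Prime 2) := ⟨Nat.prime_two⟩
  have hNo : Odd (Nat.card ↥N) := by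
    by_contra he
    obtain ⟨x, hx⟩ := exists_prime_orderOf_dvd_card' 2 (G := ↥N)
      (even_iff_two_dvd.1 (Nat.not_odd_iff_even.1 he))
    let T : Subgroup G :=
      { carrier := {a | a ∈ N ∧ a * a = 1}
        one_mem' := ⟨one_mem _, one_mul 1⟩
        mul_mem' := fun {a b} ha hb => ⟨mul_mem ha.1 hb.1, by
          calc a * b * (a * b) = a * (b * a) * b := by group
            _ = (a * a) * (b * b) := by rw [hNc b hb.1 a ha.1]; group
            _ = 1 := by rw [ha.2, hb.2, one_mul]⟩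
        inv_mem' := fun {a} ha => ⟨inv_mem ha.1, by rw [← mul_inv_rev, ha.2, inv_one]⟩ }
    have hTn : T.Normal := ⟨fun a ha g => ⟨hN.conj_mem a ha.1 g, by
      calc g * a * g⁻¹ * (g * a * g⁻¹) = g * (a * a) * g⁻¹ := by group
        _ = 1 := by rw [ha.2]; group⟩⟩
    have hT := subnormal_eq_bot d hTn.isSubnormal (fun a => ⟨1, Subtype.ext (by
      rw [pow_one, pow_two]; exact a.2.2)⟩)
    have hxT : (x : G) ∈ T := ⟨x.2, by
      rw [← pow_two, ← SubmonoidClass.coe_pow, ← hx, pow_orderOf_eq_one]; rfl⟩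
    rw [hT, mem_bot] at hxT
    rw [show x = 1 from Subtype.ext hxT, orderOf_one] at hx
    exact absurd hx (by norm_num)
  have hodd1 : ∀ x ∈ N, x * x = 1 → x = 1 := fun x hx h => by
    obtain ⟨j, hj⟩ := hNo
    have h1 : x ^ Nat.card ↥N = 1 := congrArg Subtype.val (pow_card_eq_one' (x := (⟨x, hx⟩ : ↥N)))
    rwa [hj, pow_succ, pow_mul, pow_two, h, one_pow, one_mul] at h1
  set C := centralizer (N : Set G) with hC
  have hCn : C.Normal := normal_centralizer
  have hNC : N ≤ C := fun a ha => mem_centralizer_iff.2 fun b hb => hNc b hb a ha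
  set π := QuotientGroup.mk' N with hπ
  have hcore : ∀ R : Subgroup G, R.Normal → N ≤ R → R ≤ C → IsPGroup 2 ↥(R.map π) → R ≤ N := by
    intro R hR hNR hRC hR2
    set N' := N.subgroupOf R with hN'
    have hN'c : N' ≤ Subgroup.center ↥R := fun a ha => mem_center_iff.2 fun b =>
      Subtype.ext (mem_centralizer_iff.1 (hRC b.2) _ ha).symm
    obtain ⟨T⟩ : Nonempty (Sylow 2 ↥R) := inferInstance
    have htop : (T : Subgroup ↥R) ⊔ N' = ⊤ := by
      rw [← index_eq_one]
      refine Nat.eq_one_of_dvd_coprimes ?_ (index_dvd_of_le le_sup_left) (index_dvd_of_le le_sup_right)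
      have hidx : N'.index = Nat.card ↥(R.map π) := by
        rw [hN', ← relIndex, ← relIndex_ker (K := R) π, QuotientGroup.ker_mk']
      obtain ⟨m, hm⟩ := hR2.exists_card_eq
      rw [hidx, hm]
      exact Nat.Coprime.pow_right _ (Nat.coprime_comm.1 (Nat.prime_two.coprime_iff_not_dvd.2 T.not_dvd_index))
    have hTn : (T : Subgroup ↥R).Normal := by
      rw [← normalizer_eq_top_iff, ← top_le_iff, ← htop]
      exact sup_le le_normalizer (hN'c.trans (center_le_normalizer _))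
    have hT : (T : Subgroup ↥R).map R.subtype = ⊥ :=
      subnormal_eq_bot d (Subgroup.IsSubnormal.trans' hTn.isSubnormal hR.isSubnormal) (T.2.map _)
    rw [map_eq_bot_iff_of_injective _ R.subtype_injective] at hT
    rw [hT, bot_sup_eq, hN', subgroupOf_eq_top] at htop
    exact htop
  -- the kernel `V₂` of `V` on `C / N`
  set V₂ := V ⊓ (centralizer ((C.map π : Subgroup (G ⧸ N)) : Set (G ⧸ N))).comap π with hV₂
  have hV₂iff : ∀ w, w ∈ V₂ ↔ w ∈ V ∧ ∀ c ∈ C, w * c * w⁻¹ * c⁻¹ ∈ N := by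
    intro w
    refine and_congr_right fun _ => ?_
    show π w ∈ centralizer _ ↔ _
    rw [mem_centralizer_iff]
    constructor
    · intro h c hc
      have h1 := h (π c) ⟨c, hc, rfl⟩
      rw [← QuotientGroup.eq_one_iff, ← QuotientGroup.mk'_apply, ← hπ, map_mul, map_mul, map_mul,
        map_inv, map_inv, ← h1, mul_inv_cancel_right, mul_inv_cancel]
    · rintro h _ ⟨c, hc, rfl⟩
      have h1 : π (w * c * w⁻¹ * c⁻¹) = 1 := (QuotientGroup.eq_one_iff _).2 (h c hc)
      rw [map_mul, map_mul, map_mul, map_inv, map_inv, mul_inv_eq_one, mul_inv_eq_iff_eq_mul] at h1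
      exact h1.symm
  -- `V₂` is faithful on `N`
  have hfaith : ∀ w ∈ V₂, (∀ a ∈ N, w * a = a * w) → w = 1 := by
    intro w hw hwa
    obtain ⟨hwV, hwc⟩ := (hV₂iff w).1 hw
    set R := (center ↥(C.map π)).map (C.map π).subtype with hR
    have hRn : R.Normal := Cores.normal_map_subtype_of_characteristic _
    have hwC : w ∈ C := mem_centralizer_iff.2 fun a ha => (hwa a ha).symm
    let T : Subgroup (G ⧸ N) :=
      { carrier := {a | a ∈ R ∧ a * a = 1}
        one_mem' := ⟨one_mem _, one_mul 1⟩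
        mul_mem' := fun {a b} ha hb => ⟨mul_mem ha.1 hb.1, by
          obtain ⟨a', ha', rfl⟩ := ha.1
          obtain ⟨b', hb', rfl⟩ := hb.1
          have e : (a' : G ⧸ N) * b' = b' * a' := congrArg Subtype.val (mem_center_iff.1 hb' a')
          calc (a' : G ⧸ N) * b' * (a' * b') = (a' : G ⧸ N) * (b' * a') * b' := by group
            _ = ((a' : G ⧸ N) * a') * (b' * b') := by rw [← e]; group
            _ = 1 := by
              have h1 : (a' : G ⧸ N) * a' = 1 := ha.2
              have h2 : (b' : G ⧸ N) * b' = 1 := hb.2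
              rw [h1, h2, one_mul]⟩
        inv_mem' := fun {a} ha => ⟨inv_mem ha.1, by rw [← mul_inv_rev, ha.2, inv_one]⟩ }
    have hTn : T.Normal := ⟨fun a ha g => ⟨hRn.conj_mem a ha.1 g, by
      calc g * a * g⁻¹ * (g * a * g⁻¹) = g * (a * a) * g⁻¹ := by group
        _ = 1 := by rw [ha.2]; group⟩⟩
    have hT2 : IsPGroup 2 ↥T := fun a => ⟨1, Subtype.ext (by rw [pow_one, pow_two]; exact a.2.2)⟩
    have hle : T.comap π ≤ N := by
      refine hcore _ inferInstance (fun a ha => ?_) (fun a ha => ?_) (hT2.to_le ?_)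
      · show π a ∈ T
        rw [hπ, QuotientGroup.mk'_apply, (QuotientGroup.eq_one_iff a).2 ha]
        exact one_mem _
      · obtain ⟨x, -, hx⟩ := (ha : π a ∈ T).1
        obtain ⟨c, hc, hcx⟩ := x.2
        have h1 : π (c⁻¹ * a) = 1 := by rw [map_mul, map_inv, hcx, ← hx]; exact inv_mul_cancel _
        have := mul_mem hc (hNC ((QuotientGroup.eq_one_iff _).1 h1))
        rwa [mul_inv_cancel_left] at this
      · exact map_comap_le π T
    have hwT : π w ∈ T := by
      refine ⟨⟨⟨π w, w, hwC, rfl⟩, mem_center_iff.2 fun x => Subtype.ext ?_, rfl⟩, by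
        rw [← map_mul, d.sq w hwV, map_one]⟩
      obtain ⟨c, hc, hcx⟩ := x.2
      show (x : G ⧸ N) * π w = π w * x
      rw [← hcx]
      have h1 : π (w * c * w⁻¹ * c⁻¹) = 1 := (QuotientGroup.eq_one_iff _).2 (hwc c hc)
      rw [map_mul, map_mul, map_mul, map_inv, map_inv, mul_inv_eq_one, mul_inv_eq_iff_eq_mul] at h1
      exact h1.symm
    exact hodd1 w (hle hwT) (d.sq w hwV)
  -- a witness in `C / N` for `V / V₂`
  obtain ⟨h, hhC, v, hv, ho, hi, hbad⟩ : ∃ h ∈ C, ∃ v ∈ V, Odd (orderOf h) ∧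
      v * h * v⁻¹ = h⁻¹ ∧ ∀ w ∈ V, w * h * w⁻¹ * h⁻¹ ∈ N → w ∈ V₂ := by
    by_cases hVV : V ≤ V₂
    · exact ⟨1, one_mem _, 1, one_mem _, by simp, by group, fun w hw _ => hVV hw⟩
    set H := V.map π ⊔ C.map π with hH
    set K := (V₂.map π).subgroupOf H with hK
    have hKc : K ≤ Subgroup.center ↥H := by
      rintro ⟨k, hkH⟩ ⟨w, hw, rfl⟩
      refine mem_center_iff.2 fun x => Subtype.ext ?_
      have hle : H ≤ centralizer ({π w} : Set (G ⧸ N)) := sup_le
        (by
          rintro _ ⟨y, hy, rfl⟩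
          exact mem_centralizer_singleton_iff.2 (by rw [← map_mul, ← map_mul, d.comm y hy w hw.1]))
        (by
          intro y hy
          exact mem_centralizer_singleton_iff.2 (mem_centralizer_iff.1 hw.2 y hy))
      exact mem_centralizer_singleton_iff.1 (hle x.2)
    have hKn : K.Normal := ⟨fun k hk g => by
      rw [mem_center_iff.1 (hKc hk) g, mul_inv_cancel_right]; exact hk⟩
    have hVH : ∀ w ∈ V, π w ∈ H := fun w hw => le_sup_left (b := C.map π) ⟨w, hw, rfl⟩
    set g : ↥(V ⊔ C) →* ↥H ⧸ K := (QuotientGroup.mk' K).comp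
      ((π.comp (V ⊔ C).subtype).codRestrict H fun x => by
        rw [hH, ← Subgroup.map_sup]; exact ⟨x, x.2, rfl⟩) with hg
    have hgsurj : Function.Surjective g := by
      intro y
      obtain ⟨⟨y', hy'⟩, rfl⟩ := QuotientGroup.mk'_surjective K y
      rw [hH, ← Subgroup.map_sup] at hy'
      obtain ⟨x, hx, rfl⟩ := hy'
      exact ⟨⟨x, hx⟩, rfl⟩
    have hgone : ∀ w (hw : w ∈ V), g ⟨w, le_sup_left (b := C) hw⟩ = 1 → w ∈ V₂ := by
      intro w hw h1
      obtain ⟨w₂, hw₂, he⟩ : π w ∈ V₂.map π :=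
        mem_subgroupOf.1 ((QuotientGroup.eq_one_iff (N := K) (⟨π w, hVH w hw⟩ : ↥H)).1 h1)
      have h2 : π (w₂⁻¹ * w) = 1 := by rw [map_mul, map_inv, he, inv_mul_cancel]
      have h3 := hodd1 _ ((QuotientGroup.eq_one_iff _).1 h2) (d.sq _ (mul_mem (inv_mem hw₂.1) hw))
      rw [inv_mul_eq_one] at h3
      exact h3 ▸ hw₂
    set W := (g.comp (Subgroup.inclusion (le_sup_left : V ≤ V ⊔ C))).range with hW
    have hWne : W ≠ ⊥ := fun h0 => hVV fun w hw => hgone w hw (by
      have h1 : g ⟨w, le_sup_left (b := C) hw⟩ ∈ W := ⟨⟨w, hw⟩, rfl⟩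
      rwa [h0, mem_bot] at h1)
    have hcard : Nat.card (↥H ⧸ K) < Nat.card G := by
      have h2 := one_lt_card_iff_ne_bot _ |>.2 hne
      have h3 : Nat.card (↥H ⧸ K) ≤ Nat.card ↥H :=
        Nat.card_le_card_of_surjective _ (QuotientGroup.mk'_surjective K)
      have h4 : Nat.card ↥H ≤ Nat.card (G ⧸ N) := Subgroup.card_le_card_group H
      have h5 : Nat.card G = Nat.card (G ⧸ N) * Nat.card ↥N :=
        Subgroup.card_eq_card_quotient_mul_card_subgroup _
      have h6 : 0 < Nat.card (G ⧸ N) := Nat.card_pos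
      nlinarith
    have hdis : W ⊓ Cfsg.pCore 2 (↥H ⧸ K) = ⊥ := by
      rw [eq_bot_iff]
      rintro _ ⟨⟨⟨w, hw⟩, rfl⟩, hwO⟩
      set P := (Cfsg.pCore 2 (↥H ⧸ K)).comap (QuotientGroup.mk' K) with hP
      have hP2 : IsPGroup 2 ↥P := by
        refine Cores.pCore_isPGroup.comap_of_ker_isPGroup _ ?_
        rw [QuotientGroup.ker_mk', hK]
        exact ((isPGroup_of_le d (inf_le_left : V₂ ≤ V)).map π).comap_subtype
      have hCH : C.map π ≤ H := le_sup_right
      have hCn' : ((C.map π).subgroupOf H).Normal :=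
        (hCn.map π (QuotientGroup.mk'_surjective N)).subgroupOf H
      set P' := P ⊓ (C.map π).subgroupOf H with hP'
      set T := P'.map H.subtype with hT
      have hTC : T ≤ C.map π := by
        rintro _ ⟨x, hx, rfl⟩
        exact hx.2
      have hTs : T.IsSubnormal := by
        have h1 : (T.subgroupOf (C.map π)).Normal := (normal_subgroupOf_iff hTC).2 (by
          rintro x c ⟨x', hx', rfl⟩ hc
          exact ⟨_, (inferInstance : P'.Normal).conj_mem x' hx' ⟨c, hCH hc⟩, rfl⟩)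
        have h2 := Subgroup.IsSubnormal.trans' h1.isSubnormal
          (hCn.map π (QuotientGroup.mk'_surjective N)).isSubnormal
        rwa [map_subgroupOf_eq_of_le hTC] at h2
      have hTb : T = ⊥ := by
        have hle : T ≤ Cfsg.pCore 2 (G ⧸ N) ⊓ C.map π :=
          le_inf (Components.subnormal_le_pCore hTs ((hP2.to_le inf_le_left).map _)) hTC
        refine le_bot_iff.1 (hle.trans ?_)
        intro x hx
        obtain ⟨c, hc, rfl⟩ := hx.2
        have hcN : c ∈ N := by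
          refine hcore ((Cfsg.pCore 2 (G ⧸ N)).comap π ⊓ C) inferInstance (le_inf (fun a ha => ?_) hNC)
            inf_le_right (Cores.pCore_isPGroup.to_le ?_) ⟨hx.1, hc⟩
          · refine mem_comap.2 ?_
            rw [hπ, QuotientGroup.mk'_apply, (QuotientGroup.eq_one_iff a).2 ha]
            exact one_mem _
          · exact (map_mono inf_le_left).trans (map_comap_le _ _)
        exact mem_bot.2 ((QuotientGroup.eq_one_iff c).2 hcN)
      have hwV₂ : w ∈ V₂ := (hV₂iff w).2 ⟨hw, fun c hc => by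
        set a : ↥H := ⟨π w, hVH w hw⟩ with ha
        set b : ↥H := ⟨π c, hCH ⟨c, hc, rfl⟩⟩ with hb
        have haP : a ∈ P := hwO
        have h1 : a * b * a⁻¹ * b⁻¹ ∈ P' := by
          refine Subgroup.mem_inf.2 ⟨?_, mul_mem (hCn'.conj_mem _ ⟨c, hc, rfl⟩ _) (inv_mem (⟨c, hc, rfl⟩ :
            b ∈ (C.map π).subgroupOf H))⟩
          rw [mul_assoc, mul_assoc, ← mul_assoc b]
          exact mul_mem haP ((inferInstance : P.Normal).conj_mem _ (inv_mem haP) b)
        have h2 : (H.subtype (a * b * a⁻¹ * b⁻¹) : G ⧸ N) ∈ T := ⟨_, h1, rfl⟩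
        rw [hTb, mem_bot] at h2
        refine (QuotientGroup.eq_one_iff _).1 ?_
        rw [← h2]
        rfl⟩
      exact mem_bot.2 ((QuotientGroup.eq_one_iff _).2 ⟨w, hwV₂, rfl⟩)
    obtain ⟨q, _, ⟨⟨v, hv⟩, rfl⟩, ho, hi, hw⟩ := exists_bad (W := W) fun hS =>
      d.minG _ W hcard (elem d _) hWne hS hdis
    obtain ⟨⟨h, hh⟩, ho', hi', hq⟩ := exists_lift g hgsurj
      (v := ⟨v, le_sup_left (b := C) hv⟩) (Subtype.ext (d.sq v hv)) ho hi
    rw [orderOf_mk] at ho'
    have hhC : h ∈ C := by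
      refine (QuotientGroup.eq_one_iff h).1 (map_eq_one_of_odd (QuotientGroup.mk' C) ho' ?_)
      rw [← SetLike.mem_coe, mul_normal V C] at hh
      obtain ⟨u, hu, c, hc, rfl⟩ := hh
      rw [← map_mul, QuotientGroup.mk'_apply, QuotientGroup.eq_one_iff,
        show u * c * (u * c) = (u * c * u⁻¹) * (u * u) * c by group, d.sq u hu, mul_one]
      exact mul_mem (hCn.conj_mem c hc u) hc
    refine ⟨h, hhC, v, hv, ho', congrArg Subtype.val hi', fun w hwV hwh => hgone w hwV
      (hw _ ⟨⟨w, hwV⟩, rfl⟩ ?_)⟩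
    obtain ⟨k, rfl⟩ := mem_zpowers_iff.1 hq
    refine (Commute.zpow_right ?_ k).eq
    refine congrArg (QuotientGroup.mk' K) (Subtype.ext ?_)
    show π w * π h = π h * π w
    have h1 : π (w * h * w⁻¹ * h⁻¹) = 1 := (QuotientGroup.eq_one_iff _).2 hwh
    rw [map_mul, map_mul, map_mul, map_inv, map_inv, mul_inv_eq_one, mul_inv_eq_iff_eq_mul] at h1
    exact h1
  -- fix the witness under `V₂`
  obtain ⟨m, hm, hmfix, hmv⟩ := exists_fixed_in_coset hNc hNo
    (isPGroup_of_le d (inf_le_left : V₂ ≤ V))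
    (fun w hw => ((hV₂iff w).1 hw).2 h hhC) hi (fun w hw => d.comm v hv w hw.1)
    (fun a ha => (mem_centralizer_iff.1 hhC a ha).symm)
  have hmh : m * h = h * m := mem_centralizer_iff.1 hhC m hm
  obtain ⟨w', hw', n, hn, hin, hnw⟩ := exists_inverted d hNc hNo inf_le_left hfaith hv
  -- the element without fixed points
  set x := n * (m * h) with hx
  have hxodd : Odd (orderOf x) := by
    have hc1 : Commute n (m * h) := mem_centralizer_iff.1 (mul_mem (hNC hm) hhC) n hn
    have hoN : ∀ a ∈ N, Odd (orderOf a) := fun a ha =>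
      hNo.of_dvd_nat (by
        have h1 := orderOf_dvd_natCard (⟨a, ha⟩ : ↥N)
        rwa [orderOf_mk] at h1)
    refine Odd.of_dvd_nat ?_ (hc1.orderOf_mul_dvd_lcm.trans (Nat.lcm_dvd_mul _ _))
    refine (hoN n hn).mul ?_
    refine Odd.of_dvd_nat ?_ ((show Commute m h from hmh).orderOf_mul_dvd_lcm.trans (Nat.lcm_dvd_mul _ _))
    exact (hoN m hm).mul ho
  have hxi : (v * w') * x * (v * w')⁻¹ = x⁻¹ := by
    have h1 : (v * w') * (m * h) * (v * w')⁻¹ = (m * h)⁻¹ := by
      calc (v * w') * (m * h) * (v * w')⁻¹ = v * (w' * (m * h) * w'⁻¹) * v⁻¹ := by group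
        _ = (v * m * v⁻¹) * (v * h * v⁻¹) := by rw [hmfix w' hw']; group
        _ = (m * h)⁻¹ := by rw [hmv, hi, hmh, mul_inv_rev]
    have hc1 : n * (m * h) = (m * h) * n := mem_centralizer_iff.1 (mul_mem (hNC hm) hhC) n hn
    calc (v * w') * x * (v * w')⁻¹
        = ((v * w') * n * (v * w')⁻¹) * ((v * w') * (m * h) * (v * w')⁻¹) := by rw [hx]; group
      _ = x⁻¹ := by rw [hin, h1, hx, hc1]; group
  obtain ⟨w, hwV, hw1, hwx⟩ := d.sidki x (v * w') (mul_mem hv hw'.1)
    hxodd hxi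
  have hwV₂ : w ∈ V₂ := hbad w hwV (by
    refine (QuotientGroup.eq_one_iff _).1 ?_
    have hnπ : π n = 1 := (QuotientGroup.eq_one_iff _).2 hn
    have hmπ : π m = 1 := (QuotientGroup.eq_one_iff _).2 hm
    have h1 := congrArg π hwx
    rw [hx] at h1
    simp only [map_mul, hnπ, hmπ, one_mul] at h1
    show π (w * h * w⁻¹ * h⁻¹) = 1
    rw [map_mul, map_mul, map_mul, map_inv, map_inv, h1, mul_inv_cancel_right, mul_inv_cancel])
  refine hw1 (hnw w hwV₂ ?_)
  have h1 := hmfix w hwV₂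
  calc w * n = (w * x) * w⁻¹ * (w * (m * h) * w⁻¹)⁻¹ * w := by rw [hx]; group
    _ = n * w := by rw [hwx, mul_inv_cancel_right, h1, hx, mul_inv_cancel_right]

/-- A centre-free normal subgroup is acted on faithfully by `V` and supplements it. -/
theorem normal_supplement (X : Subgroup G) [hX : X.Normal] (hX1 : X ≠ ⊥) :
    V ⊔ X = ⊤ ∧ ∀ v ∈ V, (∀ y ∈ X, v * y = y * v) → v = 1 := by
  set D := centralizer (X : Set G) with hD
  have hDn : D.Normal := normal_centralizer
  have hZ : X ⊓ D = ⊥ := by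
    have : (X ⊓ D).Normal := inferInstance
    exact abelian_eq_bot d _ fun a ha b hb => (mem_centralizer_iff.1 ha.2 b hb.1).symm
  have hfaith : ∀ v ∈ V, (∀ y ∈ X, v * y = y * v) → v = 1 := by
    intro v hv hvX
    by_contra hv1
    set V₁ := V ⊓ D with hV₁
    have hV₁ne : V₁ ≠ ⊥ := fun h => hv1 (mem_bot.1 (h ▸
      (⟨hv, mem_centralizer_iff.2 fun y hy => (hvX y hy).symm⟩ : v ∈ V₁)))
    have hf₁ : ∀ u ∈ V₁, (∀ y ∈ D, u * y = y * u) → u = 1 := by
      intro u hu huD
      have hn : (D ⊓ centralizer (D : Set G)).Normal := by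
        have : (centralizer (D : Set G)).Normal := normal_centralizer
        infer_instance
      have h0 := abelian_eq_bot d (D ⊓ centralizer (D : Set G))
        fun a ha b hb => (mem_centralizer_iff.1 ha.2 b hb.1).symm
      exact mem_bot.1 (h0 ▸ (⟨hu.2, mem_centralizer_iff.2 fun y hy => (huD y hy).symm⟩ :
        u ∈ D ⊓ centralizer (D : Set G)))
    have hDtop : V₁ ⊔ D ≠ ⊤ := by
      rw [sup_eq_right.2 (inf_le_right : V₁ ≤ D)]
      intro h
      refine hX1 (le_bot_iff.1 (hZ ▸ le_inf le_rfl (h ▸ le_top)))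
    obtain ⟨n, hnD, u, hu, hno, hni, hnw⟩ := bad_sub d (inf_le_left : V₁ ≤ V) hV₁ne
      (fun _ _ => normalizer_eq_top (h := hDn) ▸ mem_top _) hDn.isSubnormal hf₁ (Or.inl hDtop)
    set P := V ⊓ centralizer ({n} : Set G) with hP
    have hPV₁ : ∀ w ∈ P, (∀ y ∈ X, w * y = y * w) → w = 1 := fun w hw hwX =>
      hnw w ⟨hw.1, mem_centralizer_iff.2 fun y hy => (hwX y hy).symm⟩
        (mem_centralizer_singleton_iff.1 hw.2)
    by_cases hPb : P = ⊥
    · obtain ⟨w, hwV, hw1, hwn⟩ := d.sidki n u hu.1 hno hni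
      exact hw1 (mem_bot.1 (hPb ▸ (⟨hwV, mem_centralizer_singleton_iff.2 hwn⟩ : w ∈ P)))
    have hPV : Nat.card ↥P < Nat.card ↥V := Fusion.card_lt_card (lt_of_le_not_ge inf_le_left
      fun hge => hV₁ne ((eq_bot_iff_forall _).2 fun w hw =>
        hnw w hw (mem_centralizer_singleton_iff.1 (hge hw.1).2)))
    obtain ⟨h, hhX, p, hp, hho, hhi, hhw⟩ := bad_sub d (inf_le_left : P ≤ V) hPb
      (fun _ _ => normalizer_eq_top (h := hX) ▸ mem_top _) hX.isSubnormal hPV₁ (Or.inr hPV)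
    have hhn : h * n = n * h := mem_centralizer_iff.1 hnD h hhX
    have huh : u * h = h * u := (mem_centralizer_iff.1 hu.2 h hhX).symm
    have hpn : p * n = n * p := mem_centralizer_singleton_iff.1 hp.2
    have hxi : (p * u) * (h * n) * (p * u)⁻¹ = (h * n)⁻¹ := by
      calc (p * u) * (h * n) * (p * u)⁻¹
          = (p * (u * h * u⁻¹) * p⁻¹) * (p * (u * n * u⁻¹) * p⁻¹) := by group
        _ = (p * h * p⁻¹) * (p * n * p⁻¹)⁻¹ := by rw [huh, mul_inv_cancel_right, hni]; group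
        _ = (h * n)⁻¹ := by rw [hhi, hpn, mul_inv_cancel_right, hhn, mul_inv_rev]
    obtain ⟨w, hwV, hw1, hwx⟩ := d.sidki (h * n) (p * u) (mul_mem hp.1 hu.1)
      (Odd.of_dvd_nat (hho.mul hno) ((show Commute h n from hhn).orderOf_mul_dvd_lcm.trans
        (Nat.lcm_dvd_mul _ _))) hxi
    have hwhn : (w * h * w⁻¹)⁻¹ * h ∈ X ⊓ D := by
      refine Subgroup.mem_inf.2 ⟨mul_mem (inv_mem (hX.conj_mem h hhX w)) hhX, ?_⟩
      have h1 : (w * h * w⁻¹) * (w * n * w⁻¹) = h * n := by
        calc (w * h * w⁻¹) * (w * n * w⁻¹) = w * (h * n) * w⁻¹ := by group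
          _ = h * n := by rw [hwx, mul_inv_cancel_right]
      rw [show (w * h * w⁻¹)⁻¹ * h = (w * n * w⁻¹) * n⁻¹ by
        rw [eq_mul_inv_iff_mul_eq, mul_assoc, ← h1, inv_mul_cancel_left]]
      exact mul_mem (hDn.conj_mem n hnD w) (D.inv_mem hnD)
    rw [hZ, mem_bot, inv_mul_eq_one] at hwhn
    have hwh : w * h = h * w := mul_inv_eq_iff_eq_mul.1 hwhn
    have hwn : w * n = n * w := by
      calc w * n = (w * h * w⁻¹)⁻¹ * (w * (h * n)) := by group
        _ = h⁻¹ * (h * n * w) := by rw [hwhn, hwx]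
        _ = n * w := by group
    exact hw1 (hhw w ⟨hwV, mem_centralizer_singleton_iff.2 hwn⟩ hwh)
  refine ⟨?_, hfaith⟩
  by_contra htop
  obtain ⟨h, -, v, hv, ho, hi, hw⟩ := bad_sub d le_rfl d.ne
    (fun _ _ => normalizer_eq_top (h := hX) ▸ mem_top _) hX.isSubnormal hfaith (Or.inl htop)
  obtain ⟨w, hwV, hw1, hwh⟩ := d.sidki h v hv ho hi
  exact hw1 (hw w hwV hwh)

theorem fitting_eq_bot : Cfsg.fittingSubgroup G = ⊥ := by
  by_contra hne
  have hnil := Cores.fittingSubgroup_isNilpotent (G := G)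
  have hn : ((center ↥(Cfsg.fittingSubgroup G)).map (Cfsg.fittingSubgroup G).subtype).Normal :=
    Cores.normal_map_subtype_of_characteristic _
  have h0 := abelian_eq_bot d ((center ↥(Cfsg.fittingSubgroup G)).map
    (Cfsg.fittingSubgroup G).subtype) (by
      rintro _ ⟨a, ha, rfl⟩ _ ⟨b, hb, rfl⟩
      exact congrArg Subtype.val (mem_center_iff.1 hb a))
  rw [map_eq_bot_iff_of_injective _ (Subgroup.subtype_injective _)] at h0
  have : Nontrivial ↥(Cfsg.fittingSubgroup G) := (nontrivial_iff_ne_bot _).2 hne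
  exact Group.IsNilpotent.center_ne_bot (G := ↥(Cfsg.fittingSubgroup G)) h0

/-- The conclusion. -/
theorem main : IsSimpleGroup ↥(Cfsg.generalizedFittingSubgroup G) ∧
    ¬ IsMulCommutative ↥(Cfsg.generalizedFittingSubgroup G) ∧
    V ⊔ Cfsg.generalizedFittingSubgroup G = ⊤ := by
  have : Fact (Nat.Prime 2) := ⟨Nat.prime_two⟩
  have hgf : Cfsg.generalizedFittingSubgroup G = Cfsg.layer G := by
    rw [Cfsg.generalizedFittingSubgroup, fitting_eq_bot d, sup_bot_eq]
  have hEn : (Cfsg.layer G).Normal := Components.layer_normal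
  have hEne : Cfsg.layer G ≠ ⊥ := by
    intro h
    obtain ⟨v, hv, hv1⟩ := exists_ne_one d.ne
    have h1 : v ∈ centralizer (Cfsg.generalizedFittingSubgroup G : Set G) :=
      mem_centralizer_iff.2 fun a ha => by
        rw [hgf, h, coe_bot, Set.mem_singleton_iff] at ha
        subst ha
        simp
    have h2 := Components.centralizer_genFitting_le h1
    rw [hgf, h, mem_bot] at h2
    exact hv1 h2
  obtain ⟨hVE, -⟩ := normal_supplement d (Cfsg.layer G) hEne
  obtain ⟨K, hK⟩ : ∃ K : Subgroup G, Cfsg.IsComponent K := by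
    by_contra h
    simp only [not_exists] at h
    exact hEne (Components.layer_eq_bot_iff.2 h)
  have hKne := Components.component_ne_bot hK
  -- the centre of `K` is trivial
  have hZK : ∀ k ∈ K, (∀ y ∈ K, k * y = y * k) → k = 1 := by
    intro k hk hcom
    have hn : (Cfsg.layer G ⊓ centralizer (Cfsg.layer G : Set G)).Normal := by
      have : (centralizer (Cfsg.layer G : Set G)).Normal := normal_centralizer
      infer_instance
    have h0 := abelian_eq_bot d (Cfsg.layer G ⊓ centralizer (Cfsg.layer G : Set G))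
      fun a ha b hb => (mem_centralizer_iff.1 ha.2 b hb.1).symm
    refine mem_bot.1 (h0 ▸ (⟨Components.component_le_layer hK hk, ?_⟩ :
      k ∈ Cfsg.layer G ⊓ centralizer (Cfsg.layer G : Set G)))
    have hle : Cfsg.layer G ≤ centralizer ({k} : Set G) := Components.layer_le_iff.2 fun L hL => by
      intro l hl
      refine mem_centralizer_singleton_iff.2 ?_
      by_cases hLK : L = K
      · subst hLK; exact (hcom l hl).symm
      · have h1 := Components.component_commute hL hK hLK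
        rw [commutator_eq_bot_iff_le_centralizer] at h1
        exact (mem_centralizer_iff.1 (h1 hl) k hk).symm
    exact mem_centralizer_iff.2 fun a ha => mem_centralizer_singleton_iff.1 (hle ha)
  set X := sSup (Components.conjOrbit V K) with hX
  have hKX : K ≤ X := le_sSup (Components.self_mem_conjOrbit V K)
  have hXn : X.Normal := by
    rw [← normalizer_eq_top_iff, ← top_le_iff, ← hVE]
    refine sup_le (fun v hv => Components.mem_normalizer_conjOrbit_sSup hv) fun e he =>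
      Components.mem_normalizer_sSup fun L hL =>
        Components.layer_le_normalizer_component (Components.conjOrbit_component hK hL) he
  obtain ⟨hVX, hXf⟩ := normal_supplement d X fun h => hKne (le_bot_iff.1 (h ▸ hKX))
  set V₁ := V ⊓ normalizer (K : Set G) with hV₁
  have hall : V ≤ normalizer (K : Set G) := by
    by_contra hnot
    have hcomm : ∀ w ∈ V, w ∉ normalizer (K : Set G) → ∀ a ∈ K, ∀ b ∈ K,
        a * (w * b * w⁻¹) = (w * b * w⁻¹) * a := by
      intro w _ hwK a ha b hb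
      have h1 := Components.component_commute hK (Components.component_conj w hK)
        (fun h => hwK (Fusion.cj_eq_iff_mem_normalizer.1 h.symm))
      rw [commutator_eq_bot_iff_le_centralizer] at h1
      exact (mem_centralizer_iff.1 (h1 ha) _ ⟨b, hb, rfl⟩).symm
    by_cases hV₁b : V₁ = ⊥
    · -- regular action
      obtain ⟨k, hk, hk1, hko⟩ : ∃ k ∈ K, k ≠ 1 ∧ Odd (orderOf k) := by
        by_contra h
        simp only [not_exists, not_and] at h
        refine Components.quasisimple_not_solvable hK.2 ?_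
        have h2 : IsPGroup 2 ↥K := by
          intro y
          obtain ⟨a, m, hm, hom⟩ := Nat.exists_eq_two_pow_mul_odd (orderOf_pos y).ne'
          refine ⟨a, Subtype.ext ?_⟩
          by_contra hne
          refine h _ (y ^ 2 ^ a).2 hne ?_
          rw [orderOf_coe, orderOf_pow' y (by positivity), hom, Nat.gcd_mul_right_left,
            Nat.mul_div_cancel_left _ (by positivity)]
          exact hm
        have := h2.isNilpotent
        infer_instance
      obtain ⟨u, hu, hu1⟩ := exists_ne_one d.ne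
      have huK : u ∉ normalizer (K : Set G) := fun h => hu1 (mem_bot.1 (hV₁b ▸ (⟨hu, h⟩ : u ∈ V₁)))
      set k' := u * k⁻¹ * u⁻¹ with hk'
      have hkk' : k * k' = k' * k := hcomm u hu huK k hk k⁻¹ (inv_mem hk)
      have huu := d.sq u hu
      have hui : u⁻¹ = u := inv_eq_of_mul_eq_one_right huu
      set x := k * k' with hx
      have hxo : Odd (orderOf x) := by
        refine Odd.of_dvd_nat (hko.mul ?_)
          ((show Commute k k' from hkk').orderOf_mul_dvd_lcm.trans (Nat.lcm_dvd_mul _ _))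
        rw [hk', show orderOf (u * k⁻¹ * u⁻¹) = orderOf k⁻¹ from (MulAut.conj u).orderOf_eq k⁻¹,
          orderOf_inv]
        exact hko
      have hxi : u * x * u⁻¹ = x⁻¹ := by
        rw [hx, hk']
        calc u * (k * (u * k⁻¹ * u⁻¹)) * u⁻¹ = (u * k * u⁻¹) * ((u * u) * k⁻¹ * (u * u)⁻¹) := by group
          _ = (k * (u * k⁻¹ * u⁻¹))⁻¹ := by rw [huu]; group
      obtain ⟨w, hwV, hw1, hwx⟩ := d.sidki x u hu hxo hxi
      obtain ⟨y, hy, hky⟩ : ∃ y ∈ K, k * y ≠ y * k := by
        by_contra h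
        simp only [not_exists, not_and, not_not] at h
        exact hk1 (hZK k hk h)
      have hxy : x * y ≠ y * x := by
        intro h
        refine hky ?_
        have h1 : y * k' = k' * y := hcomm u hu huK y hy k⁻¹ (inv_mem hk)
        calc k * y = (k * k' * y) * k'⁻¹ := by rw [mul_assoc k k' y, ← h1]; group
          _ = (y * (k * k')) * k'⁻¹ := by rw [← hx, h]
          _ = y * k := by group
      have hwK : w ∉ normalizer (K : Set G) := fun h => hw1 (mem_bot.1 (hV₁b ▸ (⟨hwV, h⟩ : w ∈ V₁)))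
      have hcy : k * (w * y * w⁻¹) = (w * y * w⁻¹) * k := hcomm w hwV hwK k hk y hy
      have hwy : x * (w * y * w⁻¹) ≠ (w * y * w⁻¹) * x := by
        intro h
        refine hxy ?_
        have hxw : w⁻¹ * x * w = x := by rw [mul_assoc, ← hwx, inv_mul_cancel_left]
        calc x * y = w⁻¹ * ((w * (w⁻¹ * x * w) * w⁻¹) * (w * y * w⁻¹)) * w := by rw [hxw]; group
          _ = w⁻¹ * (x * (w * y * w⁻¹)) * w := by group
          _ = w⁻¹ * ((w * y * w⁻¹) * x) * w := by rw [h]
          _ = y * (w⁻¹ * x * w) := by group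
          _ = y * x := by rw [hxw]
      by_cases hwu : w = u
      · subst hwu
        have h1 : x⁻¹ = x := by rw [← hxi, hwx, mul_inv_cancel_right]
        have hx1 : x = 1 := by
          obtain ⟨j, hj⟩ := hxo
          have h2 := pow_orderOf_eq_one x
          have h3 : x * x = 1 := by nth_rw 1 [← h1]; exact inv_mul_cancel x
          rwa [hj, pow_succ, pow_mul, pow_two, h3, one_pow, one_mul] at h2
        exact hxy (by rw [hx1]; simp)
      · refine hwy ?_
        have hwuV : u⁻¹ * w ∈ V := mul_mem (inv_mem hu) hwV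
        have hwuK : u⁻¹ * w ∉ normalizer (K : Set G) := fun h => hwu (by
          have h2 : u⁻¹ * w = 1 := mem_bot.1 (hV₁b ▸ (⟨hwuV, h⟩ : u⁻¹ * w ∈ V₁))
          exact (inv_mul_eq_one.1 h2).symm)
        have h2 : k' * (w * y * w⁻¹) = (w * y * w⁻¹) * k' := by
          have h3 := hcomm _ hwuV hwuK k⁻¹ (inv_mem hk) y hy
          calc k' * (w * y * w⁻¹) = u * (k⁻¹ * ((u⁻¹ * w) * y * (u⁻¹ * w)⁻¹)) * u⁻¹ := by
                rw [hk']; group
            _ = u * (((u⁻¹ * w) * y * (u⁻¹ * w)⁻¹) * k⁻¹) * u⁻¹ := by rw [h3]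
            _ = (w * y * w⁻¹) * k' := by rw [hk']; group
        rw [hx, mul_assoc, h2, ← mul_assoc, hcy, mul_assoc]
    · have hf₁ : ∀ u ∈ V₁, (∀ y ∈ K, u * y = y * u) → u = 1 := by
        intro u hu huK
        refine hXf u hu.1 fun y hy => ?_
        have hle : X ≤ centralizer ({u} : Set G) := by
          refine sSup_le ?_
          rintro _ ⟨q, hq, rfl⟩ _ ⟨z, hz, rfl⟩
          refine mem_centralizer_singleton_iff.2 ?_
          show q * z * q⁻¹ * u = u * (q * z * q⁻¹)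
          have hqu : q * u = u * q := d.comm q hq u hu.1
          calc q * z * q⁻¹ * u = q * z * u * q⁻¹ := by
                rw [mul_assoc (q * z) q⁻¹ u, mul_assoc (q * z) u q⁻¹,
                  (show Commute q u from hqu).inv_left.eq]
            _ = q * (u * z) * q⁻¹ := by rw [mul_assoc q z u, ← huK z hz]
            _ = (q * u) * z * q⁻¹ := by group
            _ = u * (q * z * q⁻¹) := by rw [hqu]; group
        exact (mem_centralizer_singleton_iff.1 (hle hy)).symm
      have hne : V₁ ⊔ K ≠ ⊤ := fun h => hnot (fun v _ =>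
        (sup_le (inf_le_right : V₁ ≤ _) le_normalizer) (h ▸ mem_top v))
      obtain ⟨h, hhK, v, hv, ho, hi, hw⟩ := bad_sub d (inf_le_left : V₁ ≤ V) hV₁b inf_le_right
        hK.1 hf₁ (Or.inl hne)
      obtain ⟨w, hwV, hw1, hwh⟩ := d.sidki h v hv.1 ho hi
      by_cases hwK : w ∈ normalizer (K : Set G)
      · exact hw1 (hw w ⟨hwV, hwK⟩ hwh)
      · have hh1 : h = 1 := hZK h hhK fun y hy => by
          have h1 := hcomm w hwV hwK y hy h hhK
          rw [hwh, mul_inv_cancel_right] at h1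
          exact h1.symm
        exact hV₁b ((eq_bot_iff_forall _).2 fun u hu => hw u hu (by rw [hh1]; simp))
  have hXK : X = K := by
    refine le_antisymm (sSup_le ?_) hKX
    rintro _ ⟨q, hq, rfl⟩
    exact (Fusion.cj_eq_of_mem (hall hq)).le
  rw [hXK] at hXn hVX
  have hlayer : Cfsg.layer G = K := by
    refine le_antisymm (Components.layer_le_iff.2 fun L hL => ?_) (Components.component_le_layer hK)
    have hL' := Components.component_commutator_self hL
    rw [← hL', commutator_le]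
    intro a _ b _
    have key : ∀ g : G, ∃ v ∈ V, QuotientGroup.mk' K g = QuotientGroup.mk' K v := fun g => by
      have hg : g ∈ ((V ⊔ K : Subgroup G) : Set G) := hVX ▸ mem_top g
      rw [mul_normal V K] at hg
      obtain ⟨v, hv, y, hy, rfl⟩ := hg
      refine ⟨v, hv, ?_⟩
      rw [map_mul, show QuotientGroup.mk' K y = 1 from (QuotientGroup.eq_one_iff y).2 hy, mul_one]
    obtain ⟨a', ha', hea⟩ := key a
    obtain ⟨b', hb', heb⟩ := key b
    refine (QuotientGroup.eq_one_iff _).1 ?_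
    show QuotientGroup.mk' K ⁅a, b⁆ = 1
    rw [map_commutatorElement, hea, heb, ← map_commutatorElement,
      commutatorElement_eq_one_iff_mul_comm.2 (d.comm a' ha' b' hb'), map_one]
  rw [hgf, hlayer]
  have hq := Components.component_quasisimple hK
  have hZ : Subgroup.center ↥K = ⊥ := (eq_bot_iff_forall _).2 fun z hz =>
    Subtype.ext (hZK z z.2 fun y hy => (congrArg Subtype.val (mem_center_iff.1 hz ⟨y, hy⟩)).symm)
  refine ⟨?_, fun hc => ?_, hVX⟩
  · have hs := hq.2
    exact ((QuotientGroup.quotientBot (G := ↥K)).symm.trans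
      (QuotientGroup.quotientMulEquivOfEq hZ.symm)).isSimpleGroup
  · exact Components.quasisimple_center_ne_top hq (eq_top_iff.2 fun u _ =>
      Subgroup.mem_center_iff.2 fun v => mul_comm' v u)

end Cfsg.Agent.LocEven.Sidki
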